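import Cfsg.Agent.Lib.CubicBlock.Scalar

/-! Bounding a normal 2-subgroup of class two with scalar centre. -/

namespace Cfsg.Agent.CubicBlock

open Subgroup Module
open scoped commutatorElement

variable {G : Type*} [Group G] {M : Type*} [AddCommGroup M] [Module (ZMod 3) M]
variable {ψ : G →* Module.End (ZMod 3) M} {R : Subgroup G} {b x : G}

/-- Data of the scalar case. -/
structure Core (ψ : G →* Module.End (ZMod 3) M) (R U : Subgroup G) (z : G) : Prop where
  normal : U.Normal
  le : U ≤ R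
  two : IsPGroup 2 U
  cent : ∀ c ∈ R, (∀ u ∈ U, c * u = u * c) → c ∈ U
  comm : ∀ u ∈ U, ∀ v ∈ U, IsSc ψ ⁅u, v⁆
  centre : ∀ u ∈ U, (∀ v ∈ U, u * v = v * u) → IsSc ψ u
  sq : ∀ u ∈ U, IsSc ψ (u * u)
  max : ∀ N : Subgroup G, N.Normal → IsPGroup 2 N → N ≤ R → N ≤ U
  zU : z ∈ U
  zneg : ψ z = -1

variable {U : Subgroup G} {z : G}

theorem Core.sc_iff (hh : Hyp ψ R b x) (hc : Core ψ R U z) {g : G} :
    IsSc ψ g ↔ g = 1 ∨ g = z := by
  constructor
  · rintro (h | h)
    · exact Or.inl h
    · exact Or.inr (hh.inj (h.trans hc.zneg.symm))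
  · rintro (h | h)
    · exact Or.inl h
    · exact Or.inr (h ▸ hc.zneg)

/-- Averaging over `U`. -/
noncomputable def avg (ψ : G →* Module.End (ZMod 3) M) (U : Subgroup G) [Fintype U]
    (X : Module.End (ZMod 3) M) : Module.End (ZMod 3) M :=
  (Fintype.card U : ZMod 3)⁻¹ • ∑ v : U, ψ (v : G) * X * ψ ((v : G)⁻¹)

theorem avg_comm [Fintype U] (X : Module.End (ZMod 3) M) {w : G} (hw : w ∈ U) :
    ψ w * avg ψ U X = avg ψ U X * ψ w := by
  rw [avg, mul_smul_comm, smul_mul_assoc, Finset.mul_sum, Finset.sum_mul]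
  congr 1
  refine Fintype.sum_equiv (Equiv.mulLeft (⟨w, hw⟩ : U)) _ _ (fun v => ?_)
  simp only [Equiv.coe_mulLeft, Subgroup.coe_mul, mul_assoc, mul_inv_rev, map_mul]
  rw [← map_mul ψ w⁻¹ w, inv_mul_cancel, map_one, mul_one]

theorem avg_twist [Fintype U] (X : Module.End (ZMod 3) M) {w : G} (hw : w ∈ U) :
    avg ψ U (ψ w * X * ψ w⁻¹) = avg ψ U X := by
  rw [avg, avg]
  congr 1
  refine Fintype.sum_equiv (Equiv.mulRight (⟨w, hw⟩ : U)) _ _ (fun v => ?_)
  simp only [Equiv.coe_mulRight, Subgroup.coe_mul, mul_inv_rev, map_mul, mul_assoc]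

theorem avg_self [Fintype U] (hU : (Fintype.card U : ZMod 3) ≠ 0) (X : Module.End (ZMod 3) M)
    (hX : ∀ v ∈ U, ψ v * X = X * ψ v) : avg ψ U X = X := by
  rw [avg, Finset.sum_congr rfl (fun v _ => by
    rw [hX _ v.2, mul_assoc, ← map_mul, mul_inv_cancel, map_one, mul_one] :
      ∀ v ∈ (Finset.univ : Finset U), ψ (v : G) * X * ψ ((v : G)⁻¹) = X),
    Finset.sum_const, Finset.card_univ, ← Nat.cast_smul_eq_nsmul (ZMod 3), inv_smul_smul₀ hU]

theorem small_arith (k d : ℕ) (hk : k ≤ 5) (hd : d ≤ 6) (hd0 : 0 < d) (h4 : 4 ≤ 2 ^ k)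
    (h8 : 2 ^ k ≠ 8) (hm : d * d % 2 ^ k = 0) (hle : 2 ^ k ≤ d * d) :
    2 ^ k = 4 ∨ 2 ^ k = 16 := by
  interval_cases k <;> interval_cases d <;> simp_all

set_option maxHeartbeats 3000000 in
theorem Core.bound [Finite G] [FiniteDimensional (ZMod 3) M] (hh : Hyp ψ R b x)
    (hc : Core ψ R U z) :
    Nat.card (U ⧸ Subgroup.center U) = 4 ∨ Nat.card (U ⧸ Subgroup.center U) = 16 := by
  classical
  haveI := Fintype.ofFinite U
  haveI : Fact (Nat.Prime 2) := ⟨Nat.prime_two⟩
  set Z := Subgroup.center U with hZdef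
  set T := U ⧸ Z with hT
  haveI := Fintype.ofFinite T
  have hzc : ∀ g, z * g = g * z := (hc.sc_iff hh |>.mpr (Or.inr rfl)).comm hh
  have hz1 : z ≠ 1 := by
    intro h
    obtain ⟨y, hy0, -⟩ := hh.lines
    have := LinearMap.congr_fun hc.zneg y
    rw [h, app_one, LinearMap.neg_apply, Module.End.one_apply] at this
    exact hy0 (eq_neg_self this)
  have hmemZ : ∀ u : U, u ∈ Z ↔ (u : G) = 1 ∨ (u : G) = z := by
    intro u
    rw [hZdef, Subgroup.mem_center_iff]
    constructor
    · exact fun h => (hc.sc_iff hh).mp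
        (hc.centre u u.2 fun v hv => (congrArg Subtype.val (h ⟨v, hv⟩)).symm)
    · intro h v
      refine Subtype.ext ?_
      rcases h with h | h <;> simp [Subgroup.coe_mul, h, hzc]
  have hZ2 : Nat.card Z = 2 := by
    have e : Z ≃ Bool :=
      { toFun := fun u => decide ((u : U) = ⟨z, hc.zU⟩)
        invFun := fun c => if c then ⟨⟨z, hc.zU⟩, (hmemZ _).mpr (Or.inr rfl)⟩ else 1
        left_inv := fun u => by
          rcases (hmemZ u).mp u.2 with h | h
          · have : (u : U) = 1 := Subtype.ext h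
            simp [this, show (1 : U) ≠ ⟨z, hc.zU⟩ from fun h' => hz1 (congrArg Subtype.val h').symm]
            exact Subtype.ext this.symm
          · have : (u : U) = ⟨z, hc.zU⟩ := Subtype.ext h
            simp [this]
            exact Subtype.ext this.symm
        right_inv := fun c => by
          cases c
          · simp [show (1 : U) ≠ ⟨z, hc.zU⟩ from fun h' => hz1 (congrArg Subtype.val h').symm]
          · simp }
    rw [Nat.card_congr e]; simp
  set π := QuotientGroup.mk' Z with hπ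
  have hπeq : ∀ u : U, π u = 1 ↔ (u : G) = 1 ∨ (u : G) = z := fun u => by
    rw [← hmemZ]; exact QuotientGroup.eq_one_iff u
  have hTsq : ∀ t : T, t * t = 1 := by
    intro t
    obtain ⟨u, rfl⟩ := QuotientGroup.mk'_surjective Z t
    rw [← map_mul, hπeq]
    exact (hc.sc_iff hh).mp (hc.sq u u.2)
  have hTc : ∀ s t : T, s * t = t * s := by
    intro s t
    rw [← inv_eq_of_mul_eq_one_right (hTsq (s * t)), mul_inv_rev,
      inv_eq_of_mul_eq_one_right (hTsq s), inv_eq_of_mul_eq_one_right (hTsq t)]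
  have hUcard : Fintype.card U = Fintype.card T * 2 := by
    have := Subgroup.card_eq_card_quotient_mul_card_subgroup Z
    rw [hZ2, ← hT, Nat.card_eq_fintype_card, Nat.card_eq_fintype_card] at this
    exact this
  have hU3 : (Fintype.card U : ZMod 3) ≠ 0 := by
    rw [Ne, ZMod.natCast_eq_zero_iff, ← Nat.card_eq_fintype_card]
    exact fun h => hh.cop (h.trans (Subgroup.card_dvd_of_le hc.le))
  -- representatives
  set σ : T → G := fun t => ((Quotient.out t : U) : G) with hσ
  have hσU : ∀ t, σ t ∈ U := fun t => (Quotient.out t : U).2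
  have hσπ : ∀ t, π ⟨σ t, hσU t⟩ = t := fun t => QuotientGroup.out_eq' t
  have hσmul : ∀ (g : G) (hg : g ∈ U), IsSc ψ ((σ (π ⟨g, hg⟩))⁻¹ * g) := by
    intro g hg
    rw [hc.sc_iff hh]
    have : π ((⟨_, hσU (π ⟨g, hg⟩)⟩ : U)⁻¹ * ⟨g, hg⟩) = 1 := by
      rw [map_mul, map_inv, hσπ, inv_mul_cancel]
    simpa using (hπeq _).mp this
  have hψsc : ∀ g, IsSc ψ g → ψ g = 1 ∨ ψ g = -1 := fun g hg => by
    rcases hg with rfl | h
    · exact Or.inl (map_one ψ)
    · exact Or.inr h
  -- averaging kills noncentral elements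
  have hkill : ∀ w ∈ U, ¬ IsSc ψ w → ∀ X : Module.End (ZMod 3) M,
      (∀ v ∈ U, ψ v * X = X * ψ v) → avg ψ U (ψ w * X) = 0 := by
    intro w hw hns X hX
    obtain ⟨v, hv, hwv⟩ : ∃ v ∈ U, w * v ≠ v * w := by
      by_contra h; push Not at h; exact hns (hc.centre w hw h)
    have hcz : ⁅v, w⁆ = z := ((hc.sc_iff hh).mp (hc.comm v hv w hw)).resolve_left
      fun h => hwv (commutatorElement_eq_one_iff_mul_comm.mp h).symm
    have e : ψ v * (ψ w * X) * ψ v⁻¹ = -(ψ w * X) := by
      rw [← mul_assoc, mul_assoc (ψ v * ψ w) X, ← hX _ (U.inv_mem hv), ← mul_assoc, ← map_mul,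
        ← map_mul, show v * w * v⁻¹ = ⁅v, w⁆ * w by rw [commutatorElement_def]; group, hcz, map_mul,
        hc.zneg, neg_one_mul, neg_mul]
    have h2 := avg_twist (ψ := ψ) (ψ w * X) hv (U := U)
    rw [e] at h2
    have hneg : avg ψ U (-(ψ w * X)) = -avg ψ U (ψ w * X) := by
      rw [avg, avg]; simp [Finset.sum_neg_distrib]
    rw [hneg] at h2
    exact eq_neg_self h2.symm
  -- the commutant
  let Dc : Submodule (ZMod 3) (Module.End (ZMod 3) M) :=
    { carrier := {X | ∀ v ∈ U, ψ v * X = X * ψ v}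
      add_mem' := fun {X Y} hX hY v hv => by rw [mul_add, add_mul, hX v hv, hY v hv]
      zero_mem' := fun v _ => by simp
      smul_mem' := fun c X hX v hv => by rw [mul_smul_comm, smul_mul_assoc, hX v hv] }
  let Φ : Module.End (ZMod 3) M →ₗ[ZMod 3] (T → Dc) :=
    { toFun := fun X t => ⟨avg ψ U (ψ (σ t)⁻¹ * X), fun v hv => avg_comm _ hv⟩
      map_add' := fun X Y => funext fun t => Subtype.ext (by
        simp [avg, mul_add, add_mul, Finset.sum_add_distrib])
      map_smul' := fun c X => funext fun t => Subtype.ext (by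
        simp [avg, Finset.smul_sum, smul_comm c]) }
  let Ψ : (T → Dc) →ₗ[ZMod 3] Module.End (ZMod 3) M :=
    { toFun := fun f => ∑ t, ψ (σ t) * (f t : Module.End (ZMod 3) M)
      map_add' := fun f g => by simp [mul_add, Finset.sum_add_distrib]
      map_smul' := fun c f => by simp [Finset.smul_sum] }
  have hΦΨ : ∀ f, Φ (Ψ f) = f := by
    intro f
    funext t
    refine Subtype.ext ?_
    change avg ψ U (ψ (σ t)⁻¹ * ∑ s, ψ (σ s) * (f s : Module.End (ZMod 3) M)) = _
    have e : avg ψ U (ψ (σ t)⁻¹ * ∑ s, ψ (σ s) * (f s : Module.End (ZMod 3) M))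
        = ∑ s, avg ψ U (ψ ((σ t)⁻¹ * σ s) * (f s : Module.End (ZMod 3) M)) := by
      simp only [avg, Finset.mul_sum, Finset.sum_mul, ← mul_assoc, ← map_mul]
      rw [Finset.sum_comm, Finset.smul_sum]
    rw [e, Finset.sum_eq_single t]
    · rw [inv_mul_cancel, map_one, one_mul, avg_self hU3 _ (f t).2]
    · intro s _ hne
      refine hkill _ (U.mul_mem (U.inv_mem (hσU t)) (hσU s)) (fun hs => hne ?_) _ (f s).2
      have : π ((⟨_, hσU t⟩ : U)⁻¹ * ⟨_, hσU s⟩) = 1 := (hπeq _).mpr ((hc.sc_iff hh).mp hs)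
      rw [map_mul, map_inv, hσπ, hσπ, inv_mul_eq_one] at this
      exact this.symm
    · simp
  have hΨΦ : ∀ X, Ψ (Φ X) = X := by
    intro X
    change ∑ t, ψ (σ t) * avg ψ U (ψ (σ t)⁻¹ * X) = X
    have e : ∑ t, ψ (σ t) * avg ψ U (ψ (σ t)⁻¹ * X)
        = (Fintype.card U : ZMod 3)⁻¹ • ∑ v : U,
          (∑ t, ψ (σ t * (v : G) * (σ t)⁻¹)) * X * ψ ((v : G)⁻¹) := by
      simp only [avg, mul_smul_comm, ← Finset.smul_sum, Finset.mul_sum, Finset.sum_mul,
        ← mul_assoc, ← map_mul]
      rw [Finset.sum_comm]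
    rw [e]
    have inner : ∀ v : U, (∑ t, ψ (σ t * (v : G) * (σ t)⁻¹)) * X * ψ ((v : G)⁻¹)
        = if v ∈ Z then (Fintype.card T : ZMod 3) • X else 0 := by
      intro v
      split_ifs with hv
      · have hs : IsSc ψ (v : G) := (hc.sc_iff hh).mpr ((hmemZ v).mp hv)
        rw [Finset.sum_congr rfl (fun t _ => by
          rw [← hs.comm hh (σ t), mul_inv_cancel_right] :
            ∀ t ∈ (Finset.univ : Finset T), ψ (σ t * (v : G) * (σ t)⁻¹) = ψ (v : G)),
          Finset.sum_const, Finset.card_univ, ← Nat.cast_smul_eq_nsmul (ZMod 3), smul_mul_assoc,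
          smul_mul_assoc]
        congr 1
        rcases hψsc _ hs with h | h
        · rw [h, one_mul, show ψ ((v : G)⁻¹) = 1 by
            rw [inv_eq_of_mul_eq_one_right (hs.sq hh), h], mul_one]
        · rw [h, neg_one_mul, show ψ ((v : G)⁻¹) = -1 by
            rw [inv_eq_of_mul_eq_one_right (hs.sq hh), h], mul_neg_one, neg_neg]
      · have hzero : ∑ t, ψ (σ t * (v : G) * (σ t)⁻¹) = 0 := by
          obtain ⟨v₀, hv₀, hne⟩ : ∃ v₀ ∈ U, (v : G) * v₀ ≠ v₀ * v := by
            by_contra h; push Not at h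
            exact hv ((hmemZ v).mpr ((hc.sc_iff hh).mp (hc.centre v v.2 h)))
          have hcz : ⁅v₀, (v : G)⁆ = z := ((hc.sc_iff hh).mp (hc.comm v₀ hv₀ v v.2)).resolve_left
            fun h => hne (commutatorElement_eq_one_iff_mul_comm.mp h).symm
          have hstep : ∀ t, ψ (σ (π ⟨v₀, hv₀⟩ * t) * (v : G) * (σ (π ⟨v₀, hv₀⟩ * t))⁻¹)
              = -ψ (σ t * (v : G) * (σ t)⁻¹) := by
            intro t
            set t' := π ⟨v₀, hv₀⟩ * t with ht'
            have hcen : IsSc ψ ((σ t')⁻¹ * (v₀ * σ t)) := by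
              rw [hc.sc_iff hh]
              have : π ((⟨_, hσU t'⟩ : U)⁻¹ * (⟨v₀, hv₀⟩ * ⟨_, hσU t⟩)) = 1 := by
                rw [map_mul, map_inv, map_mul, hσπ, hσπ, ht', inv_mul_cancel]
              simpa using (hπeq _).mp this
            set c := (σ t')⁻¹ * (v₀ * σ t) with hcdef
            have e1 : σ t' * (v : G) * (σ t')⁻¹ = v₀ * (σ t * v * (σ t)⁻¹) * v₀⁻¹ := by
              have hd : σ t' * c = v₀ * σ t := by rw [hcdef]; group
              calc σ t' * (v : G) * (σ t')⁻¹ = σ t' * ((v : G) * (c * c⁻¹)) * (σ t')⁻¹ := by group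
                _ = (σ t' * c) * v * (σ t' * c)⁻¹ := by
                  rw [← mul_assoc (v : G) c, ← hcen.comm hh (v : G)]; group
                _ = _ := by rw [hd]; group
            have e2 : σ t * (v : G) * (σ t)⁻¹ = ⁅σ t, (v : G)⁆ * v := by
              rw [commutatorElement_def]; group
            have hs1 := hc.comm _ (hσU t) v v.2
            have e3 : v₀ * (σ t * v * (σ t)⁻¹) * v₀⁻¹ = z * (σ t * v * (σ t)⁻¹) := by
              rw [e2]
              calc v₀ * (⁅σ t, (v : G)⁆ * v) * v₀⁻¹ = (v₀ * ⁅σ t, (v : G)⁆) * v * v₀⁻¹ := by group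
                _ = ⁅σ t, (v : G)⁆ * (v₀ * v * v₀⁻¹) := by rw [← hs1.comm hh v₀]; group
                _ = ⁅σ t, (v : G)⁆ * (z * v) := by
                  rw [← hcz, commutatorElement_def]; group
                _ = z * (⁅σ t, (v : G)⁆ * v) := by rw [← mul_assoc, ← hzc, mul_assoc]
            rw [e1, e3, map_mul, hc.zneg, neg_one_mul]
          have h := (Fintype.sum_equiv (Equiv.mulLeft (π ⟨v₀, hv₀⟩))
            (fun t => ψ (σ (π ⟨v₀, hv₀⟩ * t) * (v : G) * (σ (π ⟨v₀, hv₀⟩ * t))⁻¹))
            (fun t => ψ (σ t * (v : G) * (σ t)⁻¹)) (fun t => rfl))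
          rw [Finset.sum_congr rfl (fun t _ => hstep t), Finset.sum_neg_distrib] at h
          exact eq_neg_self h.symm
        rw [hzero, zero_mul, zero_mul]
    rw [Finset.sum_congr rfl (fun v _ => inner v), ← Finset.sum_filter, Finset.sum_const,
      show (Finset.univ.filter fun v : U => v ∈ Z).card = 2 by
        rw [← Fintype.card_subtype, ← Nat.card_eq_fintype_card]; exact hZ2,
      ← Nat.cast_smul_eq_nsmul (ZMod 3), smul_smul, smul_smul, hUcard, Nat.cast_mul, mul_assoc,
      mul_comm ((2 : ℕ) : ZMod 3), inv_mul_cancel₀, one_smul]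
    rw [← Nat.cast_mul, ← hUcard]; exact hU3
  set d := Module.finrank (ZMod 3) M with hd
  set δ := Module.finrank (ZMod 3) Dc with hδ
  have hdim : Fintype.card T * δ = d * d := by
    have e : (T → Dc) ≃ₗ[ZMod 3] Module.End (ZMod 3) M :=
      LinearEquiv.ofLinear Ψ Φ (LinearMap.ext hΨΦ) (LinearMap.ext hΦΨ)
    have := e.finrank_eq
    rw [Module.finrank_pi_fintype, Finset.sum_const, Finset.card_univ, smul_eq_mul,
      Module.finrank_linearMap] at this
    exact this
  -- the action of `b`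
  have hbU : ∀ u ∈ U, b * u * b⁻¹ ∈ U := fun u hu => hc.normal.conj_mem u hu b
  let β : T → T := fun t => π ⟨b * σ t * b⁻¹, hbU _ (hσU t)⟩
  have hβπ : ∀ (u : G) (hu : u ∈ U), β (π ⟨u, hu⟩) = π ⟨b * u * b⁻¹, hbU u hu⟩ := by
    intro u hu
    have hs := hσmul u hu
    set w := (σ (π ⟨u, hu⟩))⁻¹ * u with hw
    rw [eq_comm, ← inv_mul_eq_one, ← map_inv, ← map_mul, hπeq]
    have : (b * u * b⁻¹)⁻¹ * (b * σ (π ⟨u, hu⟩) * b⁻¹) = w⁻¹ := by
      calc (b * u * b⁻¹)⁻¹ * (b * σ (π ⟨u, hu⟩) * b⁻¹) = b * w⁻¹ * b⁻¹ := by rw [hw]; group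
        _ = w⁻¹ := by
          rw [inv_eq_of_mul_eq_one_right (hs.sq hh), ← hs.comm hh b, mul_inv_cancel_right]
    simp only [Subgroup.coe_mul, Subgroup.coe_inv, this]
    exact (hc.sc_iff hh).mp (by rw [inv_eq_of_mul_eq_one_right (hs.sq hh)]; exact hs)
  have hβmul : ∀ s t, β (s * t) = β s * β t := by
    intro s t
    obtain ⟨⟨u, hu⟩, rfl⟩ := QuotientGroup.mk'_surjective Z s
    obtain ⟨⟨v, hv⟩, rfl⟩ := QuotientGroup.mk'_surjective Z t
    rw [← map_mul, hβπ u hu, hβπ v hv, ← map_mul]
    change β (π ⟨u * v, U.mul_mem hu hv⟩) = _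
    rw [hβπ]
    congr 1
    exact Subtype.ext (show b * (u * v) * b⁻¹ = b * u * b⁻¹ * (b * v * b⁻¹) by group)
  have hβ3 : ∀ t, β (β (β t)) = t := by
    intro t
    obtain ⟨⟨u, hu⟩, rfl⟩ := QuotientGroup.mk'_surjective Z t
    rw [hβπ u hu, hβπ _ (hbU u hu), hβπ _ (hbU _ (hbU u hu))]
    congr 1
    refine Subtype.ext ?_
    change b * (b * (b * u * b⁻¹) * b⁻¹) * b⁻¹ = u
    rw [show b * (b * (b * u * b⁻¹) * b⁻¹) * b⁻¹ = b ^ 3 * u * (b ^ 3)⁻¹ by
      simp [pow_succ, mul_assoc], hh.b3]
    group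
  have hβinj : Function.Injective β := fun s t h => by rw [← hβ3 s, ← hβ3 t, h]
  -- `b` moves some class
  obtain ⟨t₁, ht₁⟩ : ∃ t, β t ≠ t := by
    by_contra hno
    push Not at hno
    have hcomm : ∀ u ∈ U, b * u * b⁻¹ = u := by
      intro u hu
      have h := hno (π ⟨u, hu⟩)
      rw [hβπ u hu, eq_comm, ← inv_mul_eq_one, ← map_inv, ← map_mul, hπeq] at h
      have hs : IsSc ψ (u⁻¹ * (b * u * b⁻¹)) := (hc.sc_iff hh).mpr h
      set w := u⁻¹ * (b * u * b⁻¹) with hw
      have hstep : b * u * b⁻¹ = u * w := by rw [hw]; group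
      have hbw : b * w * b⁻¹ = w := by rw [← hs.comm hh b]; group
      have h3 : b * (b * (b * u * b⁻¹) * b⁻¹) * b⁻¹ = u * (w * w * w) := by
        rw [hstep, show b * (u * w) * b⁻¹ = (b * u * b⁻¹) * (b * w * b⁻¹) by group, hstep, hbw,
          show b * (u * w * w) * b⁻¹ = (b * u * b⁻¹) * (b * w * b⁻¹) * (b * w * b⁻¹) by group,
          hstep, hbw]
        group
      rw [show b * (b * (b * u * b⁻¹) * b⁻¹) * b⁻¹ = b ^ 3 * u * (b ^ 3)⁻¹ by
        simp [pow_succ, mul_assoc], hh.b3,
        one_mul, inv_one, mul_one, hs.sq hh, one_mul, left_eq_mul] at h3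
      rw [hstep, h3, mul_one]
    haveI := hc.normal
    have hC := hh.le_of_normal (Subgroup.centralizer (U : Set G))
      (Subgroup.mem_centralizer_iff.mpr fun u hu => by
        nth_rw 1 [← hcomm u hu]; group)
    have hsc : ∀ u ∈ U, IsSc ψ u := fun u hu => hc.centre u hu fun v hv =>
      (Subgroup.mem_centralizer_iff.mp (hC ▸ Subgroup.mem_top u :
        u ∈ Subgroup.centralizer (U : Set G)) v hv).symm
    have hx := hsc x (hc.cent x hh.xR fun u hu => ((hsc u hu).comm hh x).symm)
    exact hh.xne (by rw [← hx.comm hh b]; group)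
  set Fx := Finset.univ.filter (fun t : T => β t = t) with hFx
  have hF4 : 4 * Fx.card ≤ Fintype.card T := by
    have hFmul : ∀ s ∈ Fx, ∀ t ∈ Fx, s * t ∈ Fx := fun s hs t ht => by
      simp only [hFx, Finset.mem_filter, Finset.mem_univ, true_and] at hs ht ⊢
      rw [hβmul, hs, ht]
    have hnot : ∀ h ∈ Fx, β t₁ ≠ t₁ * h := by
      intro h hhF e
      simp only [hFx, Finset.mem_filter, Finset.mem_univ, true_and] at hhF
      have := hβ3 t₁
      rw [e, hβmul, hβmul, hhF, hhF, e, hβmul, e, hhF] at this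
      rw [mul_assoc (t₁ * h) h h, hTsq, mul_one] at this
      exact ht₁ (e.trans this)
    have ht₁F : t₁ ∉ Fx := by simp [hFx, ht₁]
    have hbt : β t₁ ∉ Fx := by
      simp only [hFx, Finset.mem_filter, Finset.mem_univ, true_and]
      exact fun h => ht₁ (hβinj h)
    let reps : Finset T := {1, t₁, β t₁, t₁ * β t₁}
    have hinv : ∀ t : T, t⁻¹ = t := fun t => inv_eq_of_mul_eq_one_right (hTsq t)
    have hsep : ∀ r ∈ reps, ∀ r' ∈ reps, r * r' ∈ Fx → r = r' := by
      intro r hr r' hr' hrr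
      have h1 : t₁ * β t₁ ∉ Fx := fun h => hnot _ h (by rw [← mul_assoc, hTsq, one_mul])
      have c1 : t₁ * (t₁ * β t₁) = β t₁ := by rw [← mul_assoc, hTsq, one_mul]
      have c2 : β t₁ * (t₁ * β t₁) = t₁ := by
        rw [hTc t₁ (β t₁), ← mul_assoc, hTsq, one_mul]
      simp only [reps, Finset.mem_insert, Finset.mem_singleton] at hr hr'
      rcases hr with e₁ | e₁ | e₁ | e₁ <;> rcases hr' with e₂ | e₂ | e₂ | e₂ <;>
        rw [e₁, e₂] at hrr ⊢ <;>
        first
        | rfl
        | exact absurd hrr h1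
        | (exfalso; try simp only [one_mul, mul_one, c1, c2, hTc (t₁ * β t₁) t₁, hTc (t₁ * β t₁) (β t₁),
            hTc (β t₁) t₁] at hrr; first | exact ht₁F hrr | exact hbt hrr | exact h1 hrr)
    have hinjm : Set.InjOn (fun p : T × T => p.1 * p.2) ↑(reps ×ˢ Fx) := by
      rintro ⟨r, f⟩ hp ⟨r', f'⟩ hp' h
      simp only [Finset.coe_product, Set.mem_prod, Finset.mem_coe] at hp hp'
      simp only at h
      have e : r * r' = f * f' := by
        calc r * r' = r * r' * ((r * f) * (r' * f')) := by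
              rw [h, hTsq, mul_one]
          _ = (r * r) * (r' * r') * (f * f') := by
              simp only [mul_assoc]; congr 1
              rw [← mul_assoc r' r, hTc r' r, mul_assoc r r']
              congr 1
              rw [← mul_assoc f r', hTc f r', mul_assoc r' f]
          _ = f * f' := by rw [hTsq, hTsq, one_mul, one_mul]
      have hr := hsep r hp.1 r' hp'.1 (e ▸ hFmul f hp.2 f' hp'.2)
      subst hr
      exact Prod.ext rfl (mul_left_cancel h)
    have h4 : reps.card = 4 := by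
      have n1 : t₁ * β t₁ ≠ 1 := fun h => ht₁ (calc
        β t₁ = t₁ * (t₁ * β t₁) := by rw [← mul_assoc, hTsq, one_mul]
        _ = t₁ := by rw [h, mul_one])
      have n2 : t₁ ≠ 1 := fun h => ht₁F (h ▸ by
        simp only [hFx, Finset.mem_filter, Finset.mem_univ, true_and]
        have := hβmul 1 1; rw [mul_one, left_eq_mul] at this; exact this)
      have n3 : β t₁ ≠ 1 := fun h => hbt (h ▸ by
        simp only [hFx, Finset.mem_filter, Finset.mem_univ, true_and]
        have := hβmul 1 1; rw [mul_one, left_eq_mul] at this; exact this)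
      simp only [reps]
      rw [Finset.card_insert_of_notMem (by simp [Ne.symm n1, Ne.symm n2, Ne.symm n3]),
        Finset.card_insert_of_notMem (by simp [Ne.symm ht₁, n3]),
        Finset.card_insert_of_notMem (by simp [n2]), Finset.card_singleton]
    have := Finset.card_le_card_of_injOn (fun p : T × T => p.1 * p.2)
      (fun p _ => Finset.mem_univ _) hinjm
    rw [Finset.card_product, h4, Finset.card_univ] at this
    exact this
  -- representatives of the orbits
  let e := Fintype.equivFin T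
  set S := Finset.univ.filter (fun t : T => e t ≤ e (β t) ∧ e t ≤ e (β (β t))) with hS
  have hS2 : 2 * S.card ≤ Fintype.card T := by
    set S' := S.filter (fun t => β t ≠ t) with hS'
    have h1 : S.card ≤ S'.card + Fx.card := by
      refine (Finset.card_le_card (t := S' ∪ Fx) fun t ht => ?_).trans (Finset.card_union_le _ _)
      by_cases h : β t = t <;> simp [hS', hFx, ht, h]
    have hmin : ∀ t ∈ S', β t ∉ S' ∧ β (β t) ∉ S' := by
      intro t ht
      simp only [hS', hS, Finset.mem_filter, Finset.mem_univ, true_and] at ht ⊢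
      obtain ⟨⟨l1, l2⟩, hne⟩ := ht
      constructor
      · rintro ⟨⟨-, l4⟩, -⟩
        rw [hβ3] at l4
        exact hne (e.injective (le_antisymm l4 l1))
      · rintro ⟨⟨l3, -⟩, -⟩
        rw [hβ3] at l3
        have h := e.injective (le_antisymm l3 l2)
        exact hne (calc β t = β (β (β t)) := by rw [h]
          _ = t := hβ3 t)
    have hd1 : Disjoint S' (S'.image β) := Finset.disjoint_left.mpr fun t ht h => by
      obtain ⟨s, hs, rfl⟩ := Finset.mem_image.mp h; exact (hmin s hs).1 ht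
    have hd2 : Disjoint (S' ∪ S'.image β) (S'.image (β ∘ β)) := Finset.disjoint_left.mpr fun t ht h => by
      obtain ⟨s, hs, rfl⟩ := Finset.mem_image.mp h
      rcases Finset.mem_union.mp ht with h' | h'
      · exact (hmin s hs).2 h'
      · obtain ⟨s', hs', e'⟩ := Finset.mem_image.mp h'
        exact (hmin s hs).1 (hβinj e' ▸ hs')
    have h2 : (S' ∪ S'.image β ∪ S'.image (β ∘ β)) ⊆ Finset.univ \ Fx := by
      intro t ht
      simp only [Finset.mem_sdiff, Finset.mem_univ, true_and, hFx, Finset.mem_filter]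
      intro hf
      have hmv : ∀ s ∈ S', β s ≠ s := fun s hs => (Finset.mem_filter.mp hs).2
      simp only [Finset.mem_union, Finset.mem_image, Function.comp_apply] at ht
      rcases ht with (h | ⟨s, hs, rfl⟩) | ⟨s, hs, rfl⟩
      · exact hmv t h hf
      · exact hmv s hs (hβinj hf)
      · exact hmv s hs (hβinj (hβinj hf))
    have h3 := Finset.card_le_card h2
    rw [Finset.card_union_of_disjoint hd2, Finset.card_union_of_disjoint hd1,
      Finset.card_image_of_injective _ hβinj,
      Finset.card_image_of_injective _ (hβinj.comp hβinj), Finset.card_univ_sdiff] at h3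
    omega
  -- centraliser of `b`
  let Cb : Submodule (ZMod 3) (Module.End (ZMod 3) M) :=
    { carrier := {X | ψ b * X = X * ψ b}
      add_mem' := fun {X Y} hX hY => by
        change ψ b * (X + Y) = (X + Y) * ψ b; rw [mul_add, add_mul, hX, hY]
      zero_mem' := by simp
      smul_mem' := fun c X hX => by
        change ψ b * (c • X) = (c • X) * ψ b; rw [mul_smul_comm, smul_mul_assoc, hX] }
  have hupper : Module.finrank (ZMod 3) Cb ≤ S.card * δ := by
    let L : Cb →ₗ[ZMod 3] (S → Dc) :=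
      (LinearMap.funLeft (ZMod 3) Dc (Subtype.val : S → T)).comp (Φ.comp Cb.subtype)
    have hL : Function.Injective L := by
      rw [← LinearMap.ker_eq_bot, eq_bot_iff]
      intro X hX
      rw [LinearMap.mem_ker] at hX
      have hzero : ∀ t ∈ S, (Φ (X : Module.End (ZMod 3) M)) t = 0 := fun t ht =>
        congrFun hX ⟨t, ht⟩
      have hstep : ∀ t, (Φ (X : Module.End (ZMod 3) M)) t = 0 →
          (Φ (X : Module.End (ZMod 3) M)) (β t) = 0 := by
        intro t ht
        refine Subtype.ext ?_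
        have ht' : avg ψ U (ψ (σ t)⁻¹ * X) = 0 := congrArg Subtype.val ht
        change avg ψ U (ψ (σ (β t))⁻¹ * X) = 0
        have hs := hσmul (b * σ t * b⁻¹) (hbU _ (hσU t))
        set w := (σ (β t))⁻¹ * (b * σ t * b⁻¹) with hw
        have e1 : (σ (β t))⁻¹ = w * (b * (σ t)⁻¹ * b⁻¹) := by rw [hw]; group
        clear_value w
        have hXb : ψ b⁻¹ * (X : Module.End (ZMod 3) M) = X * ψ b⁻¹ := by
          calc ψ b⁻¹ * (X : Module.End (ZMod 3) M) = ψ b⁻¹ * (X * ψ b) * ψ b⁻¹ := by
                rw [mul_assoc, mul_assoc (X : Module.End (ZMod 3) M), ← map_mul, mul_inv_cancel,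
                  map_one, mul_one]
            _ = X * ψ b⁻¹ := by
              rw [← X.2, ← mul_assoc, ← map_mul, inv_mul_cancel, map_one, one_mul]
        have e2 : ψ (σ (β t))⁻¹ * (X : Module.End (ZMod 3) M)
            = ψ w * (ψ b * (ψ (σ t)⁻¹ * X) * ψ b⁻¹) := by
          rw [e1, map_mul, map_mul, map_mul]
          simp only [mul_assoc]
          rw [hXb]
        have hb : avg ψ U (ψ b * (ψ (σ t)⁻¹ * X) * ψ b⁻¹)
            = ψ b * avg ψ U (ψ (σ t)⁻¹ * X) * ψ b⁻¹ := by
          simp only [avg, mul_smul_comm, smul_mul_assoc, Finset.mul_sum, Finset.sum_mul]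
          congr 1
          let c : U ≃ U :=
            { toFun := fun v => ⟨b⁻¹ * v * b, by simpa using hc.normal.conj_mem v v.2 b⁻¹⟩
              invFun := fun v => ⟨b * v * b⁻¹, hbU v v.2⟩
              left_inv := fun v => Subtype.ext (by simp [mul_assoc])
              right_inv := fun v => Subtype.ext (by simp [mul_assoc]) }
          refine Fintype.sum_equiv c _ _ (fun v => ?_)
          simp only [c, Equiv.coe_fn_mk, mul_inv_rev, inv_inv, map_mul, ← mul_assoc]
          rw [← map_mul ψ b b⁻¹, mul_inv_cancel, map_one, one_mul]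
          simp only [mul_assoc]
          rw [← map_mul ψ b b⁻¹, mul_inv_cancel, map_one, mul_one]
        rw [e2]
        rcases hψsc w hs with h | h
        · rw [h, one_mul, hb, ht', mul_zero, zero_mul]
        · rw [h, neg_one_mul, show avg ψ U (-(ψ b * (ψ (σ t)⁻¹ * X) * ψ b⁻¹)) =
            -avg ψ U (ψ b * (ψ (σ t)⁻¹ * X) * ψ b⁻¹) by simp [avg, Finset.sum_neg_distrib],
            hb, ht', mul_zero, zero_mul, neg_zero]
      have hall : ∀ t, (Φ (X : Module.End (ZMod 3) M)) t = 0 := by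
        intro t
        obtain ⟨s, hs, hsS⟩ : ∃ s, (s = t ∨ s = β t ∨ s = β (β t)) ∧ s ∈ S := by
          obtain ⟨s, hsm, hsmin⟩ := Finset.exists_min_image {t, β t, β (β t)} e ⟨t, by simp⟩
          simp only [Finset.mem_insert, Finset.mem_singleton] at hsm hsmin
          refine ⟨s, hsm, ?_⟩
          simp only [hS, Finset.mem_filter, Finset.mem_univ, true_and]
          rcases hsm with rfl | rfl | rfl <;> refine ⟨?_, ?_⟩ <;> (try rw [hβ3]) <;>
            exact hsmin _ (by tauto)
        have h0 := hzero s hsS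
        rcases hs with rfl | rfl | rfl
        · exact h0
        · have := hstep _ (hstep _ h0); rwa [hβ3] at this
        · have := hstep _ h0; rwa [hβ3] at this
      rw [Submodule.mem_bot]
      refine Subtype.ext ?_
      rw [← hΨΦ (X : Module.End (ZMod 3) M), show Φ (X : Module.End (ZMod 3) M) = 0 from funext hall,
        map_zero]
      rfl
    have := LinearMap.finrank_le_finrank_of_injective hL
    rwa [Module.finrank_pi_fintype, Finset.sum_const, Finset.card_univ, Fintype.card_coe,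
      smul_eq_mul] at this
  have hlower : (d - 2) * (d - 2) + 2 ≤ Module.finrank (ZMod 3) Cb := by
    obtain ⟨y, hy0, hyx, hyx', hline, hfix, hdec⟩ := hh.lines
    set D : Module.End (ZMod 3) M := ψ b - 1 with hD
    have hDv : ∀ v, D v = ψ b v - v := fun v => rfl
    have hb3 : ∀ u, ψ b (ψ b (ψ b u)) = u := fun u => by
      rw [← app_mul, ← app_mul, ← pow_three' b, hh.b3, app_one]
    have hD3 : ∀ v, D (D (D v)) = 0 := fun v => by
      simp only [hDv, map_sub, hb3]
      have h := three_zero (ψ b v)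
      have h' := three_zero (ψ b (ψ b v))
      rw [show v - ψ b (ψ b v) - (ψ b (ψ b v) - ψ b v) - (ψ b (ψ b v) - ψ b v - (ψ b v - v))
        = (ψ b v + ψ b v + ψ b v) - (ψ b (ψ b v) + ψ b (ψ b v) + ψ b (ψ b v)) by abel, h, h',
        sub_zero]
    have hxb : ∀ v, ψ x (ψ b v) = ψ b (ψ x (ψ (b * x * b⁻¹) v)) := fun v => by
      rw [← app_mul, ← app_mul, ← app_mul, mul_assoc]
      congr 2
      calc x * b = (x * (b * x * b⁻¹)) * (b * x * b⁻¹) * b := by
            rw [mul_assoc x, show b * x * b⁻¹ * (b * x * b⁻¹) = b * (x * x) * b⁻¹ by group,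
              hh.x2]; group
        _ = (b * (b * x * b⁻¹) * b⁻¹) * (b * x * b⁻¹) * b := by rw [hh.xconj]
        _ = b * ((b * x * b⁻¹) * x) := by group
        _ = b * (x * (b * x * b⁻¹)) := by rw [hh.xcomm]
    have hx'b : ∀ v, ψ (b * x * b⁻¹) (ψ b v) = ψ b (ψ x v) := fun v => by
      rw [← app_mul, show b * x * b⁻¹ * b = b * x by group, app_mul]
    have hDD : D (D y) ≠ 0 := by
      intro h
      have e1 : D (D y) = y + ψ b y + ψ b (ψ b y) := by
        rw [hDv, hDv, map_sub]
        have := three_zero (ψ b y)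
        rw [show y + ψ b y + ψ b (ψ b y) =
          ψ b (ψ b y) - ψ b y - (ψ b y - y) + (ψ b y + ψ b y + ψ b y) by abel, this, add_zero]
      rw [e1] at h
      have hy1 : ψ x (ψ b y) = -(ψ b y) := by rw [hxb, hyx', map_neg, hyx, map_neg]
      have hy2 : ψ x (ψ b (ψ b y)) = -(ψ b (ψ b y)) := by
        rw [hxb, hx'b, hyx, hy1, map_neg]
      have h2 := congrArg (ψ x) h
      simp only [map_add, hyx, hy1, hy2, map_zero] at h2
      have : y + y = 0 := by
        rw [← add_zero (0 : M)]; nth_rw 1 [← h]; rw [← h2]; abel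
      exact hy0 (eq_neg_self (eq_neg_of_add_eq_zero_left this))
    set I := LinearMap.range D with hI
    set K := LinearMap.ker D with hK
    let Θ : ((M ⧸ I) →ₗ[ZMod 3] K) × (ZMod 3 × ZMod 3) →ₗ[ZMod 3] Module.End (ZMod 3) M :=
      { toFun := fun p => K.subtype ∘ₗ p.1 ∘ₗ I.mkQ + p.2.1 • 1 + p.2.2 • D
        map_add' := fun p q => LinearMap.ext fun v => by simp [add_smul]; abel
        map_smul' := fun c p => LinearMap.ext fun v => by simp [smul_smul, smul_add] }
    have hmem : ∀ p, Θ p ∈ Cb := by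
      intro p
      refine LinearMap.ext fun v => ?_
      change ψ b (((p.1 (I.mkQ v)) : M) + p.2.1 • v + p.2.2 • D v)
        = ((p.1 (I.mkQ (ψ b v))) : M) + p.2.1 • ψ b v + p.2.2 • D (ψ b v)
      have h1 : ψ b ((p.1 (I.mkQ v)) : M) = (p.1 (I.mkQ v) : M) := by
        have : D ((p.1 (I.mkQ v)) : M) = 0 := LinearMap.mem_ker.mp (p.1 (I.mkQ v)).2
        rw [hDv, sub_eq_zero] at this
        exact this
      have h2 : I.mkQ (ψ b v) = I.mkQ v := by
        rw [Submodule.mkQ_apply, Submodule.mkQ_apply, Submodule.Quotient.eq]; exact ⟨v, rfl⟩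
      have h3 : ψ b (D v) = D (ψ b v) := by simp [hDv]
      rw [map_add, map_add, map_smul, map_smul, h1, h2, h3]
    have hinjΘ : Function.Injective (Θ.codRestrict Cb hmem) := by
      rw [← LinearMap.ker_eq_bot, eq_bot_iff]
      intro p hp
      rw [LinearMap.mem_ker] at hp
      have hp' : ∀ v, ((p.1 (I.mkQ v)) : M) + p.2.1 • v + p.2.2 • D v = 0 := fun v =>
        LinearMap.congr_fun (congrArg Subtype.val hp) v
      have hz : ∀ w, I.mkQ (D w) = 0 := fun w => (Submodule.Quotient.mk_eq_zero I).mpr ⟨w, rfl⟩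
      have h1 := hp' (D y)
      rw [hz, map_zero, ZeroMemClass.coe_zero, zero_add] at h1
      have h2 := congrArg D h1
      rw [map_add, map_smul, map_smul, map_zero, hD3, smul_zero, add_zero, smul_eq_zero] at h2
      have c0 := h2.resolve_right hDD
      rw [c0, zero_smul, zero_add, smul_eq_zero] at h1
      have c1 := h1.resolve_right hDD
      rw [Submodule.mem_bot]
      refine Prod.ext ?_ (Prod.ext c0 c1)
      refine Submodule.linearMap_qext _ (LinearMap.ext fun v => Subtype.ext ?_)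
      have := hp' v
      rw [c0, c1, zero_smul, zero_smul, add_zero, add_zero] at this
      exact this
    have h := LinearMap.finrank_le_finrank_of_injective hinjΘ
    rw [Module.finrank_prod, Module.finrank_prod, Module.finrank_self, Module.finrank_linearMap] at h
    have e1 := I.finrank_quotient_add_finrank
    have e2 := D.finrank_range_add_finrank_ker
    have e3 : Module.finrank (ZMod 3) I ≤ 2 := hh.rank
    rw [← hK, ← hI] at e2
    have : (d - 2) * (d - 2) ≤ Module.finrank (ZMod 3) (M ⧸ I) * Module.finrank (ZMod 3) K :=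
      Nat.mul_le_mul (by omega) (by omega)
    omega
  -- arithmetic
  obtain ⟨k, hk⟩ : ∃ k, Fintype.card T = 2 ^ k := by
    obtain ⟨k, hk⟩ := (IsPGroup.iff_card.mp (hc.two.to_quotient Z) : ∃ k, Nat.card T = 2 ^ k)
    exact ⟨k, by rw [← Nat.card_eq_fintype_card]; exact hk⟩
  rw [Nat.card_eq_fintype_card]
  have hFpos : 0 < Fx.card := Finset.card_pos.mpr ⟨1, by
    simp only [hFx, Finset.mem_filter, Finset.mem_univ, true_and]
    have := hβmul 1 1; rw [mul_one, left_eq_mul] at this; exact this⟩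
  have hT4 : 4 ≤ Fintype.card T := by omega
  have hdpos : 0 < d := by
    obtain ⟨y, hy0, -⟩ := hh.lines
    haveI : Nontrivial M := ⟨⟨y, 0, hy0⟩⟩
    exact Module.finrank_pos
  have hδpos : 0 < δ := by
    rcases Nat.eq_zero_or_pos δ with h | h
    · rw [h, mul_zero] at hdim; nlinarith
    · exact h
  have hd6 : d ≤ 6 := by
    by_contra hlt
    obtain ⟨a, ha⟩ : ∃ a, d = a + 7 := ⟨d - 7, by omega⟩
    have h1 : 2 * (S.card * δ) ≤ d * d := by
      rw [← hdim, ← mul_assoc]; exact Nat.mul_le_mul_right δ hS2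
    have h2 := hlower.trans hupper
    rw [ha, show a + 7 - 2 = a + 5 by omega] at h2
    rw [ha] at h1
    nlinarith
  have hTle : Fintype.card T ≤ d * d := by rw [← hdim]; exact Nat.le_mul_of_pos_right _ hδpos
  have hk5 : k ≤ 5 := by
    by_contra h
    have : 2 ^ 6 ≤ 2 ^ k := Nat.pow_le_pow_right (by norm_num) (by omega)
    nlinarith
  -- exclude eight
  have h8 : Fintype.card T ≠ 8 := by
    intro h8
    obtain ⟨u, hu, v, hv, huv⟩ : ∃ u ∈ U, ∃ v ∈ U, u * v ≠ v * u := by
      by_contra h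
      push Not at h
      have hle : Fintype.card U ≤ 2 := by
        have hall : ∀ w : U, w ∈ Z := fun w => (hmemZ w).mpr
          ((hc.sc_iff hh).mp (hc.centre w w.2 (h w w.2)))
        rw [← hZ2, ← Nat.card_eq_fintype_card]
        exact Nat.card_le_card_of_injective (fun w => (⟨w, hall w⟩ : Z)) fun a c h =>
          congrArg Subtype.val h
      omega
    let CT : G → Subgroup T := fun g =>
      ((Subgroup.centralizer ({g} : Set G)).subgroupOf U).map π
    have key : ∀ g ∈ U, ∀ w ∈ U, ¬ g * w = w * g → ∀ a ∈ U, ¬ g * a = a * g →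
        g * (a * w) = (a * w) * g := by
      intro g hg w hw hgw a ha hga
      have c1 : ⁅g, w⁆ = z := ((hc.sc_iff hh).mp (hc.comm g hg w hw)).resolve_left
        fun h => hgw (commutatorElement_eq_one_iff_mul_comm.mp h)
      have c2 : ⁅g, a⁆ = z := ((hc.sc_iff hh).mp (hc.comm g hg a ha)).resolve_left
        fun h => hga (commutatorElement_eq_one_iff_mul_comm.mp h)
      rw [← commutatorElement_eq_one_iff_mul_comm]
      have hzz : z * z = 1 := ((hc.sc_iff hh).mpr (Or.inr rfl)).sq hh
      calc ⁅g, a * w⁆ = ⁅g, a⁆ * (a * ⁅g, w⁆ * a⁻¹) := by simp only [commutatorElement_def]; group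
        _ = 1 := by rw [c1, c2, ← hzc a, mul_inv_cancel_right, hzz]
    set P4 : Finset T := {1, π ⟨u, hu⟩, π ⟨v, hv⟩, π ⟨u, hu⟩ * π ⟨v, hv⟩} with hP4
    obtain ⟨t, ht⟩ : ∃ t, t ∉ P4 := by
      by_contra h
      push Not at h
      have := Finset.eq_univ_iff_forall.mpr h
      have hle : P4.card ≤ 4 := by rw [hP4]; exact Finset.card_le_four
      rw [this, Finset.card_univ, h8] at hle
      omega
    obtain ⟨⟨w0, hw0⟩, rfl⟩ := QuotientGroup.mk'_surjective Z t
    -- make it commute with `u`, then with `v`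
    obtain ⟨w1, hw1, hw1u, hw1t⟩ : ∃ w1, ∃ h : w1 ∈ U, u * w1 = w1 * u ∧ π ⟨w1, h⟩ ∉ P4 := by
      by_cases h : u * w0 = w0 * u
      · exact ⟨w0, hw0, h, ht⟩
      · refine ⟨v * w0, U.mul_mem hv hw0, key u hu w0 hw0 h v hv huv, fun hm => ht ?_⟩
        change π (⟨v, hv⟩ * ⟨w0, hw0⟩) ∈ P4 at hm
        rw [map_mul] at hm
        have e : π ⟨w0, hw0⟩ = π ⟨v, hv⟩ * (π ⟨v, hv⟩ * π ⟨w0, hw0⟩) := by
          rw [← mul_assoc, hTsq, one_mul]
        rw [e]
        generalize π ⟨v, hv⟩ * π ⟨w0, hw0⟩ = q at hm ⊢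
        simp only [hP4, Finset.mem_insert, Finset.mem_singleton] at hm ⊢
        rcases hm with rfl | rfl | rfl | rfl
        · simp
        · right; right; right; exact hTc _ _
        · left; exact hTsq _
        · right; left; rw [hTc (π ⟨u, hu⟩), ← mul_assoc, hTsq, one_mul]
    obtain ⟨w, hw, hwu, hwv, hwt⟩ : ∃ w, ∃ h : w ∈ U,
        u * w = w * u ∧ v * w = w * v ∧ π ⟨w, h⟩ ∉ P4 := by
      by_cases h : v * w1 = w1 * v
      · exact ⟨w1, hw1, hw1u, h, hw1t⟩
      · refine ⟨u * w1, U.mul_mem hu hw1, by rw [mul_assoc, ← hw1u],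
          key v hv w1 hw1 h u hu (fun e => huv e.symm), fun hm => hw1t ?_⟩
        change π (⟨u, hu⟩ * ⟨w1, hw1⟩) ∈ P4 at hm
        rw [map_mul] at hm
        have e : π ⟨w1, hw1⟩ = π ⟨u, hu⟩ * (π ⟨u, hu⟩ * π ⟨w1, hw1⟩) := by
          rw [← mul_assoc, hTsq, one_mul]
        rw [e]
        generalize π ⟨u, hu⟩ * π ⟨w1, hw1⟩ = q at hm ⊢
        simp only [hP4, Finset.mem_insert, Finset.mem_singleton] at hm ⊢
        rcases hm with rfl | rfl | rfl | rfl
        · simp
        · left; exact hTsq _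
        · right; right; right; rfl
        · right; right; left; rw [← mul_assoc, hTsq, one_mul]
    set C := CT w with hC
    have hin : ∀ (g : G) (hg : g ∈ U), g * w = w * g → π ⟨g, hg⟩ ∈ C := fun g hg h =>
      Subgroup.mem_map_of_mem π (Subgroup.mem_subgroupOf.mpr
        (Subgroup.mem_centralizer_singleton_iff.mpr h))
    have hCtop : C = ⊤ := by
      refine Subgroup.eq_top_of_card_eq _ ?_
      have h5 : 4 < Nat.card C := by
        have hsub : ∀ t ∈ insert (π ⟨w, hw⟩) P4, t ∈ C := by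
          intro t ht
          simp only [hP4, Finset.mem_insert, Finset.mem_singleton] at ht
          rcases ht with rfl | rfl | rfl | rfl | rfl
          · exact hin w hw rfl
          · exact one_mem _
          · exact hin u hu hwu
          · exact hin v hv hwv
          · exact mul_mem (hin u hu hwu) (hin v hv hwv)
        have hP : P4.card = 4 := by
          have nu : π ⟨u, hu⟩ ≠ 1 := fun h => by
            rcases (hπeq _).mp h with h | h <;> simp at h <;> subst h
            · exact huv (by simp)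
            · exact huv (hzc v)
          have nv : π ⟨v, hv⟩ ≠ 1 := fun h => by
            rcases (hπeq _).mp h with h | h <;> simp at h <;> subst h
            · exact huv (by simp)
            · exact huv (hzc u).symm
          have nuv : π ⟨u, hu⟩ ≠ π ⟨v, hv⟩ := fun h => by
            rw [eq_comm, ← inv_mul_eq_one, ← map_inv, ← map_mul, hπeq] at h
            have hs : IsSc ψ (v⁻¹ * u) := (hc.sc_iff hh).mpr h
            exact huv (by
              rw [show u = v * (v⁻¹ * u) by group, mul_assoc, hs.comm hh v, ← mul_assoc])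
          have nprod : π ⟨u, hu⟩ * π ⟨v, hv⟩ ≠ 1 := fun h => nuv (by
            rw [← mul_one (π ⟨u, hu⟩), ← h, ← mul_assoc, hTsq, one_mul])
          rw [hP4, Finset.card_insert_of_notMem (by simp [Ne.symm nu, Ne.symm nv, Ne.symm nprod]),
            Finset.card_insert_of_notMem (by simp [nuv, nv]),
            Finset.card_insert_of_notMem (by simp [nu]), Finset.card_singleton]
        have h := Finset.card_le_card (t := Finset.univ.filter (· ∈ C))
          (fun t ht => Finset.mem_filter.mpr ⟨Finset.mem_univ t, hsub t ht⟩)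
        rw [Finset.card_insert_of_notMem hwt, hP, ← Fintype.card_subtype,
          ← Nat.card_eq_fintype_card] at h
        exact h
      have hdvd := Subgroup.card_subgroup_dvd_card C
      rw [Nat.card_eq_fintype_card (α := T), h8] at hdvd ⊢
      have hle : Nat.card C ≤ 8 := Nat.le_of_dvd (by norm_num) hdvd
      interval_cases h : Nat.card C <;> omega
    refine hwt ?_
    have hsw : IsSc ψ w := hc.centre w hw fun g hg => by
      have hm : π ⟨g, hg⟩ ∈ C := by rw [hCtop]; exact Subgroup.mem_top _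
      obtain ⟨⟨g', hg'⟩, hmem, e⟩ := Subgroup.mem_map.mp hm
      have hgc : g' * w = w * g' :=
        Subgroup.mem_centralizer_singleton_iff.mp (Subgroup.mem_subgroupOf.mp hmem)
      rw [eq_comm, ← inv_mul_eq_one, ← map_inv, ← map_mul, hπeq] at e
      have hs : IsSc ψ (g⁻¹ * g') := (hc.sc_iff hh).mpr (by simpa using e)
      have hi : (g⁻¹ * g')⁻¹ = g⁻¹ * g' := inv_eq_of_mul_eq_one_right (hs.sq hh)
      calc w * g = w * g' * (g⁻¹ * g')⁻¹ := by group
        _ = g' * (w * (g⁻¹ * g')) := by rw [← hgc, hi, mul_assoc]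
        _ = g' * ((g⁻¹ * g') * w) := by rw [hs.comm hh w]
        _ = g' * ((g⁻¹ * g')⁻¹ * w) := by rw [hi]
        _ = g * w := by group
    rw [(hπeq ⟨w, hw⟩).mpr ((hc.sc_iff hh).mp hsw)]
    simp [hP4]
  have hmod : d * d % Fintype.card T = 0 := by rw [← hdim, Nat.mul_mod_right]
  rw [hk] at h8 hT4 hTle hmod ⊢
  exact small_arith k d hk5 hd6 hdpos hT4 h8 hmod hTle

end Cfsg.Agent.CubicBlock
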