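import Cfsg.Agent.Lib.CubicBlock.OddPart
import Cfsg.Agent.Lib.PGroupFrattini
import Cfsg.Prelude.Def_Transfer

/-! The monomial case: an elementary abelian normal 2-subgroup which is not scalar. -/

namespace Cfsg.Agent.CubicBlock

open Subgroup Module
open scoped commutatorElement

variable {G : Type*} [Group G] {M : Type*} [AddCommGroup M] [Module (ZMod 3) M]
variable {ψ : G →* Module.End (ZMod 3) M} {R : Subgroup G} {b x : G}

/-- Eigenspace of a function on `A`. -/
def eigen (ψ : G →* Module.End (ZMod 3) M) (A : Subgroup G) (χ : A → ZMod 3) :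
    Submodule (ZMod 3) M where
  carrier := {v | ∀ a : A, ψ (a : G) v = χ a • v}
  add_mem' := fun {u v} hu hv a => by rw [map_add, hu a, hv a, smul_add]
  zero_mem' := fun a => by rw [map_zero, smul_zero]
  smul_mem' := fun c v hv a => by rw [map_smul, hv a, smul_comm]

/-- The conclusion about `R`. -/
def Good (R : Subgroup G) : Prop :=
  (Cfsg.IsElementaryAbelian 2 R ∧ Nat.card R = 4) ∨
    (Cfsg.IsExtraspecial 2 R ∧ Nat.card R = 32 ∧
      ∃ A : Subgroup G, A ≤ R ∧ Cfsg.IsElementaryAbelian 2 A ∧ Nat.card A = 8)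

set_option maxHeartbeats 2000000 in
theorem mono_case [Finite G] [Group.IsSolvable G] [FiniteDimensional (ZMod 3) M]
    (hh : Hyp ψ R b x) (A : Subgroup G) [hA : A.Normal] (hAR : A ≤ R)
    (hcomm : ∀ a ∈ A, ∀ a' ∈ A, a * a' = a' * a) (hsq : ∀ a ∈ A, a * a = 1)
    (hns : ∃ a ∈ A, a ≠ 1 ∧ ψ a ≠ -1) : Good R := by
  classical
  obtain ⟨a₀, ha₀, ha₀1, ha₀n⟩ := hns
  have haa : ∀ (a : A) (v : M), ψ (a : G) (ψ (a : G) v) = v := fun a v => by
    rw [← app_mul, hsq _ a.2, app_one]
  -- spanning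
  set S : Submodule (ZMod 3) M := ⨆ χ : A → ZMod 3, eigen ψ A χ with hS
  have hspan : ∀ v : M, v ∈ S := by
    suffices H : ∀ (s : Finset A) (v : M), (∀ a ∉ s, ∃ c : ZMod 3, ψ (a : G) v = c • v) → v ∈ S by
      haveI := Fintype.ofFinite A
      exact fun v => H Finset.univ v (fun a ha => absurd (Finset.mem_univ a) ha)
    intro s
    induction s using Finset.induction with
    | empty =>
      intro v hv
      choose χ hχ using fun a => hv a (by simp)
      exact Submodule.mem_iSup_of_mem χ (fun a => hχ a)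
    | @insert a s has ih =>
      intro v hv
      have e : v = ((2 : ZMod 3) • (v + ψ (a : G) v)) + ((2 : ZMod 3) • (v - ψ (a : G) v)) := by
        rw [← smul_add, show v + ψ (a : G) v + (v - ψ (a : G) v) = (2 : ZMod 3) • v by
          rw [two_smul]; abel, smul_smul, show (2 : ZMod 3) * 2 = 1 by decide, one_smul]
      rw [e]
      have hother : ∀ c ∉ insert a s, ∀ σ : ZMod 3, ∃ d : ZMod 3,
          ψ (c : G) (v + σ • ψ (a : G) v) = d • (v + σ • ψ (a : G) v) := by
        intro c hc σ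
        obtain ⟨d, hd⟩ := hv c hc
        refine ⟨d, ?_⟩
        rw [map_add, map_smul, ← app_mul, hcomm _ c.2 _ a.2, app_mul, hd, map_smul, smul_add,
          smul_comm σ d]
      refine S.add_mem (S.smul_mem _ (ih _ fun c hc => ?_)) (S.smul_mem _ (ih _ fun c hc => ?_))
      · by_cases hca : c = a
        · exact ⟨1, by rw [hca, map_add, haa, one_smul, add_comm]⟩
        · simpa using hother c (by simp [hca, hc]) 1
      · by_cases hca : c = a
        · exact ⟨-1, by rw [hca, map_sub, haa, neg_smul, one_smul, neg_sub]⟩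
        · obtain ⟨d, hd⟩ := hother c (by simp [hca, hc]) (-1)
          exact ⟨d, by simpa [neg_smul, sub_eq_add_neg] using hd⟩
  -- facts about occurring functions
  let X := {χ : A → ZMod 3 // eigen ψ A χ ≠ ⊥}
  have hne : ∀ χ : X, ∃ v : M, v ∈ eigen ψ A χ.1 ∧ v ≠ 0 := fun χ =>
    Submodule.exists_mem_ne_zero_of_ne_bot χ.2
  choose e he he0 using hne
  have hsgn : ∀ (χ : X) (a : A), χ.1 a * χ.1 a = 1 := fun χ a => by
    have h := haa a (e χ)
    rw [he χ a, map_smul, he χ a, smul_smul] at h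
    have h' : (χ.1 a * χ.1 a - 1) • e χ = 0 := by rw [sub_smul, h, one_smul, sub_self]
    exact sub_eq_zero.mp ((smul_eq_zero.mp h').resolve_right (he0 χ))
  have hmulχ : ∀ (χ : X) (a c : A), χ.1 (a * c) = χ.1 a * χ.1 c := fun χ a c => by
    have h := he χ (a * c)
    rw [Subgroup.coe_mul, app_mul, he χ c, map_smul, he χ a, smul_smul] at h
    exact (smul_left_injective (ZMod 3) (he0 χ) (by simpa [mul_comm] using h)).symm
  haveI := Fintype.ofFinite A
  have hA3 : (Fintype.card A : ZMod 3) ≠ 0 := by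
    rw [Ne, ZMod.natCast_eq_zero_iff, ← Nat.card_eq_fintype_card]
    exact fun h => hh.cop (h.trans (Subgroup.card_dvd_of_le hAR))
  let P : (A → ZMod 3) → (M →ₗ[ZMod 3] M) := fun χ =>
    (Fintype.card A : ZMod 3)⁻¹ • ∑ a : A, χ a • ψ (a : G)
  have Pself : ∀ (χ : X) (v : M), v ∈ eigen ψ A χ.1 → P χ.1 v = v := fun χ v hv => by
    simp only [P, LinearMap.smul_apply, LinearMap.sum_apply]
    rw [Finset.sum_congr rfl (fun a _ => by
      rw [hv a, smul_smul, hsgn, one_smul] : ∀ a ∈ (Finset.univ : Finset A),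
        χ.1 a • ψ (a : G) v = v), Finset.sum_const, Finset.card_univ,
      ← Nat.cast_smul_eq_nsmul (ZMod 3), inv_smul_smul₀ hA3]
  have Pother : ∀ (χ ρ : X) (v : M), v ∈ eigen ψ A ρ.1 → χ ≠ ρ → P χ.1 v = 0 := fun χ ρ v hv hne => by
    simp only [P, LinearMap.smul_apply, LinearMap.sum_apply]
    obtain ⟨c, hc⟩ : ∃ c : A, χ.1 c * ρ.1 c ≠ 1 := by
      by_contra hno; push Not at hno
      exact hne (Subtype.ext (funext fun a => by
        calc χ.1 a = χ.1 a * ρ.1 a * ρ.1 a := by rw [mul_assoc, hsgn, mul_one]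
          _ = ρ.1 a := by rw [hno a, one_mul]))
    have hsum : ∑ a : A, χ.1 a • ψ (a : G) v = (∑ a : A, χ.1 a * ρ.1 a) • v := by
      rw [Finset.sum_smul]; exact Finset.sum_congr rfl (fun a _ => by rw [hv a, smul_smul])
    have hz : ∑ a : A, χ.1 a * ρ.1 a = (χ.1 c * ρ.1 c) * ∑ a : A, χ.1 a * ρ.1 a := by
      rw [Finset.mul_sum]
      exact (Fintype.sum_equiv (Equiv.mulLeft c) _ _ (fun a => by
        simp only [Equiv.coe_mulLeft, hmulχ]; ring)).symm
    have hz0 : ∑ a : A, χ.1 a * ρ.1 a = 0 := by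
      have : (χ.1 c * ρ.1 c - 1) * ∑ a : A, χ.1 a * ρ.1 a = 0 := by
        rw [sub_mul, ← hz, one_mul, sub_self]
      exact (mul_eq_zero.mp this).resolve_left (sub_ne_zero.mpr hc)
    rw [hsum, hz0, zero_smul, smul_zero]
  -- the action
  let act : G → (A → ZMod 3) → (A → ZMod 3) := fun g χ a =>
    χ ⟨g⁻¹ * a * g, by simpa using hA.conj_mem a a.2 g⁻¹⟩
  have hactmap : ∀ (g : G) (χ : A → ZMod 3) (v : M), v ∈ eigen ψ A χ →
      ψ g v ∈ eigen ψ A (act g χ) := fun g χ v hv a => by
    have h := hv ⟨g⁻¹ * a * g, by simpa using hA.conj_mem a a.2 g⁻¹⟩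
    change ψ (a : G) (ψ g v) = χ _ • ψ g v
    rw [← map_smul, ← h, ← app_mul, ← app_mul]; congr 2; group
  letI : MulAction G X :=
    { smul := fun g χ => ⟨act g χ.1, fun h => he0 χ (app_inj (ψ := ψ) g (by
        have := hactmap g χ.1 (e χ) (he χ); rw [h, Submodule.mem_bot] at this
        rw [this, map_zero]))⟩
      one_smul := fun χ => Subtype.ext (funext fun a => congrArg χ.1 (Subtype.ext (by simp)))
      mul_smul := fun g h χ => Subtype.ext (funext fun a => congrArg χ.1 (Subtype.ext (by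
        simp only [mul_inv_rev]; group))) }
  have hmap : ∀ (g : G) (χ : X) (v : M), v ∈ eigen ψ A χ.1 → ψ g v ∈ eigen ψ A (g • χ).1 :=
    fun g χ v hv => hactmap g χ.1 v hv
  have hext : ∀ (f f' : M →ₗ[ZMod 3] M), (∀ (χ : X), ∀ v ∈ eigen ψ A χ.1, f v = f' v) → f = f' := by
    intro f f' h
    refine LinearMap.ext fun v => ?_
    have : S ≤ LinearMap.eqLocus f f' := by
      refine iSup_le fun χ v hv => ?_
      by_cases hχ : eigen ψ A χ = ⊥
      · rw [hχ, Submodule.mem_bot] at hv; simp [hv]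
      · exact h ⟨χ, hχ⟩ v hv
    exact this (hspan v)
  -- `b` moves some occurring function
  obtain ⟨χ₁, hχ₁⟩ : ∃ χ : X, b • χ ≠ χ := by
    by_contra hno
    push Not at hno
    have hbA : ∀ a : A, b * a = a * b := by
      intro a
      apply hh.inj
      refine hext _ _ fun χ v hv => ?_
      rw [app_mul, app_mul, hv a, map_smul]
      have := hmap b χ v hv
      rw [hno χ] at this
      exact (this a).symm
    have hC := hh.le_of_normal (Subgroup.centralizer (A : Set G))
      (Subgroup.mem_centralizer_iff.mpr fun a ha => (hbA ⟨a, ha⟩).symm)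
    have hcent : ∀ g : G, a₀ * g = g * a₀ := fun g =>
      Subgroup.mem_centralizer_iff.mp (hC ▸ Subgroup.mem_top g :
        g ∈ Subgroup.centralizer (A : Set G)) a₀ ha₀
    rcases hh.irred (LinearMap.ker (ψ a₀ - 1)) (fun g v hv => by
      rw [LinearMap.mem_ker, LinearMap.sub_apply, sub_eq_zero] at hv ⊢
      change ψ a₀ (ψ g v) = ψ g v
      rw [← app_mul, hcent, app_mul]; exact congrArg (ψ g) hv) with h | h
    · refine ha₀n (LinearMap.ext fun v => ?_)
      have : ψ a₀ v + v ∈ LinearMap.ker (ψ a₀ - 1) := by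
        rw [LinearMap.mem_ker]
        change ψ a₀ (ψ a₀ v + v) - (ψ a₀ v + v) = 0
        rw [map_add, haa ⟨a₀, ha₀⟩]; abel
      rw [h, Submodule.mem_bot] at this
      exact eq_neg_of_add_eq_zero_left this
    · refine ha₀1 (hh.inj (LinearMap.ext fun v => ?_))
      rw [app_one]
      have : v ∈ LinearMap.ker (ψ a₀ - 1) := h ▸ Submodule.mem_top
      rw [LinearMap.mem_ker, LinearMap.sub_apply, sub_eq_zero] at this
      exact this
  set χ₂ := b • χ₁ with hχ₂
  set χ₃ := b • χ₂ with hχ₃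
  have hb3 : ∀ χ : X, b • b • b • χ = χ := fun χ => by
    rw [← mul_smul, ← mul_smul, ← pow_three' b, hh.b3, one_smul]
  have hb31 : b • χ₃ = χ₁ := hb3 χ₁
  have h13 : χ₃ ≠ χ₁ := fun h => hχ₁ (by
    have h' := congrArg (b • ·) h
    simp only [hb31] at h'
    exact h'.symm)
  have h23 : χ₃ ≠ χ₂ := fun h => hχ₁ (by
    have h' : b • χ₂ = χ₂ := h
    exact MulAction.injective b h')
  set D : M →ₗ[ZMod 3] M := ψ b - 1 with hD
  have hDv : ∀ v, D v = ψ b v - v := fun v => rfl
  set u := e χ₁ with hu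
  have hu1 := he χ₁
  have hu2 : ψ b u ∈ eigen ψ A χ₂.1 := hmap b χ₁ u hu1
  have hu3 : ψ b (ψ b u) ∈ eigen ψ A χ₃.1 := hmap b χ₂ _ hu2
  have hu30 : ψ b (ψ b u) ≠ 0 := fun h =>
    he0 χ₁ (app_inj (ψ := ψ) b (app_inj (ψ := ψ) b (by rw [h, map_zero, map_zero])))
  -- third vectors
  have third : ∀ w : M, (∀ g₀ g₂ : ZMod 3,
      (g₀ • P χ₁.1 (D u) + g₂ • P χ₁.1 (D w) = 0 → P χ₃.1 (D w) = 0 ∧ g₀ = 0) ∧
      (g₂ • D w = 0 → g₂ = 0)) → False := by
    intro w hw
    have hli : LinearIndependent (ZMod 3) ![D u, D (ψ b u), D w] := by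
      rw [Fintype.linearIndependent_iff]
      intro g hg
      simp only [Fin.sum_univ_three, Matrix.cons_val_zero, Matrix.cons_val_one, Matrix.cons_val]
        at hg
      have p1 : P χ₁.1 (D (ψ b u)) = 0 := by
        rw [hDv, map_sub, Pother χ₁ χ₃ _ hu3 h13.symm, Pother χ₁ χ₂ _ hu2 (Ne.symm hχ₁),
          sub_self]
      have e1 := congrArg (P χ₁.1) hg
      simp only [map_add, map_smul, map_zero, p1, smul_zero, add_zero] at e1
      obtain ⟨hw3, g0⟩ := (hw (g 0) (g 2)).1 e1
      have e3 := congrArg (P χ₃.1) hg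
      have p3 : P χ₃.1 (D (ψ b u)) = ψ b (ψ b u) := by
        rw [hDv, map_sub, Pself χ₃ _ hu3, Pother χ₃ χ₂ _ hu2 h23, sub_zero]
      simp only [map_add, map_smul, map_zero, p3, hw3, g0, smul_zero, add_zero, zero_smul,
        zero_add, smul_eq_zero, hu30, or_false] at e3
      rw [g0, e3, zero_smul, zero_smul, zero_add, zero_add] at hg
      have g2 := (hw (g 0) (g 2)).2 hg
      intro i; fin_cases i <;> assumption
    have hmem : ∀ i, ![D u, D (ψ b u), D w] i ∈ LinearMap.range D := by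
      intro i; fin_cases i <;> exact LinearMap.mem_range_self _ _
    have hli' : LinearIndependent (ZMod 3)
        (fun i => (⟨_, hmem i⟩ : LinearMap.range D)) :=
      LinearIndependent.of_comp (LinearMap.range D).subtype hli
    have h1 := hli'.fintype_card_le_finrank
    have := hh.rank
    rw [← hD] at this
    simp only [Fintype.card_fin] at h1
    omega
  have pu : P χ₁.1 (D u) = -u := by
    rw [hDv, map_sub, Pother χ₁ χ₂ _ hu2 (Ne.symm hχ₁), Pself χ₁ _ hu1, zero_sub]
  have line1 : ∀ v ∈ eigen ψ A χ₁.1, ∃ c : ZMod 3, v = c • u := by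
    intro v hv
    by_contra hno
    push Not at hno
    refine third v fun g₀ g₂ => ?_
    have pv : P χ₁.1 (D v) = -v := by
      rw [hDv, map_sub, Pother χ₁ χ₂ _ (hmap b χ₁ v hv) (Ne.symm hχ₁), Pself χ₁ _ hv, zero_sub]
    constructor
    · intro h
      refine ⟨?_, ?_⟩
      · rw [hDv, map_sub, Pother χ₃ χ₂ _ (hmap b χ₁ v hv) h23, Pother χ₃ χ₁ _ hv h13, sub_self]
      · rw [pu, pv, smul_neg, smul_neg] at h
        by_contra h0
        by_cases h2 : g₂ = 0
        · rw [h2, zero_smul, neg_zero, add_zero, neg_eq_zero, smul_eq_zero] at h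
          exact h.elim h0 (he0 χ₁)
        · refine hno (g₂⁻¹ * -g₀) ?_
          have h' : g₂ • v = -(g₀ • u) := by
            rw [eq_neg_iff_add_eq_zero, ← neg_eq_zero, neg_add, add_comm]; exact h
          have h3 := congrArg (g₂⁻¹ • ·) h'
          simp only [inv_smul_smul₀ h2] at h3
          rw [h3, mul_smul, neg_smul]
    · intro h
      have h' := congrArg (P χ₁.1) h
      rw [map_smul, pv, map_zero, smul_eq_zero, neg_eq_zero] at h'
      exact h'.resolve_right (fun h0 => hno 0 (by rw [h0, zero_smul]))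
  have outside : ∀ ρ : X, ρ ≠ χ₁ → ρ ≠ χ₂ → ρ ≠ χ₃ →
      ∀ w ∈ eigen ψ A ρ.1, ψ b w = w := by
    intro ρ r1 r2 r3 w hw
    by_contra hne
    refine third w fun g₀ g₂ => ?_
    have q1 : P χ₁.1 (D w) = 0 := by
      rw [hDv, map_sub, Pother χ₁ ρ _ hw r1.symm, Pother χ₁ (b • ρ) _ (hmap b ρ w hw) ?_, sub_self]
      intro h; exact r3 (MulAction.injective b (by change b • ρ = b • χ₃; rw [hb31, h]))
    have q3 : P χ₃.1 (D w) = 0 := by
      rw [hDv, map_sub, Pother χ₃ ρ _ hw r3.symm, Pother χ₃ (b • ρ) _ (hmap b ρ w hw) ?_, sub_self]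
      intro h; exact r2 (MulAction.injective b h.symm)
    refine ⟨fun h => ⟨q3, ?_⟩, fun h => ?_⟩
    · rw [q1, pu, smul_zero, add_zero, smul_neg, neg_eq_zero, smul_eq_zero] at h
      exact h.resolve_right (he0 χ₁)
    · exact (smul_eq_zero.mp h).resolve_right (by rw [hDv]; exact sub_ne_zero.mpr hne)
  have bfix : ∀ ρ : X, ρ ≠ χ₁ → ρ ≠ χ₂ → ρ ≠ χ₃ → b • ρ = ρ := by
    intro ρ r1 r2 r3
    by_contra h
    have h1 := hmap b ρ (e ρ) (he ρ)
    rw [outside ρ r1 r2 r3 (e ρ) (he ρ)] at h1
    have := Pother (b • ρ) ρ (e ρ) (he ρ) h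
    rw [Pself (b • ρ) _ h1] at this
    exact he0 ρ this
  -- transitivity
  have trans : ∀ ρ : X, ∃ g : G, g • χ₁ = ρ := by
    intro ρ
    by_contra hno
    push Not at hno
    set S' : Submodule (ZMod 3) M := ⨆ g : G, eigen ψ A (g • χ₁).1 with hS'
    have hinv : ∀ g : G, ∀ v ∈ S', ψ g v ∈ S' := by
      intro g v hv
      have : S' ≤ S'.comap (ψ g) := iSup_le fun h w hw => by
        rw [Submodule.mem_comap]
        refine Submodule.mem_iSup_of_mem (g * h) ?_
        rw [mul_smul]; exact hmap g _ w hw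
      exact this hv
    rcases hh.irred S' hinv with h | h
    · refine he0 χ₁ ((Submodule.mem_bot (ZMod 3)).mp (h ▸ Submodule.mem_iSup_of_mem 1 ?_))
      rw [one_smul]; exact hu1
    · have hk : S' ≤ LinearMap.ker (P ρ.1) := iSup_le fun g w hw => by
        rw [LinearMap.mem_ker]; exact Pother ρ _ w hw (hno g).symm
      have := hk (h ▸ Submodule.mem_top : e ρ ∈ S')
      rw [LinearMap.mem_ker, Pself ρ _ (he ρ)] at this
      exact he0 ρ this
  have lines : ∀ (ρ : X), ∀ v ∈ eigen ψ A ρ.1, ∃ c : ZMod 3, v = c • e ρ := by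
    intro ρ v hv
    obtain ⟨g, rfl⟩ := trans ρ
    have aux : ∀ w ∈ eigen ψ A (g • χ₁).1, ∃ c : ZMod 3, ψ g⁻¹ w = c • u := fun w hw => by
      refine line1 _ ?_
      have := hmap g⁻¹ _ w hw; rwa [inv_smul_smul] at this
    obtain ⟨c, hc⟩ := aux v hv
    obtain ⟨d, hd⟩ := aux _ (he (g • χ₁))
    have hd0 : d ≠ 0 := fun h0 => he0 (g • χ₁) (app_inj (ψ := ψ) g⁻¹ (by
      rw [hd, h0, zero_smul, map_zero]))
    refine ⟨c * d⁻¹, app_inj (ψ := ψ) g⁻¹ ?_⟩
    rw [map_smul, hc, hd, smul_smul, mul_assoc, inv_mul_cancel₀ hd0, mul_one]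
  -- coefficients
  have hs : ∀ (g : G) (χ : X), ∃ s : (ZMod 3)ˣ, ψ g (e χ) = (s : ZMod 3) • e (g • χ) := by
    intro g χ
    obtain ⟨c, hc⟩ := lines _ _ (hmap g χ _ (he χ))
    have hc0 : c ≠ 0 := fun h0 => he0 χ (app_inj (ψ := ψ) g (by rw [hc, h0, zero_smul, map_zero]))
    exact ⟨Units.mk0 c hc0, hc⟩
  choose s hs using hs
  have smul_mul : ∀ (g h : G) (χ : X), s (g * h) χ = s g (h • χ) * s h χ := by
    intro g h χ
    have h1 := hs (g * h) χ
    rw [app_mul, hs h χ, map_smul, hs g (h • χ), smul_smul, ← mul_smul g h χ] at h1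
    refine Units.ext ?_
    rw [Units.val_mul]
    exact (smul_left_injective (ZMod 3) (he0 _) (by simpa [mul_comm] using h1)).symm
  haveI : Fintype X := Fintype.ofFinite X
  let cs : G →* (ZMod 3)ˣ := MonoidHom.mk' (fun g => ∏ χ : X, s g χ) (fun g h => by
    simp only [smul_mul, Finset.prod_mul_distrib]
    congr 1
    exact Equiv.prod_comp (MulAction.toPerm h) (s g))
  have hcs : ∀ r ∈ R, ∏ χ : X, s r χ = 1 := fun r hr =>
    hh.kills cs (fun _ _ => mul_comm _ _) r hr
  have hfaith : ∀ g : G, (∀ χ : X, g • χ = χ) → (∀ χ, s g χ = 1) → g = 1 := by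
    intro g hg hsg
    apply hh.inj
    refine hext _ _ fun χ v hv => ?_
    obtain ⟨c, rfl⟩ := lines χ v hv
    rw [map_smul, map_smul, hs g χ, hsg χ, hg χ, app_one, Units.val_one, one_smul]
  set π : G →* Equiv.Perm X := MulAction.toPermHom G X with hπ
  have hπa : ∀ (g : G) (χ : X), π g χ = g • χ := fun g χ => rfl
  have units_sq : ∀ t : (ZMod 3)ˣ, t * t = 1 := by decide
  have sq_one : ∀ r : G, (∀ χ : X, r • χ = χ) → r * r = 1 := fun r hr =>
    hfaith _ (fun χ => by rw [mul_smul, hr, hr]) (fun χ => by rw [smul_mul, hr, units_sq])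
  have hRc : Nat.card R ≠ 0 := Nat.card_pos.ne'
  -- is `R` acting trivially?
  by_cases hR1 : ∀ r ∈ R, π r = 1
  · left
    have hfixR : ∀ r ∈ R, ∀ χ : X, r • χ = χ := fun r hr χ => by
      rw [← hπa, hR1 r hr]; rfl
    have hX : ∀ ρ : X, ρ = χ₁ ∨ ρ = χ₂ ∨ ρ = χ₃ := by
      intro ρ
      by_contra hno
      push Not at hno
      have hK : MulAction.stabilizer G ρ = ⊤ := hh.gen _ (fun r hr => hfixR r hr ρ)
        (bfix ρ hno.1 hno.2.1 hno.2.2)
      obtain ⟨g, hg⟩ := trans ρ
      have : g⁻¹ • ρ = ρ := (hK ▸ Subgroup.mem_top g⁻¹ : g⁻¹ ∈ MulAction.stabilizer G ρ)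
      rw [← hg, inv_smul_smul] at this
      exact hno.1 (hg ▸ this.symm)
    have huniv : (Finset.univ : Finset X) = {χ₁, χ₂, χ₃} := by
      ext ρ; simp [hX ρ]
    have hprod : ∀ r ∈ R, s r χ₁ * (s r χ₂ * s r χ₃) = 1 := fun r hr => by
      have := hcs r hr
      rw [huniv, Finset.prod_insert (by simp [Ne.symm hχ₁, h13.symm]),
        Finset.prod_insert (by simp [h23.symm]), Finset.prod_singleton] at this
      exact this
    have hsq2 : ∀ r ∈ R, r * r = 1 := fun r hr => sq_one r (hfixR r hr)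
    have hcm : ∀ r ∈ R, ∀ r' ∈ R, r * r' = r' * r := fun r hr r' hr' => by
      have h1 : (r * r')⁻¹ = r * r' := inv_eq_of_mul_eq_one_right (hsq2 _ (R.mul_mem hr hr'))
      rw [← h1, mul_inv_rev, inv_eq_of_mul_eq_one_right (hsq2 r hr),
        inv_eq_of_mul_eq_one_right (hsq2 r' hr')]
    refine ⟨⟨⟨⟨fun r r' => Subtype.ext (hcm r r.2 r' r'.2)⟩⟩, fun r hr => by
      rw [sq]; exact hsq2 r hr⟩, ?_⟩
    apply le_antisymm
    · have hinj : Function.Injective (fun r : R => (s (r : G) χ₁, s (r : G) χ₂)) := by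
        intro r r' h
        simp only [Prod.mk.injEq] at h
        refine Subtype.ext (mul_inv_eq_one.mp (hfaith _ (fun χ => by
          rw [mul_smul, hfixR _ (R.inv_mem r'.2), hfixR _ r.2]) fun χ => ?_))
        have key : ∀ χ, s (r : G) χ = s (r' : G) χ := by
          intro χ
          rcases hX χ with rfl | rfl | rfl
          · exact h.1
          · exact h.2
          · have a1 := hprod r r.2
            rw [h.1, h.2, ← hprod r' r'.2] at a1
            exact mul_left_cancel (mul_left_cancel a1)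
        have h1 : s ((r' : G)⁻¹ * r') χ = 1 := by
          rw [inv_mul_cancel]
          have := smul_mul 1 1 χ
          rw [mul_one, one_smul] at this
          exact mul_left_cancel (a := s (1 : G) χ) (by rw [← this, mul_one])
        rw [smul_mul, hfixR _ r'.2] at h1
        rw [smul_mul, hfixR _ (R.inv_mem r'.2), key, mul_comm]
        exact h1
      have := Nat.card_le_card_of_injective _ hinj
      rw [Nat.card_prod, show Nat.card (ZMod 3)ˣ = 2 by rw [Nat.card_eq_fintype_card, ZMod.card_units]] at this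
      simpa using this
    · have hbx := hh.bx_mem
      have hinj : Function.Injective (![⟨1, R.one_mem⟩, ⟨x, hh.xR⟩, ⟨_, hbx⟩,
          ⟨x * (b * x * b⁻¹), R.mul_mem hh.xR hbx⟩] : Fin 4 → R) := by
        have n1 : b * x * b⁻¹ ≠ 1 := fun h => hh.x1 (conj_eq_one_iff.mp h)
        have n2 : x * (b * x * b⁻¹) ≠ 1 := fun h => hh.xne (mul_left_cancel (h.trans hh.x2.symm))
        intro i j h
        have := congrArg Subtype.val h
        fin_cases i <;> fin_cases j <;>
          first
          | rfl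
          | (simp [hh.x1, Ne.symm hh.x1, n1, Ne.symm n1, n2, Ne.symm n2, hh.xne,
              Ne.symm hh.xne] at this; done)
      have := Nat.card_le_card_of_injective _ hinj
      simpa using this
  right
  -- a normal subgroup acting as a nontrivial abelian group
  push Not at hR1
  obtain ⟨N, hNn, hNR, hNc, n₁, hn₁, hn₁1⟩ : ∃ N : Subgroup G, N.Normal ∧ N ≤ R ∧
      (∀ n ∈ N, ∀ n' ∈ N, π n * π n' = π n' * π n) ∧ ∃ n ∈ N, π n ≠ 1 := by
    haveI := hh.normal
    have hsolR : Group.IsSolvable R := inferInstance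
    obtain ⟨k, hk⟩ := (Group.isSolvable_def R).mp hsolR
    have hex : ∃ k, ∀ n ∈ (derivedSeries R k).map R.subtype, π n = 1 :=
      ⟨k, by rw [hk, Subgroup.map_bot]; rintro n rfl; exact map_one π⟩
    set k₀ := Nat.find hex with hk₀
    have hpos : k₀ ≠ 0 := by
      intro h0
      obtain ⟨r, hr, hr1⟩ := hR1
      apply hr1
      have := Nat.find_spec hex r
      rw [← hk₀, h0, derivedSeries_zero, ← MonoidHom.range_eq_map, Subgroup.range_subtype] at this
      exact this hr
    obtain ⟨j, hj⟩ := Nat.exists_eq_succ_of_ne_zero hpos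
    haveI : ((derivedSeries R j).map R.subtype).Normal :=
      ConjAct.normal_of_characteristic_of_normal
    refine ⟨(derivedSeries R j).map R.subtype, inferInstance, Subgroup.map_subtype_le _, ?_, ?_⟩
    · rintro _ ⟨p, hp, rfl⟩ _ ⟨q, hq, rfl⟩
      have h := Nat.find_spec hex (R.subtype ⁅p, q⁆) (Subgroup.mem_map_of_mem _ (by
        rw [← hk₀, hj, derivedSeries_succ]; exact Subgroup.commutator_mem_commutator hp hq))
      rw [map_commutatorElement, map_commutatorElement, commutatorElement_eq_one_iff_mul_comm] at h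
      exact h
    · have h := Nat.find_min hex (show j < Nat.find hex by rw [← hk₀, hj]; exact Nat.lt_succ_self j)
      push Not at h
      exact h
  have hNT : ∀ ρ : X, ∀ n ∈ N, ∀ n' ∈ N, n • ρ = ρ → n • n' • ρ = n' • ρ := fun ρ n hn n' hn' h => by
    have := DFunLike.congr_fun (hNc n hn n' hn') ρ
    simp only [Equiv.Perm.mul_apply, hπa] at this
    rw [this, h]
  have hO : ∀ ρ : X, ∃ n ∈ N, n • ρ = b • ρ := by
    intro ρ
    by_contra hno
    push Not at hno
    have hρb : b • ρ ≠ ρ := fun h => hno 1 N.one_mem (by rw [one_smul, h])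
    have horb : ∀ n ∈ N, n • ρ = ρ := by
      intro n hn
      have moved : ∀ σ : X, (∃ m ∈ N, m • ρ = σ) → b • σ ≠ σ := by
        rintro σ ⟨m, hm, rfl⟩ hfix
        refine hno ((b * m * b⁻¹)⁻¹ * m) (N.mul_mem (N.inv_mem (hNn.conj_mem m hm b)) hm) ?_
        rw [mul_smul, inv_smul_eq_iff, ← mul_smul]
        rw [inv_mul_cancel_right]
        rw [mul_smul, hfix]
      have m0 := moved ρ ⟨1, N.one_mem, one_smul _ _⟩
      have m1 := moved _ ⟨n, hn, rfl⟩
      have t0 : ρ = χ₁ ∨ ρ = χ₂ ∨ ρ = χ₃ := by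
        by_contra h; push Not at h; exact m0 (bfix ρ h.1 h.2.1 h.2.2)
      have t1 : n • ρ = χ₁ ∨ n • ρ = χ₂ ∨ n • ρ = χ₃ := by
        by_contra h; push Not at h; exact m1 (bfix _ h.1 h.2.1 h.2.2)
      have hthree : n • ρ = ρ ∨ n • ρ = b • ρ ∨ n • ρ = b • b • ρ := by
        rcases t0 with h | h | h <;> rcases t1 with h' | h' | h' <;> subst h <;>
          simp only [h', hχ₃, hχ₂, hb3] <;> tauto
      rcases hthree with h | h | h
      · exact h
      · exact absurd h (hno n hn)
      · exfalso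
        refine hno ((b * n * b⁻¹)⁻¹) (N.inv_mem (hNn.conj_mem n hn b)) ?_
        rw [inv_smul_eq_iff, ← mul_smul, inv_mul_cancel_right, mul_smul, h, hb3]
    refine hn₁1 (Equiv.Perm.ext fun σ => ?_)
    obtain ⟨g, hg⟩ := trans σ
    obtain ⟨g', hg'⟩ := trans ρ
    have hσ : (g * g'⁻¹) • ρ = σ := by rw [← hg', mul_smul, inv_smul_smul, hg]
    rw [hπa, ← hσ, ← mul_smul,
      show n₁ * (g * g'⁻¹) = (g * g'⁻¹) * ((g * g'⁻¹)⁻¹ * n₁ * (g * g'⁻¹)) by group, mul_smul,
      horb _ (by simpa using hNn.conj_mem n₁ hn₁ (g * g'⁻¹)⁻¹)]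
    rfl
  let K : Subgroup G :=
    { carrier := {g | ∀ ρ : X, ∃ n ∈ N, n • ρ = g • ρ}
      one_mem' := fun ρ => ⟨1, N.one_mem, rfl⟩
      mul_mem' := fun {g h} hg hh' ρ => by
        obtain ⟨n, hn, e1⟩ := hh' ρ
        obtain ⟨m, hm, e2⟩ := hg (h • ρ)
        exact ⟨m * n, N.mul_mem hm hn, by rw [mul_smul, mul_smul, e1, e2]⟩
      inv_mem' := fun {g} hg ρ => by
        obtain ⟨n, hn, e1⟩ := hg (g⁻¹ • ρ)
        refine ⟨n⁻¹, N.inv_mem hn, ?_⟩
        rw [inv_smul_eq_iff, e1, smul_inv_smul] }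
  have hKn : K.Normal := ⟨fun g hg c ρ => by
    obtain ⟨n, hn, e1⟩ := hg (c⁻¹ • ρ)
    refine ⟨c * n * c⁻¹, hNn.conj_mem n hn c, ?_⟩
    rw [mul_smul, mul_smul, e1, ← mul_smul, ← mul_smul]⟩
  have hKtop := hh.le_of_normal K hO
  have htr : ∀ ρ σ : X, ∃ n ∈ N, n • ρ = σ := fun ρ σ => by
    obtain ⟨g, hg⟩ := trans σ
    obtain ⟨g', hg'⟩ := trans ρ
    obtain ⟨n, hn, e1⟩ := (hKtop ▸ Subgroup.mem_top (g * g'⁻¹) : g * g'⁻¹ ∈ K) ρ
    exact ⟨n, hn, by rw [e1, ← hg', mul_smul, inv_smul_smul, hg]⟩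
  -- regularity
  set Nb : Subgroup (Equiv.Perm X) := N.map π with hNb
  have hreg : Function.Bijective (fun σ : Nb => (σ : Equiv.Perm X) χ₁) := by
    constructor
    · rintro ⟨_, n, hn, rfl⟩ ⟨_, n', hn', rfl⟩ h
      change n • χ₁ = n' • χ₁ at h
      have h0 : (n'⁻¹ * n) • χ₁ = χ₁ := by rw [mul_smul, h, inv_smul_smul]
      refine Subtype.ext (Equiv.Perm.ext fun ρ => ?_)
      obtain ⟨m, hm, rfl⟩ := htr χ₁ ρ
      have := hNT χ₁ _ (N.mul_mem (N.inv_mem hn') hn) m hm h0
      rw [mul_smul, inv_smul_eq_iff] at this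
      exact this
    · intro ρ
      obtain ⟨m, hm, e1⟩ := htr χ₁ ρ
      exact ⟨⟨π m, Subgroup.mem_map_of_mem π hm⟩, e1⟩
  have hNcard : Nat.card Nb = Fintype.card X := by
    rw [Nat.card_eq_of_bijective _ hreg, Nat.card_eq_fintype_card]
  have hNdvd : Nat.card Nb ∣ Nat.card R :=
    (Subgroup.card_dvd_of_le (Subgroup.map_mono hNR)).trans (Subgroup.card_map_dvd R π)
  have h3n : ¬ 3 ∣ Fintype.card X := fun h => hh.cop ((hNcard ▸ h).trans hNdvd)
  have hTcard : ({χ₁, χ₂, χ₃} : Finset X).card = 3 := by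
    rw [Finset.card_insert_of_notMem (by simp [Ne.symm hχ₁, h13.symm]),
      Finset.card_insert_of_notMem (by simp [h23.symm]), Finset.card_singleton]
  have hfour : Fintype.card X = 4 := by
    have hgt : 3 < Fintype.card X := by
      have h1 := Finset.card_le_univ ({χ₁, χ₂, χ₃} : Finset X)
      rw [hTcard] at h1
      rcases h1.lt_or_eq with h | h
      · exact h
      · exact absurd ⟨1, by omega⟩ h3n
    obtain ⟨ρ₀, hρ₀⟩ : ∃ ρ₀ : X, ρ₀ ∉ ({χ₁, χ₂, χ₃} : Finset X) := by
      by_contra hno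
      push Not at hno
      have := Finset.eq_univ_iff_forall.mpr hno
      rw [← hTcard, this, Finset.card_univ] at hgt
      omega
    simp only [Finset.mem_insert, Finset.mem_singleton, not_or] at hρ₀
    have hb0 := bfix ρ₀ hρ₀.1 hρ₀.2.1 hρ₀.2.2
    set C : Subgroup Nb := (Subgroup.centralizer ({π b} : Set (Equiv.Perm X))).subgroupOf Nb with hC
    have hbij : Function.Bijective (fun σ : C =>
        (⟨((σ : Nb) : Equiv.Perm X) ρ₀, by
          have h := DFunLike.congr_fun
            (Subgroup.mem_centralizer_singleton_iff.mp σ.2) ρ₀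
          simp only [Equiv.Perm.mul_apply, hπa, hb0] at h
          exact h.symm⟩ : {ρ : X // b • ρ = ρ})) := by
      constructor
      · intro σ σ' h
        refine Subtype.ext (hreg.1 ?_)
        have h' : ((σ : Nb) : Equiv.Perm X) ρ₀ = ((σ' : Nb) : Equiv.Perm X) ρ₀ :=
          congrArg Subtype.val h
        obtain ⟨n, hn, e1⟩ := (σ : Nb).2
        obtain ⟨n', hn', e2⟩ := (σ' : Nb).2
        change ((σ : Nb) : Equiv.Perm X) χ₁ = ((σ' : Nb) : Equiv.Perm X) χ₁
        rw [← e1, ← e2] at h' ⊢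
        change n • ρ₀ = n' • ρ₀ at h'
        change n • χ₁ = n' • χ₁
        obtain ⟨m, hm, hm'⟩ := htr ρ₀ χ₁
        have h0 : (n'⁻¹ * n) • ρ₀ = ρ₀ := by rw [mul_smul, h', inv_smul_smul]
        have := hNT ρ₀ _ (N.mul_mem (N.inv_mem hn') hn) m hm h0
        rwa [hm', mul_smul, inv_smul_eq_iff] at this
      · rintro ⟨ρ, hρ⟩
        obtain ⟨n, hn, hn'⟩ := htr ρ₀ ρ
        refine ⟨⟨⟨π n, Subgroup.mem_map_of_mem π hn⟩, ?_⟩, Subtype.ext hn'⟩
        rw [hC, Subgroup.mem_subgroupOf, Subgroup.mem_centralizer_singleton_iff]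
        refine Equiv.Perm.ext fun σ => ?_
        obtain ⟨m, hm, rfl⟩ := htr ρ₀ σ
        simp only [Equiv.Perm.mul_apply, hπa]
        have c1 : b • n • ρ₀ = n • b • ρ₀ := by rw [hn', hρ, hb0, hn']
        have hm2 : b * m * b⁻¹ ∈ N := hNn.conj_mem m hm b
        have c2 : ∀ ρ : X, (b * m * b⁻¹) • n • ρ = n • (b * m * b⁻¹) • ρ := fun ρ => by
          have := DFunLike.congr_fun (hNc _ hm2 n hn) ρ
          simpa only [Equiv.Perm.mul_apply, hπa] using this
        have c3 : n • m • ρ₀ = m • n • ρ₀ := by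
          have := DFunLike.congr_fun (hNc n hn m hm) ρ₀
          simpa only [Equiv.Perm.mul_apply, hπa] using this
        have e1 : b • m • ρ₀ = (b * m * b⁻¹) • b • ρ₀ := by simp [mul_smul]
        have e2 : b • m • n • ρ₀ = (b * m * b⁻¹) • b • n • ρ₀ := by simp [mul_smul]
        rw [c3, e2, c1, c2, ← e1]
    have hdvd : Nat.card {ρ : X // b • ρ = ρ} ∣ Fintype.card X := by
      rw [← Nat.card_eq_of_bijective _ hbij, ← hNcard]
      exact Subgroup.card_subgroup_dvd_card C
    have hfixed : Nat.card {ρ : X // b • ρ = ρ} + 3 = Fintype.card X := by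
      rw [Nat.card_eq_fintype_card, Fintype.card_subtype]
      have : (Finset.univ.filter fun ρ : X => b • ρ = ρ) = ({χ₁, χ₂, χ₃} : Finset X)ᶜ := by
        ext ρ
        simp only [Finset.mem_filter, Finset.mem_univ, true_and, Finset.mem_compl,
          Finset.mem_insert, Finset.mem_singleton, not_or]
        refine ⟨fun h => ⟨?_, ?_, ?_⟩, fun h => bfix ρ h.1 h.2.1 h.2.2⟩ <;> rintro rfl
        · exact hχ₁ h
        · exact h23 h
        · exact h13 (h.symm.trans hb31)
      rw [this, Finset.card_compl, hTcard]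
      omega
    obtain ⟨f, hf⟩ : ∃ f, Nat.card {ρ : X // b • ρ = ρ} = f := ⟨_, rfl⟩
    rw [hf] at hdvd hfixed
    have hf3 : f ∣ 3 := by
      have := Nat.dvd_sub hdvd dvd_rfl
      rwa [show Fintype.card X - f = 3 by omega] at this
    rcases (Nat.dvd_prime Nat.prime_three).mp hf3 with h | h
    · omega
    · exact absurd ⟨2, by omega⟩ h3n
  -- the image of `R`
  have hsign : ∀ r ∈ R, Equiv.Perm.sign (π r) = 1 := fun r hr =>
    hh.kills (Equiv.Perm.sign.comp π) (fun _ _ => mul_comm _ _) r hr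
  set Rb : Subgroup (Equiv.Perm X) := R.map π with hRb
  have hRb4 : Nat.card Rb = 4 := by
    have h1 : Nat.card Rb ∣ Nat.card (alternatingGroup X) :=
      Subgroup.card_dvd_of_le (by
        rintro _ ⟨r, hr, rfl⟩; exact Equiv.Perm.mem_alternatingGroup.mpr (hsign r hr))
    haveI : Nontrivial X := ⟨⟨_, _, hχ₁⟩⟩
    have h2 : 2 * Nat.card (alternatingGroup X) = 24 := by
      rw [Nat.card_eq_fintype_card, two_mul_card_alternatingGroup, Fintype.card_perm, hfour]; rfl
    have h3 : Nat.card Nb ∣ Nat.card Rb := Subgroup.card_dvd_of_le (Subgroup.map_mono hNR)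
    have h4 : ¬ 3 ∣ Nat.card Rb := fun h => hh.cop (h.trans (Subgroup.card_map_dvd R π))
    rw [hNcard, hfour] at h3
    rw [show Nat.card (alternatingGroup X) = 12 by omega] at h1
    obtain ⟨q, hq⟩ := h3
    have h12 : Nat.card Rb ≤ 12 := Nat.le_of_dvd (by norm_num) h1
    rw [hq] at h1 h4 h12 ⊢
    have : q ≤ 3 := by omega
    interval_cases q <;> omega
  have hRbN : Rb = Nb := (Subgroup.eq_of_le_of_card_ge (Subgroup.map_mono hNR)
    (by rw [hNcard, hfour, hRb4])).symm
  have hperm : ∀ σ : Equiv.Perm (Fin 4), σ ^ 4 = 1 → Equiv.Perm.sign σ = 1 → σ * σ = 1 := by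
    decide +kernel
  have hinv : ∀ r ∈ R, π r * π r = 1 := by
    intro r hr
    let E := Fintype.equivFinOfCardEq hfour
    have hp : (π r) ^ 4 = 1 := by
      have h : (⟨π r, Subgroup.mem_map_of_mem π hr⟩ : Rb) ^ Nat.card Rb = 1 := pow_card_eq_one'
      rw [hRb4] at h
      exact congrArg Subtype.val h
    have := hperm (E.permCongrHom (π r)) (by rw [← map_pow, hp, map_one]) (by
      rw [Equiv.permCongrHom_coe, Equiv.Perm.sign_permCongr, hsign r hr])
    rw [← map_mul] at this
    exact E.permCongrHom.injective (this.trans (map_one _).symm)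
  have fixpt : ∀ r ∈ R, ∀ ρ : X, r • ρ = ρ → π r = 1 := by
    intro r hr ρ h
    obtain ⟨n, hn, e1⟩ : π r ∈ Nb := hRbN ▸ Subgroup.mem_map_of_mem π hr
    have h0 : n • ρ = ρ := by rw [← hπa, e1, hπa, h]
    refine Equiv.Perm.ext fun σ => ?_
    obtain ⟨m, hm, rfl⟩ := htr ρ σ
    rw [← e1, hπa, hNT ρ n hn m hm h0]; rfl
  -- the diagonal part
  set Dg : Subgroup R := (π.comp R.subtype).ker with hDg
  have hDmem : ∀ r : R, r ∈ Dg ↔ ∀ χ : X, (r : G) • χ = χ := fun r =>
    ⟨fun h χ => DFunLike.congr_fun (MonoidHom.mem_ker.mp h) χ,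
      fun h => MonoidHom.mem_ker.mpr (Equiv.Perm.ext h)⟩
  obtain ⟨ρ₀, hρ₀⟩ : ∃ ρ₀ : X, ρ₀ ∉ ({χ₁, χ₂, χ₃} : Finset X) := by
    by_contra hno
    push Not at hno
    have := Finset.eq_univ_iff_forall.mpr hno
    rw [this, Finset.card_univ] at hTcard
    omega
  have huniv : (Finset.univ : Finset X) = insert ρ₀ {χ₁, χ₂, χ₃} := by
    refine (Finset.eq_univ_of_card _ ?_).symm
    rw [Finset.card_insert_of_notMem hρ₀, hTcard, hfour]
  let φ : Dg → (ZMod 3)ˣ × (ZMod 3)ˣ × (ZMod 3)ˣ := fun r =>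
    (s ((r : R) : G) χ₁, s ((r : R) : G) χ₂, s ((r : R) : G) χ₃)
  have hp4 : ∀ r ∈ R, s r ρ₀ * (s r χ₁ * (s r χ₂ * s r χ₃)) = 1 := fun r hr => by
    have := hcs r hr
    rw [huniv, Finset.prod_insert hρ₀, Finset.prod_insert (by simp [Ne.symm hχ₁, h13.symm]),
      Finset.prod_insert (by simp [h23.symm]), Finset.prod_singleton] at this
    exact this
  have hφ : Function.Injective φ := by
    intro r r' h
    simp only [φ, Prod.mk.injEq] at h
    have key : ∀ χ, s ((r : R) : G) χ = s ((r' : R) : G) χ := by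
      intro χ
      have : χ ∈ (Finset.univ : Finset X) := Finset.mem_univ χ
      rw [huniv] at this
      simp only [Finset.mem_insert, Finset.mem_singleton] at this
      rcases this with rfl | rfl | rfl | rfl
      · have a1 := hp4 _ (r : R).2
        rw [h.1, h.2.1, h.2.2, ← hp4 _ (r' : R).2] at a1
        exact mul_right_cancel a1
      · exact h.1
      · exact h.2.1
      · exact h.2.2
    refine Subtype.ext (Subtype.ext ?_)
    apply hh.inj
    refine hext _ _ fun χ v hv => ?_
    obtain ⟨c, rfl⟩ := lines χ v hv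
    rw [map_smul, map_smul, hs, hs, key χ, (hDmem _).mp r.2, (hDmem _).mp r'.2]
  have hD8 : Nat.card Dg ≤ 8 := by
    have := Nat.card_le_card_of_injective _ hφ
    rw [Nat.card_prod, Nat.card_prod, show Nat.card (ZMod 3)ˣ = 2 by rw [Nat.card_eq_fintype_card, ZMod.card_units]] at this
    simpa using this
  have hAD : A.subgroupOf R ≤ Dg := fun a ha => (hDmem a).mpr fun χ =>
    Subtype.ext (funext fun c => congrArg χ.1 (Subtype.ext (by
      change (a : G)⁻¹ * c * a = c
      rw [mul_assoc, hcomm _ c.2 (a : G) ha, inv_mul_cancel_left])))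
  have hAcard : Nat.card A = 8 := by
    have hle : Nat.card A ≤ 8 := by
      rw [← Nat.card_congr (Subgroup.subgroupOfEquivOfLe hAR).toEquiv]
      exact (Subgroup.card_le_of_le hAD).trans hD8
    obtain ⟨k, hk⟩ : ∃ k, Nat.card A = 2 ^ k :=
      (IsPGroup.iff_card (p := 2) (G := A)).mp (fun a => ⟨1, Subtype.ext (by
        rw [Subgroup.coe_pow, pow_one, sq]; exact hsq _ a.2)⟩)
    obtain ⟨p, hp⟩ : ∃ p : A, b * p ≠ p * b := by
      by_contra hno
      push Not at hno
      apply hχ₁
      refine Subtype.ext (funext fun c => congrArg χ₁.1 (Subtype.ext ?_))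
      change b⁻¹ * (c : G) * b = c
      rw [mul_assoc, ← hno c, inv_mul_cancel_left]
    set q : A := ⟨b * p * b⁻¹, hA.conj_mem _ p.2 b⟩ with hq
    have hqp : q ≠ p := fun h => hp (by
      have h' : b * (p : G) * b⁻¹ = p := congrArg Subtype.val h
      nth_rw 2 [← h']; group)
    have hp1 : p ≠ 1 := fun h => hp (by simp [h])
    have hq1 : q ≠ 1 := fun h => hp1 (Subtype.ext (conj_eq_one_iff.mp (congrArg Subtype.val h)))
    have hpp : p * p = 1 := Subtype.ext (hsq _ p.2)
    have hpq : p * q ≠ 1 := fun h => hqp (mul_left_cancel (h.trans hpp.symm))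
    have hinj : Function.Injective ![(1 : A), p, q, p * q] := by
      intro i j h
      fin_cases i <;> fin_cases j <;>
        first
        | rfl
        | (simp [hp1, hq1, hqp, Ne.symm hp1, Ne.symm hq1, Ne.symm hqp, hpq, Ne.symm hpq] at h; done)
    have h4 : 4 ≤ Nat.card A := by simpa using Nat.card_le_card_of_injective _ hinj
    have hne4 : Nat.card A ≠ 4 := by
      intro hA4
      have hb4 : Function.Bijective ![(1 : A), p, q, p * q] :=
        (Fintype.bijective_iff_injective_and_card _).mpr ⟨hinj, by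
          rw [Fintype.card_fin, ← Nat.card_eq_fintype_card, hA4]⟩
      let η : X → {t : (ZMod 3) × (ZMod 3) // t ≠ (1, 1) ∧ t.1 * t.1 = 1 ∧ t.2 * t.2 = 1} :=
        fun χ => ⟨(χ.1 p, χ.1 q), fun h => by
          simp only [Prod.mk.injEq] at h
          have hall : ∀ a : A, χ.1 a = 1 := by
            intro a
            obtain ⟨i, rfl⟩ := hb4.2 a
            have h1 : χ.1 1 = 1 := by
              have := hmulχ χ 1 1
              rw [mul_one] at this
              have h2 := hsgn χ 1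
              rw [← this] at h2; exact h2
            fin_cases i <;> simp [h1, h.1, h.2, hmulχ]
          exact he0 χ (by
            by_contra h0
            have hbot := hh.eq_bot_of_fix A h0 (fun a ha => by
              rw [he χ ⟨a, ha⟩, hall, one_smul])
            rw [hbot, Subgroup.card_bot] at hA4
            omega), hsgn χ p, hsgn χ q⟩
      have hη : Function.Injective η := by
        intro χ ρ h
        have h' := congrArg Subtype.val h
        simp only [η, Prod.mk.injEq] at h'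
        refine Subtype.ext (funext fun a => ?_)
        obtain ⟨i, rfl⟩ := hb4.2 a
        have h1 : ∀ τ : X, τ.1 1 = 1 := fun τ => by
          have := hmulχ τ 1 1
          rw [mul_one] at this
          have h2 := hsgn τ 1
          rw [← this] at h2; exact h2
        fin_cases i <;> simp [h1, h'.1, h'.2, hmulχ]
      have := Nat.card_le_card_of_injective _ hη
      rw [Nat.card_eq_fintype_card, hfour, Nat.card_eq_fintype_card] at this
      revert this; decide
    have hk3 : k ≤ 3 := (Nat.pow_le_pow_iff_right (le_refl 2)).mp (by rw [← hk]; exact hle)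
    rw [hk] at h4 hne4 ⊢
    interval_cases k <;> omega
  have hDA : Dg = A.subgroupOf R := (Subgroup.eq_of_le_of_card_ge hAD (by
    rw [Nat.card_congr (Subgroup.subgroupOfEquivOfLe hAR).toEquiv, hAcard]; exact hD8)).symm
  have hR32 : Nat.card R = 32 := by
    have h := Subgroup.card_eq_card_quotient_mul_card_subgroup Dg
    rw [Nat.card_congr (QuotientGroup.quotientKerEquivRange (π.comp R.subtype)).toEquiv,
      MonoidHom.range_comp, Subgroup.range_subtype, ← hRb, hRb4, hDA,
      Nat.card_congr (Subgroup.subgroupOfEquivOfLe hAR).toEquiv, hAcard] at h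
    exact h
  -- minus one
  obtain ⟨z, hzR, hzm⟩ : ∃ z ∈ R, ψ z = -1 := by
    have hbij : Function.Bijective φ := by
      haveI := Fintype.ofFinite Dg
      refine (Fintype.bijective_iff_injective_and_card _).mpr ⟨hφ, ?_⟩
      rw [← Nat.card_eq_fintype_card, hDA,
        Nat.card_congr (Subgroup.subgroupOfEquivOfLe hAR).toEquiv, hAcard, Fintype.card_prod,
        Fintype.card_prod, ZMod.card_units]
    obtain ⟨r, hr⟩ := hbij.2 (-1, -1, -1)
    simp only [φ, Prod.mk.injEq] at hr
    have h0 : s ((r : R) : G) ρ₀ = -1 := by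
      have := hp4 _ (r : R).2
      rw [hr.1, hr.2.1, hr.2.2] at this
      revert this; generalize s ((r : R) : G) ρ₀ = t; revert t; decide
    refine ⟨_, (r : R).2, hext _ _ fun χ v hv => ?_⟩
    obtain ⟨c, rfl⟩ := lines χ v hv
    have hall : s ((r : R) : G) χ = -1 := by
      have : χ ∈ (Finset.univ : Finset X) := Finset.mem_univ χ
      rw [huniv] at this
      simp only [Finset.mem_insert, Finset.mem_singleton] at this
      rcases this with rfl | rfl | rfl | rfl
      exacts [h0, hr.1, hr.2.1, hr.2.2]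
    rw [map_smul, hs, hall, (hDmem _).mp r.2]
    simp
  have scalar : ∀ r : G, (∀ χ : X, r • χ = χ) → (∀ χ ρ : X, s r χ = s r ρ) → r = 1 ∨ r = z := by
    intro r hr hconst
    have hu : s r χ₁ = 1 ∨ s r χ₁ = -1 := by generalize s r χ₁ = t; revert t; decide
    rcases hu with h | h
    · left; exact hfaith r hr fun χ => (hconst χ χ₁).trans h
    · right
      apply hh.inj
      rw [hzm]
      refine hext _ _ fun χ v hv => ?_
      obtain ⟨c, rfl⟩ := lines χ v hv
      rw [map_smul, hs, hr, hconst χ χ₁, h]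
      simp
  have hsqc : ∀ r ∈ R, r * r = 1 ∨ r * r = z := by
    intro r hr
    by_cases h1 : π r = 1
    · exact Or.inl (sq_one r fun χ => by rw [← hπa, h1]; rfl)
    have hr2 : ∀ χ : X, r • r • χ = χ := fun χ => DFunLike.congr_fun (hinv r hr) χ
    refine scalar _ (fun χ => by rw [mul_smul, hr2]) ?_
    have hmv : ∀ χ : X, r • χ ≠ χ := fun χ h => h1 (fixpt r hr χ h)
    have ht : ∀ χ ρ : X, s (r * r) χ = s (r * r) ρ := by
      intro χ ρ
      by_cases h2 : ρ = χ
      · rw [h2]
      by_cases h3 : ρ = r • χ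
      · rw [smul_mul, smul_mul, h3, hr2, mul_comm]
      have hu4 : (Finset.univ : Finset X) = {χ, r • χ, ρ, r • ρ} := by
        refine (Finset.eq_univ_of_card _ ?_).symm
        have a1 : r • ρ ≠ χ := fun h => h3 (by rw [← hr2 ρ, h])
        have a2 : r • ρ ≠ r • χ := fun h => h2 (MulAction.injective r h)
        rw [hfour, Finset.card_insert_of_notMem (by simp [Ne.symm (hmv χ), Ne.symm h2, Ne.symm a1]),
          Finset.card_insert_of_notMem (by simp [Ne.symm h3, Ne.symm a2]),
          Finset.card_insert_of_notMem (by simp [Ne.symm (hmv ρ)]), Finset.card_singleton]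
      have hp := hcs r hr
      have a1 : r • ρ ≠ χ := fun h => h3 (by rw [← hr2 ρ, h])
      have a2 : r • ρ ≠ r • χ := fun h => h2 (MulAction.injective r h)
      rw [hu4, Finset.prod_insert (by simp [Ne.symm (hmv χ), Ne.symm h2, Ne.symm a1]),
        Finset.prod_insert (by simp [Ne.symm h3, Ne.symm a2]),
        Finset.prod_insert (by simp [Ne.symm (hmv ρ)]), Finset.prod_singleton] at hp
      rw [smul_mul, smul_mul]
      revert hp
      generalize s r χ = t₁
      generalize s r (r • χ) = t₂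
      generalize s r ρ = t₃
      generalize s r (r • ρ) = t₄
      revert t₁ t₂ t₃ t₄
      decide
    exact ht
  have hzc : ∀ r : G, z * r = r * z := fun r => hh.inj (by rw [map_mul, map_mul, hzm]; simp)
  have hzne : z ≠ 1 := by
    intro h
    have := congrArg (fun f : Module.End (ZMod 3) M => f (e χ₁)) hzm
    simp only [h, app_one, LinearMap.neg_apply, Module.End.one_apply] at this
    exact he0 χ₁ (eq_neg_self this)
  have hzz : z * z = 1 := hh.inj (by rw [map_mul, map_one, hzm]; simp)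
  -- the centre
  have hcent : Subgroup.center R = Subgroup.zpowers (⟨z, hzR⟩ : R) := by
    refine le_antisymm (fun r hr => ?_) ?_
    · rw [Subgroup.mem_center_iff] at hr
      have hfixr : ∀ χ : X, (r : G) • χ = χ := fun χ => Subtype.ext (funext fun c =>
        congrArg χ.1 (Subtype.ext (by
          change (r : G)⁻¹ * c * r = c
          have h : (c : G) * r = r * c := congrArg Subtype.val (hr ⟨c, hAR c.2⟩)
          rw [mul_assoc, h, inv_mul_cancel_left])))
      have hconst : ∀ χ ρ : X, s (r : G) χ = s (r : G) ρ := by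
        intro χ ρ
        obtain ⟨n, hn, rfl⟩ := htr χ ρ
        have h : (n : G) * r = r * n := congrArg Subtype.val (hr ⟨n, hNR hn⟩)
        have h' := congrArg (fun g => s g χ) h
        simp only [smul_mul, hfixr] at h'
        rw [mul_comm (s (r : G) (n • χ))] at h'
        exact mul_left_cancel h'
      rcases scalar r hfixr hconst with h | h
      · rw [show r = 1 from Subtype.ext h]; exact one_mem _
      · rw [show r = ⟨z, hzR⟩ from Subtype.ext h]; exact Subgroup.mem_zpowers _
    · rw [Subgroup.zpowers_le, Subgroup.mem_center_iff]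
      exact fun g => Subtype.ext (hzc g).symm
  have hZ2 : Nat.card (Subgroup.center R) = 2 := by
    rw [hcent, Nat.card_zpowers]
    exact orderOf_eq_prime (Subtype.ext (by rw [Subgroup.coe_pow, sq]; exact hzz))
      fun h => hzne (congrArg Subtype.val h)
  haveI : Fact (Nat.Prime 2) := ⟨Nat.prime_two⟩
  have hR2 : IsPGroup 2 R := IsPGroup.of_card (n := 5) hR32
  have hsqZ : ∀ r : R, r * r ∈ Subgroup.center R := by
    intro r
    rcases hsqc r r.2 with h | h
    · rw [show r * r = 1 from Subtype.ext h]; exact one_mem _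
    · rw [hcent, show r * r = ⟨z, hzR⟩ from Subtype.ext h]; exact Subgroup.mem_zpowers _
  have hcZ : commutator R ≤ Subgroup.center R := by
    rw [commutator_def, Subgroup.commutator_le]
    intro g _ h _
    rw [← QuotientGroup.eq_one_iff, ← QuotientGroup.mk'_apply, map_commutatorElement,
      commutatorElement_eq_one_iff_mul_comm]
    have hinv2 : ∀ q : R ⧸ Subgroup.center R, q * q = 1 := by
      intro q
      obtain ⟨r, rfl⟩ := QuotientGroup.mk'_surjective _ q
      rw [← map_mul]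
      exact (QuotientGroup.eq_one_iff _).mpr (hsqZ r)
    have hiv : ∀ q : R ⧸ Subgroup.center R, q⁻¹ = q := fun q => inv_eq_of_mul_eq_one_right (hinv2 q)
    have := hiv (QuotientGroup.mk' (Subgroup.center R) g * QuotientGroup.mk' (Subgroup.center R) h)
    rw [mul_inv_rev, hiv, hiv] at this
    exact this.symm
  have hne : commutator R ≠ ⊥ := by
    intro hbot
    obtain ⟨n, hn, hn'⟩ := htr χ₁ χ₂
    have hnc : (⟨n, hNR hn⟩ : R) ∈ Subgroup.center R := by
      rw [Subgroup.mem_center_iff]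
      intro g
      rw [← commutatorElement_eq_one_iff_mul_comm, ← Subgroup.mem_bot, ← hbot, commutator_def]
      exact Subgroup.commutator_mem_commutator (Subgroup.mem_top _) (Subgroup.mem_top _)
    rw [hcent, Subgroup.mem_zpowers_iff] at hnc
    obtain ⟨k, hk⟩ := hnc
    have hz1 : z • χ₁ = χ₁ := Subtype.ext (funext fun c => congrArg χ₁.1 (Subtype.ext (by
      change z⁻¹ * (c : G) * z = c
      rw [mul_assoc, ← hzc, inv_mul_cancel_left])))
    have hk' : z ^ k = n := congrArg Subtype.val hk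
    have : n • χ₁ = χ₁ := hk' ▸ (Subgroup.zpow_mem (MulAction.stabilizer G χ₁) hz1 k)
    exact hχ₁ (hn'.symm.trans this)
  have hCeq : commutator R = Subgroup.center R := by
    rcases Subgroup.eq_bot_or_eq_top_of_prime_card
      (H := (commutator R).subgroupOf (Subgroup.center R)) (hp := hZ2 ▸ ⟨Nat.prime_two⟩) with h | h
    · exfalso; apply hne
      rw [Subgroup.subgroupOf_eq_bot] at h
      exact disjoint_self.mp (h.mono_right hcZ)
    · exact le_antisymm hcZ (Subgroup.subgroupOf_eq_top.mp h)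
  refine ⟨⟨⟨hR2, le_antisymm (Cfsg.Agent.Lib.PGroupFrattini.frattini_le Nat.prime_two _ hcZ fun r => by
    rw [sq]; exact hsqZ r) (hCeq ▸ Cfsg.Agent.Lib.PGroupFrattini.commutator_le_frattini hR2), hCeq⟩, hZ2⟩,
    hR32, A, hAR, ⟨⟨⟨fun a c => Subtype.ext (hcomm a a.2 c c.2)⟩⟩, fun a ha => by
      rw [sq]; exact hsq a ha⟩, hAcard⟩

end Cfsg.Agent.CubicBlock
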