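import Cfsg.Agent.Lib.CubicBlock.Setup

/-! Abelian normal subgroups of odd order are trivial. -/

namespace Cfsg.Agent.CubicBlock

open Subgroup Module

variable {G : Type*} [Group G] {M : Type*} [AddCommGroup M] [Module (ZMod 3) M]
variable {ψ : G →* Module.End (ZMod 3) M} {R : Subgroup G} {b x : G}

theorem four_mul {A : Type*} [CommGroup A] (p q r s : A) :
    p ^ 4 = (p * q * r * s) * (p * q * r⁻¹ * s⁻¹) * (p * q⁻¹ * r * s⁻¹) * (p * q⁻¹ * r⁻¹ * s) := by
  have h : ∀ p q r s : Additive A, 4 • p =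
      (p + q + r + s) + (p + q + -r + -s) + (p + -q + r + -s) + (p + -q + -r + s) := by
    intros; abel
  exact h (Additive.ofMul p) (Additive.ofMul q) (Additive.ofMul r) (Additive.ofMul s)

theorem gl_small_dvd : ∀ n ≤ 2, (∏ i : Fin n, ((3 : ℕ) ^ n - 3 ^ (i : ℕ))) ∣ 48 := by
  intro n hn; interval_cases n <;> decide

/-- An element of order prime to 6 fixes an invariant subspace of dimension at most two. -/
theorem fix_small [FiniteDimensional (ZMod 3) M] (a : G) {k : ℕ} (hk : a ^ k = 1)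
    (hk6 : k.Coprime 6) (W : Submodule (ZMod 3) M) (hW : ∀ v ∈ W, ψ a v ∈ W)
    (hd : Module.finrank (ZMod 3) W ≤ 2) : ∀ v ∈ W, ψ a v = v := by
  classical
  have hfin : Finite W := Module.finite_of_finite (ZMod 3)
  set f : Module.End (ZMod 3) W := (ψ a).restrict hW with hf
  have hfk : f ^ k = 1 := by
    refine LinearMap.ext fun v => Subtype.ext ?_
    rw [hf, Module.End.pow_restrict k]
    simp [← map_pow, hk]
  have hk0 : k ≠ 0 := fun h => by simp [h] at hk6
  obtain ⟨u, hu⟩ : IsUnit f := IsUnit.of_pow_eq_one hfk hk0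
  let e : (Module.End (ZMod 3) W)ˣ ≃* GL (Fin (Module.finrank (ZMod 3) W)) (ZMod 3) :=
    Units.mapEquiv (LinearMap.toMatrixAlgEquiv (Module.finBasis (ZMod 3) W)).toMulEquiv
  have hfin2 : Finite (Module.End (ZMod 3) W)ˣ := Finite.of_equiv _ e.symm.toEquiv
  have h1 : orderOf u ∣ k := orderOf_dvd_of_pow_eq_one (Units.ext (by simp [hu, hfk]))
  have h2 : orderOf u ∣ 48 := by
    refine (orderOf_dvd_natCard u).trans ?_
    rw [Nat.card_congr e.toEquiv, Matrix.card_GL_field]
    simp only [ZMod.card]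
    exact gl_small_dvd _ hd
  have h3 : k.Coprime 48 := by
    have h2' : k.Coprime 2 := hk6.coprime_dvd_right ⟨3, rfl⟩
    have h3' : k.Coprime 3 := hk6.coprime_dvd_right ⟨2, rfl⟩
    rw [show (48 : ℕ) = 2 ^ 4 * 3 by norm_num]
    exact (h2'.pow_right 4).mul_right h3'
  have h4 : orderOf u = 1 := Nat.eq_one_of_dvd_coprimes h3 h1 h2
  intro v hv
  have : f = 1 := by rw [← hu, orderOf_eq_one_iff.mp h4]; rfl
  exact congrArg Subtype.val (LinearMap.congr_fun this ⟨v, hv⟩)

/-- The subspace fixed by a subgroup. -/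
def fixed (ψ : G →* Module.End (ZMod 3) M) (A : Subgroup G) : Submodule (ZMod 3) M where
  carrier := {v | ∀ a ∈ A, ψ a v = v}
  add_mem' := fun {u v} hu hv a ha => by rw [map_add, hu a ha, hv a ha]
  zero_mem' := fun a _ => map_zero _
  smul_mem' := fun c v hv a ha => by rw [map_smul, hv a ha]

theorem mem_fixed {A : Subgroup G} {v : M} : v ∈ fixed ψ A ↔ ∀ a ∈ A, ψ a v = v := Iff.rfl

theorem fixed_inv {A : Subgroup G} {g : G} (h : ∀ a ∈ A, g⁻¹ * a * g ∈ A) {v : M}
    (hv : v ∈ fixed ψ A) : ψ g v ∈ fixed ψ A := fun a ha => by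
  have : ψ (g⁻¹ * a * g) v = v := hv _ (h a ha)
  conv_rhs => rw [← this]
  rw [← app_mul, ← app_mul]; congr 2; group

/-- A normal subgroup fixing a nonzero vector is trivial. -/
theorem Hyp.eq_bot_of_fix [Finite G] [FiniteDimensional (ZMod 3) M] (hh : Hyp ψ R b x)
    (A : Subgroup G) [hA : A.Normal] {v : M} (hv0 : v ≠ 0) (hv : v ∈ fixed ψ A) : A = ⊥ := by
  rcases hh.irred (fixed ψ A) (fun g w hw => fixed_inv (fun a ha => by
    simpa using hA.conj_mem a ha g⁻¹) hw) with h | h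
  · rw [h, Submodule.mem_bot] at hv; exact absurd hv hv0
  · rw [eq_bot_iff]
    intro a ha
    refine hh.inj (LinearMap.ext fun w => ?_)
    rw [app_one]
    exact (h ▸ Submodule.mem_top : w ∈ fixed ψ A) a ha

/-- Abelian normal subgroups of odd order prime to three are trivial. -/
theorem Hyp.odd_abelian [Finite G] [FiniteDimensional (ZMod 3) M] (hh : Hyp ψ R b x)
    (A : Subgroup G) [hA : A.Normal] [hAc : IsMulCommutative A] (hk : (Nat.card A).Coprime 6) :
    A = ⊥ := by
  obtain ⟨y, hy0, hyx, hyx', hline, hfix, hdec⟩ := hh.lines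
  set x' := b * x * b⁻¹ with hx'
  have hx'2 : x' * x' = 1 := by
    rw [hx', show b * x * b⁻¹ * (b * x * b⁻¹) = b * (x * x) * b⁻¹ by group, hh.x2, mul_one,
      mul_inv_cancel]
  have hcomm : ∀ a ∈ A, ∀ a' ∈ A, a * a' = a' * a := fun a ha a' ha' =>
    congrArg Subtype.val (hAc.is_comm.comm ⟨a, ha⟩ ⟨a', ha'⟩)
  have hxinv : x⁻¹ = x := inv_eq_of_mul_eq_one_right hh.x2
  have hx'inv : x'⁻¹ = x' := inv_eq_of_mul_eq_one_right hx'2
  have hxc : x * x' = x' * x := hh.xcomm
  -- signs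
  have e1 : x * b = b * (x * x') := by
    have h : b * (b * x * b⁻¹) = x * (b * x * b⁻¹) * b := by rw [← hh.xconj]; group
    calc x * b = x * (x' * x') * b := by rw [hx'2, mul_one]
      _ = x * x' * b * x := by rw [show x' = b * x * b⁻¹ from hx']; group
      _ = b * x' * x := by rw [hx', ← h]
      _ = b * (x * x') := by rw [mul_assoc, hx', hh.xcomm]
  have hy2 : ψ x (ψ b y) = -(ψ b y) ∧ ψ x' (ψ b y) = ψ b y := by
    constructor
    · rw [← app_mul, e1, app_mul, app_mul, hyx', map_neg, hyx, map_neg]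
    · rw [← app_mul, show x' * b = b * x by rw [hx']; group, app_mul, hyx]
  have hy3 : ψ x (ψ b (ψ b y)) = -(ψ b (ψ b y)) ∧ ψ x' (ψ b (ψ b y)) = -(ψ b (ψ b y)) := by
    constructor
    · rw [← app_mul x b, e1, app_mul b, app_mul x, hy2.2, hy2.1, map_neg]
    · rw [← app_mul x' b, show x' * b = b * x by rw [hx']; group, app_mul, hy2.1, map_neg]
  set y₂ := ψ b y with hy₂
  set y₃ := ψ b (ψ b y) with hy₃
  have hy30 : y₃ ≠ 0 := fun h =>
    hy0 (app_inj (ψ := ψ) b (app_inj (ψ := ψ) b (by rw [← hy₃, h, map_zero, map_zero])))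
  have hy20 : y₂ ≠ 0 := fun h =>
    hy0 (app_inj (ψ := ψ) b (by rw [← hy₂, h, map_zero]))
  -- negated spaces
  have negspan : ∀ v, ψ x v = -v → ∃ c₂ c₃ : ZMod 3, v = c₂ • y₂ + c₃ • y₃ := by
    intro v hv
    obtain ⟨w, c₁, c₂, c₃, hw, hw', e⟩ := hdec v
    rw [e] at hv
    simp only [map_add, map_smul, hw, hyx, hy2.1, hy3.1, smul_neg] at hv
    have h : w + c₁ • y = 0 := eq_neg_self (by
      rw [eq_neg_iff_add_eq_zero]
      rw [eq_neg_iff_add_eq_zero] at hv
      refine Eq.trans ?_ hv; abel)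
    exact ⟨c₂, c₃, by rw [e, h, zero_add]⟩
  have cop3 : ∀ a ∈ A, a ^ Nat.card A = 1 := fun a ha => by
    have h : (⟨a, ha⟩ : A) ^ Nat.card A = 1 := pow_card_eq_one'
    exact congrArg Subtype.val h
  -- centralisers of the three involutions
  have fixpair : ∀ z : G, ∀ u₁ u₂ : M, ψ z u₁ = -u₁ → ψ z u₂ = -u₂ →
      (∀ v, ψ z v = -v → ∃ c d : ZMod 3, v = c • u₁ + d • u₂) →
      ∀ a ∈ A, z * a = a * z → ψ a u₁ = u₁ ∧ ψ a u₂ = u₂ := by
    intro z u₁ u₂ h1 h2 hspan a ha hza
    set W := Submodule.span (ZMod 3) ({u₁, u₂} : Set M) with hWdef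
    have hWneg : ∀ v ∈ W, ψ z v = -v := by
      intro v hv
      obtain ⟨c, d, rfl⟩ := Submodule.mem_span_pair.mp hv
      simp [h1, h2]; abel
    have hW : ∀ v ∈ W, ψ a v ∈ W := fun v hv => by
      obtain ⟨c, d, e⟩ := hspan (ψ a v) (by
        rw [← app_mul, hza, app_mul, hWneg v hv, map_neg])
      exact Submodule.mem_span_pair.mpr ⟨c, d, e.symm⟩
    have hd : Module.finrank (ZMod 3) W ≤ 2 := by
      classical
      have h := finrank_span_finset_le_card (R := ZMod 3) ({u₁, u₂} : Finset M)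
      simp only [Finset.coe_insert, Finset.coe_singleton] at h
      exact h.trans (Finset.card_le_two)
    exact ⟨fix_small a (cop3 a ha) hk W hW hd u₁ (Submodule.subset_span (by simp)),
      fix_small a (cop3 a ha) hk W hW hd u₂ (Submodule.subset_span (by simp))⟩
  let A1 : Subgroup G := A ⊓ Subgroup.centralizer ({x} : Set G)
  let A2 : Subgroup G := A ⊓ Subgroup.centralizer ({x'} : Set G)
  have hA1 : ∀ a, a ∈ A1 ↔ a ∈ A ∧ x * a = a * x := fun a => by
    rw [Subgroup.mem_inf, Subgroup.mem_centralizer_singleton_iff]; exact ⟨fun h => ⟨h.1, h.2.symm⟩,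
      fun h => ⟨h.1, h.2.symm⟩⟩
  have hA2 : ∀ a, a ∈ A2 ↔ a ∈ A ∧ x' * a = a * x' := fun a => by
    rw [Subgroup.mem_inf, Subgroup.mem_centralizer_singleton_iff]; exact ⟨fun h => ⟨h.1, h.2.symm⟩,
      fun h => ⟨h.1, h.2.symm⟩⟩
  have fix1 : ∀ a ∈ A, x * a = a * x → ψ a y₂ = y₂ ∧ ψ a y₃ = y₃ :=
    fun a ha h => fixpair x y₂ y₃ hy2.1 hy3.1 negspan a ha h
  have fix2 : ∀ a ∈ A, x' * a = a * x' → ψ a y = y ∧ ψ a y₃ = y₃ := by
    refine fun a ha h => fixpair x' y y₃ hyx' hy3.2 (fun v hv => ?_) a ha h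
    obtain ⟨w, c₁, c₂, c₃, hw, hw', e⟩ := hdec v
    rw [e] at hv
    simp only [map_add, map_smul, hw', hyx', hy2.2, hy3.2, smul_neg] at hv
    have h0 : w + c₂ • y₂ = 0 := eq_neg_self (by
      rw [eq_neg_iff_add_eq_zero]
      rw [eq_neg_iff_add_eq_zero] at hv
      refine Eq.trans ?_ hv; abel)
    exact ⟨c₁, c₃, by
      rw [e, show w + c₁ • y + c₂ • y₂ + c₃ • y₃ = (w + c₂ • y₂) + (c₁ • y + c₃ • y₃) by abel,
        h0, zero_add]⟩
  have fix3 : ∀ a ∈ A, x * x' * a = a * (x * x') → ψ a y = y ∧ ψ a y₂ = y₂ := by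
    refine fun a ha h => fixpair (x * x') y y₂ (by rw [app_mul, hyx', map_neg, hyx])
      (by rw [app_mul, hy2.2, hy2.1]) (fun v hv => ?_) a ha h
    obtain ⟨w, c₁, c₂, c₃, hw, hw', e⟩ := hdec v
    rw [e] at hv
    simp only [app_mul, map_add, map_smul, map_neg, hw, hw', hyx, hyx', hy2.1, hy2.2, hy3.1,
      hy3.2, smul_neg, neg_neg] at hv
    have h0 : w + c₃ • y₃ = 0 := eq_neg_self (by
      rw [eq_neg_iff_add_eq_zero]
      rw [eq_neg_iff_add_eq_zero] at hv
      refine Eq.trans ?_ hv; abel)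
    exact ⟨c₁, c₂, by
      rw [e, show w + c₁ • y + c₂ • y₂ + c₃ • y₃ = (w + c₃ • y₃) + (c₁ • y + c₂ • y₂) by abel,
        h0, zero_add]⟩
  -- generation of A
  have gen : ∀ u : M, (∀ a ∈ A, x * a = a * x → ψ a u = u) →
      (∀ a ∈ A, x' * a = a * x' → ψ a u = u) →
      (∀ a ∈ A, x * x' * a = a * (x * x') → ψ a u = u) → u ∈ fixed ψ A := by
    intro u k1 k2 k3 a ha
    set σ := fun g : G => x * g * x with hσ
    set τ := fun g : G => x' * g * x' with hτ
    have hσA : ∀ g ∈ A, σ g ∈ A := fun g hg => by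
      have := hA.conj_mem g hg x; rwa [hxinv] at this
    have hτA : ∀ g ∈ A, τ g ∈ A := fun g hg => by
      have := hA.conj_mem g hg x'; rwa [hx'inv] at this
    let K : Subgroup G :=
      { carrier := {g | ψ g u = u}
        one_mem' := app_one u
        mul_mem' := fun {g h} hg hh' => by
          change ψ (g * h) u = u; rw [app_mul, hh', hg]
        inv_mem' := fun {g} hg => by
          change ψ g⁻¹ u = u
          nth_rw 1 [← hg]; exact app_inv g u }
    let s : A → A := fun g => ⟨σ g, hσA _ g.2⟩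
    let t : A → A := fun g => ⟨τ g, hτA _ g.2⟩
    letI : CommGroup A := { (inferInstance : Group A) with mul_comm := hAc.is_comm.comm }
    have hsm : ∀ g h : A, s (g * h) = s g * s h := fun g h => Subtype.ext (by
      simp only [s, hσ, Subgroup.coe_mul]
      calc x * ((g : G) * h) * x = x * (g : G) * (x * x) * h * x := by rw [hh.x2]; group
        _ = x * (g : G) * x * (x * h * x) := by group)
    have htm : ∀ g h : A, t (g * h) = t g * t h := fun g h => Subtype.ext (by
      simp only [t, hτ, Subgroup.coe_mul]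
      calc x' * ((g : G) * h) * x' = x' * (g : G) * (x' * x') * h * x' := by rw [hx'2]; group
        _ = x' * (g : G) * x' * (x' * h * x') := by group)
    let S : A →* A := MonoidHom.mk' s hsm
    let T : A →* A := MonoidHom.mk' t htm
    have hss : ∀ g : A, S (S g) = g := fun g => Subtype.ext (by
      change x * (x * (g : G) * x) * x = g
      rw [show x * (x * (g : G) * x) * x = (x * x) * (g : G) * (x * x) by group, hh.x2, one_mul,
        mul_one])
    have htt : ∀ g : A, T (T g) = g := fun g => Subtype.ext (by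
      change x' * (x' * (g : G) * x') * x' = g
      rw [show x' * (x' * (g : G) * x') * x' = (x' * x') * (g : G) * (x' * x') by group, hx'2,
        one_mul, mul_one])
    have hst : ∀ g : A, S (T g) = T (S g) := fun g => Subtype.ext (by
      change x * (x' * (g : G) * x') * x = x' * (x * (g : G) * x) * x'
      rw [show x * (x' * (g : G) * x') * x = (x * x') * (g : G) * (x' * x) by group, ← hxc, hxc]
      nth_rw 2 [← hxc]
      group)
    set α : A := ⟨a, ha⟩ with hα
    have inS : ∀ g : A, S g = g → (g : G) ∈ K := fun g hg => k1 g g.2 (by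
      have : x * (g : G) * x = g := congrArg Subtype.val hg
      nth_rw 2 [← this]; rw [mul_assoc _ x x, hh.x2, mul_one])
    have inT : ∀ g : A, T g = g → (g : G) ∈ K := fun g hg => k2 g g.2 (by
      have : x' * (g : G) * x' = g := congrArg Subtype.val hg
      nth_rw 2 [← this]; rw [mul_assoc _ x' x', hx'2, mul_one])
    have inST : ∀ g : A, S (T g) = g → (g : G) ∈ K := fun g hg => k3 g g.2 (by
      have : x * (x' * (g : G) * x') * x = g := congrArg Subtype.val hg
      nth_rw 2 [← this]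
      rw [show x * (x' * (g : G) * x') * x * (x * x')
        = x * x' * (g : G) * (x' * (x * x) * x') by group, hh.x2, mul_one, hx'2, mul_one])
    have h0 : ((α * S α * T α * S (T α) : A) : G) ∈ K := inS _ (by
      simp only [map_mul, hss]; ac_rfl)
    have h1 : ((α * S α * (T α)⁻¹ * (S (T α))⁻¹ : A) : G) ∈ K := inS _ (by
      simp only [map_mul, map_inv, hss]; ac_rfl)
    have h2 : ((α * (S α)⁻¹ * T α * (S (T α))⁻¹ : A) : G) ∈ K := inT _ (by
      simp only [map_mul, map_inv, htt, hst]; ac_rfl)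
    have h3 : ((α * (S α)⁻¹ * (T α)⁻¹ * S (T α) : A) : G) ∈ K := inST _ (by
      simp only [map_mul, map_inv, hss, htt, hst]; ac_rfl)
    have hprod := four_mul α (S α) (T α) (S (T α))
    have h4 : a ^ 4 ∈ K := by
      have : ((α ^ 4 : A) : G) ∈ K := by
        rw [hprod]
        simp only [Subgroup.coe_mul]
        exact K.mul_mem (K.mul_mem (K.mul_mem h0 h1) h2) h3
      simpa [hα] using this
    have hc4 : (orderOf a).Coprime 4 :=
      (Nat.Coprime.coprime_dvd_left (orderOf_dvd_of_pow_eq_one (cop3 a ha))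
        ((hk.coprime_dvd_right ⟨3, rfl⟩ : (Nat.card A).Coprime 2))).pow_right 2
    obtain ⟨n, hn⟩ := exists_pow_eq_self_of_coprime hc4.symm
    have : a ∈ K := hn ▸ K.pow_mem h4 n
    exact this
  by_cases hy2A : ∀ a ∈ A, x' * a = a * x' → ψ a y₂ = y₂
  · exact hh.eq_bot_of_fix A hy20 (gen y₂ (fun a ha h => (fix1 a ha h).1) hy2A
      (fun a ha h => (fix3 a ha h).2))
  refine hh.eq_bot_of_fix A hy30 (gen y₃ (fun a ha h => (fix1 a ha h).2)
    (fun a ha h => (fix2 a ha h).2) ?_)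
  intro a ha h3'
  set F := fixed ψ A1 ⊓ fixed ψ A2 with hF
  have hFg : ∀ g : G, (∀ c ∈ A1, g⁻¹ * c * g ∈ A1) → (∀ c ∈ A2, g⁻¹ * c * g ∈ A2) →
      ∀ v ∈ F, ψ g v ∈ F := fun g g1 g2 v hv => ⟨fixed_inv g1 hv.1, fixed_inv g2 hv.2⟩
  have hFA : ∀ g ∈ A, ∀ v ∈ F, ψ g v ∈ F := by
    intro g hg
    refine hFg g ?_ ?_ <;> intro c hc <;>
    · rw [mul_assoc, hcomm c hc.1 g hg, inv_mul_cancel_left]; exact hc
  have hFx : ∀ v ∈ F, ψ x v ∈ F := by
    refine hFg x (fun c hc => ?_) (fun c hc => ?_)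
    · rw [mul_assoc, ← ((hA1 c).mp hc).2, inv_mul_cancel_left]; exact hc
    · refine (hA2 _).mpr ⟨by simpa using hA.conj_mem c hc.1 x⁻¹, ?_⟩
      have h := ((hA2 c).mp hc).2
      rw [hxinv]
      calc x' * (x * c * x) = (x * x') * c * x := by rw [hxc]; group
        _ = x * (c * x') * x := by rw [← h]; group
        _ = (x * c * x) * x' := by rw [mul_assoc (x * c) x x', hxc]; group
  have hy3F : y₃ ∈ F := ⟨fun c hc => (fix1 c hc.1 ((hA1 c).mp hc).2).2,
    fun c hc => (fix2 c hc.1 ((hA2 c).mp hc).2).2⟩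
  have negF : ∀ v ∈ F, ψ x v = -v → ∃ c : ZMod 3, v = c • y₃ := by
    intro v hv hn
    obtain ⟨c₂, c₃, e⟩ := negspan v hn
    refine ⟨c₃, ?_⟩
    by_cases hc : c₂ = 0
    · rw [e, hc, zero_smul, zero_add]
    refine absurd (fun g hg hgc => ?_) hy2A
    have h := hv.2 g ((hA2 g).mpr ⟨hg, hgc⟩)
    rw [e, map_add, map_smul, map_smul, (fix2 g hg hgc).2, add_left_inj] at h
    have := congrArg (c₂⁻¹ • ·) h
    simpa [inv_smul_smul₀ hc] using this
  set c := a⁻¹ * x * a * x with hc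
  have hcA : c ∈ A := by
    have h := A.mul_mem (A.inv_mem ha) (hA.conj_mem a ha x)
    rw [hxinv] at h; rw [hc]; simpa [mul_assoc] using h
  set f : F →ₗ[ZMod 3] M := (ψ c - 1).comp F.subtype with hf
  set g : F →ₗ[ZMod 3] M × M :=
    (((ψ x - 1).comp F.subtype).prod ((((ψ x - 1).comp (ψ a))).comp F.subtype)) with hg
  have hker : LinearMap.ker g ≤ LinearMap.ker f := by
    intro v hv
    rw [LinearMap.mem_ker, hg, LinearMap.prod_apply, Prod.mk_eq_zero] at hv
    have v1 : ψ x (v : M) = v := sub_eq_zero.mp hv.1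
    have v2 : ψ x (ψ a (v : M)) = ψ a (v : M) := sub_eq_zero.mp hv.2
    rw [LinearMap.mem_ker]
    change ψ c (v : M) - v = 0
    rw [hc, app_mul, v1, app_mul, app_mul, v2, app_inv, sub_self]
  set L := Submodule.span (ZMod 3) ({y₃} : Set M) with hL
  have hL1 : Module.finrank (ZMod 3) L ≤ 1 := by rw [hL, finrank_span_singleton hy30]
  have hrg : LinearMap.range g ≤ L.prod L := by
    have key : ∀ w ∈ F, ψ x w - w ∈ L := fun w hw => by
      obtain ⟨d, hd⟩ := negF (ψ x w - w) (F.sub_mem (hFx w hw) hw) (by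
        rw [map_sub, ← app_mul, hh.x2, app_one, neg_sub])
      rw [hd]; exact L.smul_mem d (Submodule.mem_span_singleton_self _)
    rintro _ ⟨v, rfl⟩
    exact ⟨key _ v.2, key _ (hFA a ha _ v.2)⟩
  have hrf : Module.finrank (ZMod 3) (LinearMap.range f) ≤ 2 := by
    have e1 := f.finrank_range_add_finrank_ker
    have e2 := g.finrank_range_add_finrank_ker
    have e3 := Submodule.finrank_mono hker
    have e4 := Submodule.finrank_mono hrg
    have e5 : Module.finrank (ZMod 3) (L.prod L) ≤ 2 := by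
      have h : L.prod L ≤ LinearMap.range (L.subtype.prodMap L.subtype) := by
        rintro ⟨u, v⟩ ⟨hu, hv⟩; exact ⟨(⟨u, hu⟩, ⟨v, hv⟩), rfl⟩
      have h2 := (Submodule.finrank_mono h).trans (LinearMap.finrank_range_le _)
      rw [Module.finrank_prod] at h2; omega
    omega
  have hcw : ∀ w ∈ LinearMap.range f, ψ c w = w := by
    refine fix_small c (cop3 c hcA) hk _ ?_ hrf
    rintro _ ⟨v, rfl⟩
    refine ⟨⟨ψ c v, hFA c hcA _ v.2⟩, ?_⟩
    change ψ c (ψ c (v : M)) - ψ c (v : M) = ψ c (ψ c (v : M) - v)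
    rw [map_sub]
  have hcF : ∀ v ∈ F, ψ c v = v := by
    intro v hv
    have hd := hcw (ψ c v - v) ⟨⟨v, hv⟩, rfl⟩
    have hn : ∀ n : ℕ, ψ (c ^ n) v = v + n • (ψ c v - v) := by
      intro n
      induction n with
      | zero => simp
      | succ n ih =>
        rw [pow_succ', app_mul, ih, map_add, map_nsmul, hd, succ_nsmul]; abel
    have h := hn (Nat.card A)
    rw [cop3 c hcA, app_one, left_eq_add, ← Nat.cast_smul_eq_nsmul (ZMod 3), smul_eq_zero] at h
    refine sub_eq_zero.mp (h.resolve_left fun h0 => ?_)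
    rw [ZMod.natCast_eq_zero_iff] at h0
    have := Nat.eq_one_of_dvd_coprimes hk h0 ⟨2, rfl⟩
    omega
  have hxy : ψ x (ψ a y₃) = -(ψ a y₃) := by
    have h := hcF (ψ x y₃) (hFx _ hy3F)
    rw [hc, app_mul, ← app_mul x x, hh.x2, app_one, app_mul, app_mul] at h
    have h' := congrArg (ψ a) h
    rw [← app_mul a a⁻¹, mul_inv_cancel, app_one] at h'
    rw [h', hy3.1, map_neg]
  obtain ⟨d, hd⟩ := negF _ (hFA a ha _ hy3F) hxy
  have hpow : ∀ n : ℕ, ψ (a ^ n) y₃ = d ^ n • y₃ := by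
    intro n
    induction n with
    | zero => simp
    | succ n ih => rw [pow_succ', app_mul, ih, map_smul, hd, smul_smul, pow_succ]
  have h := hpow (Nat.card A)
  rw [cop3 a ha, app_one] at h
  have hodd : Odd (Nat.card A) := by
    rw [← Nat.coprime_two_right]; exact hk.coprime_dvd_right ⟨3, rfl⟩
  obtain ⟨m, hm⟩ := hodd
  have hd1 : d ^ Nat.card A = d := by
    have : ∀ e : ZMod 3, e ^ 3 = e := by decide
    rw [hm]; clear hm h
    induction m with
    | zero => simp
    | succ m ih => rw [show 2 * (m + 1) + 1 = (2 * m + 1) + 2 by ring, pow_add, ih, ← pow_succ']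
                   exact this d
  rw [hd1] at h
  rw [hd, ← h]

end Cfsg.Agent.CubicBlock
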