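import Cfsg.Agent.Lib.CubicBlock.OddPart
import Cfsg.Prelude.Def_Solvable

/-! When every elementary abelian normal 2-subgroup is scalar: the 2-core is of class two. -/

namespace Cfsg.Agent.CubicBlock

open Subgroup Module
open scoped commutatorElement

variable {G : Type*} [Group G] {M : Type*} [AddCommGroup M] [Module (ZMod 3) M]
variable {ψ : G →* Module.End (ZMod 3) M} {R : Subgroup G} {b x : G}

/-- Every elementary abelian normal 2-subgroup of `R` is scalar. -/
def ScalarCase (ψ : G →* Module.End (ZMod 3) M) (R : Subgroup G) : Prop :=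
  ∀ A : Subgroup G, A.Normal → A ≤ R → (∀ a ∈ A, ∀ c ∈ A, a * c = c * a) →
    (∀ a ∈ A, a * a = 1) → ∀ a ∈ A, a = 1 ∨ ψ a = -1

/-- Being the scalar `1` or `-1`. -/
def IsSc (ψ : G →* Module.End (ZMod 3) M) (g : G) : Prop := g = 1 ∨ ψ g = -1

theorem IsSc.comm (hh : Hyp ψ R b x) {g : G} (hg : IsSc ψ g) (h : G) : g * h = h * g := by
  rcases hg with rfl | hg
  · simp
  · exact hh.inj (by rw [map_mul, map_mul, hg]; simp)

theorem IsSc.eq (hh : Hyp ψ R b x) {g h : G} (hg : IsSc ψ g) (hh' : IsSc ψ h) (g1 : g ≠ 1)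
    (h1 : h ≠ 1) : g = h :=
  hh.inj ((hg.resolve_left g1).trans (hh'.resolve_left h1).symm)

theorem IsSc.sq (hh : Hyp ψ R b x) {g : G} (hg : IsSc ψ g) : g * g = 1 := by
  rcases hg with rfl | hg
  · simp
  · exact hh.inj (by rw [map_mul, map_one, hg]; simp)

theorem comm_central_left {H : Type*} [Group H] {p u v : H} (hp : ∀ h, p * h = h * p) :
    ⁅p * u, v⁆ = ⁅u, v⁆ := by
  rw [commutatorElement_def, commutatorElement_def, mul_inv_rev,
    show p * u * v * (u⁻¹ * p⁻¹) * v⁻¹ = p * (u * v * u⁻¹) * p⁻¹ * v⁻¹ by group, hp (u * v * u⁻¹)]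
  group

theorem comm_central_right {H : Type*} [Group H] {q u v : H} (hq : ∀ h, q * h = h * q) :
    ⁅u, q * v⁆ = ⁅u, v⁆ := by
  rw [commutatorElement_def, commutatorElement_def, mul_inv_rev, ← mul_assoc u q v, ← hq u,
    show q * u * v * u⁻¹ * (v⁻¹ * q⁻¹) = q * (u * v * u⁻¹ * v⁻¹) * q⁻¹ by group,
    hq (u * v * u⁻¹ * v⁻¹)]
  group

/-- Elements of odd order in an abelian normal subgroup are trivial. -/
theorem Hyp.no_odd [Finite G] [FiniteDimensional (ZMod 3) M] (hh : Hyp ψ R b x) (D : Subgroup G)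
    [hD : D.Normal] (hDR : D ≤ R)
    (hc : ∀ a ∈ D, ∀ c ∈ D, Odd (orderOf a) → Odd (orderOf c) → a * c = c * a) :
    ∀ a ∈ D, Odd (orderOf a) → a = 1 := by
  intro a ha hao
  let B : Subgroup G :=
    { carrier := {g | g ∈ D ∧ Odd (orderOf g)}
      one_mem' := ⟨D.one_mem, by simp⟩
      mul_mem' := fun {g h} hg hh' => ⟨D.mul_mem hg.1 hh'.1,
        ((hg.2.mul hh'.2)).of_dvd_nat
          ((Commute.orderOf_mul_dvd_mul_orderOf (hc g hg.1 h hh'.1 hg.2 hh'.2)))⟩
      inv_mem' := fun {g} hg => ⟨D.inv_mem hg.1, by rw [orderOf_inv]; exact hg.2⟩ }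
  haveI : B.Normal := ⟨fun g hg c => ⟨hD.conj_mem g hg.1 c, by
    rw [show orderOf (c * g * c⁻¹) = orderOf g from (MulAut.conj c).orderOf_eq g]; exact hg.2⟩⟩
  haveI : IsMulCommutative B :=
    ⟨⟨fun g h => Subtype.ext (hc g g.2.1 h h.2.1 g.2.2 h.2.2)⟩⟩
  have h6 : (Nat.card B).Coprime 6 := by
    rw [show (6 : ℕ) = 2 * 3 by norm_num]
    refine Nat.Coprime.mul_right ?_ ?_
    · rw [Nat.coprime_comm, Nat.prime_two.coprime_iff_not_dvd]
      intro h2
      haveI : Fact (Nat.Prime 2) := ⟨Nat.prime_two⟩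
      obtain ⟨g, hg⟩ := exists_prime_orderOf_dvd_card' (G := B) 2 h2
      have := g.2.2
      rw [Subgroup.orderOf_coe, hg] at this
      exact absurd this (by decide)
    · rw [Nat.coprime_comm, Nat.prime_three.coprime_iff_not_dvd]
      exact fun h => hh.cop (h.trans (Subgroup.card_dvd_of_le (fun g hg => hDR hg.1)))
  have : a ∈ B := ⟨ha, hao⟩
  rw [hh.odd_abelian B h6] at this
  exact Subgroup.mem_bot.mp this

/-- Abelian normal subgroups of `R` are scalar. -/
theorem Hyp.abelian_scalar [Finite G] [FiniteDimensional (ZMod 3) M] (hh : Hyp ψ R b x)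
    (hsc : ScalarCase ψ R) (A : Subgroup G) [hA : A.Normal] (hAR : A ≤ R)
    (hc : ∀ a ∈ A, ∀ c ∈ A, a * c = c * a) : ∀ a ∈ A, IsSc ψ a := by
  -- involutions of `A` are scalar
  let A2 : Subgroup G :=
    { carrier := {g | g ∈ A ∧ g * g = 1}
      one_mem' := ⟨A.one_mem, one_mul 1⟩
      mul_mem' := fun {g h} hg hh' => ⟨A.mul_mem hg.1 hh'.1, by
        rw [mul_assoc, ← mul_assoc h g, hc h hh'.1 g hg.1, mul_assoc g h h, hh'.2, mul_one, hg.2]⟩
      inv_mem' := fun {g} hg => ⟨A.inv_mem hg.1, by rw [← mul_inv_rev, hg.2, inv_one]⟩ }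
  have hA2n : A2.Normal := ⟨fun g hg c => ⟨hA.conj_mem g hg.1 c, by
    rw [show c * g * c⁻¹ * (c * g * c⁻¹) = c * (g * g) * c⁻¹ by group, hg.2]; group⟩⟩
  have h2 : ∀ g ∈ A, g * g = 1 → IsSc ψ g := fun g hg hg2 =>
    hsc A2 hA2n (fun k hk => hAR hk.1) (fun p hp q hq => hc p hp.1 q hq.1)
      (fun p hp => hp.2) g ⟨hg, hg2⟩
  -- there is no element of order four
  have h4 : ∀ g ∈ A, g ^ 4 = 1 → g * g = 1 := by
    intro g hg hg4
    by_contra hne
    have hgg : IsSc ψ (g * g) := h2 _ (A.mul_mem hg hg) (by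
      rw [show g * g * (g * g) = g ^ 4 by simp [pow_succ, mul_assoc], hg4])
    set g' := b * g * b⁻¹ with hg'
    have hg'A : g' ∈ A := hA.conj_mem g hg b
    have hsq : g' * g' = g * g := by
      rw [hg', show b * g * b⁻¹ * (b * g * b⁻¹) = b * (g * g) * b⁻¹ by group, ← hgg.comm hh b]
      group
    have hw : IsSc ψ (g⁻¹ * g') := h2 _ (A.mul_mem (A.inv_mem hg) hg'A) (by
      rw [mul_assoc, ← mul_assoc g' g⁻¹, hc g' hg'A g⁻¹ (A.inv_mem hg), mul_assoc g⁻¹ g' g', hsq]
      group)
    have hbg : b * g = g * b := by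
      by_contra hne'
      set w := g⁻¹ * g' with hwdef
      have hw1 : w ≠ 1 := fun h => hne' (by
        have h' : g' = g := by rw [hwdef] at h; exact (inv_mul_eq_one.mp h).symm
        rw [hg'] at h'; nth_rw 2 [← h']; group)
      have hstep : b * g * b⁻¹ = g * w := by rw [hwdef, hg']; group
      have hbw : b * w * b⁻¹ = w := by rw [← hw.comm hh b]; group
      have h3 : b * (b * (b * g * b⁻¹) * b⁻¹) * b⁻¹ = g * (w * w * w) := by
        rw [hstep, show b * (g * w) * b⁻¹ = (b * g * b⁻¹) * (b * w * b⁻¹) by group, hstep, hbw,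
          show b * (g * w * w) * b⁻¹ = (b * g * b⁻¹) * (b * w * b⁻¹) * (b * w * b⁻¹) by group,
          hstep, hbw]
        group
      rw [show b * (b * (b * g * b⁻¹) * b⁻¹) * b⁻¹ = b ^ 3 * g * (b ^ 3)⁻¹ by
        simp [pow_succ, mul_assoc], hh.b3,
        one_mul, inv_one, mul_one, hw.sq hh, one_mul, left_eq_mul] at h3
      exact hw1 h3
    -- the centraliser of the elements of exponent four
    let A4 : Subgroup G :=
      { carrier := {k | k ∈ A ∧ k ^ 4 = 1}
        one_mem' := ⟨A.one_mem, one_pow 4⟩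
        mul_mem' := fun {k l} hk hl => ⟨A.mul_mem hk.1 hl.1, by
          rw [(show Commute k l from hc k hk.1 l hl.1).mul_pow, hk.2, hl.2, one_mul]⟩
        inv_mem' := fun {k} hk => ⟨A.inv_mem hk.1, by rw [inv_pow, hk.2, inv_one]⟩ }
    haveI : A4.Normal := ⟨fun k hk c => ⟨hA.conj_mem k hk.1 c, by rw [conj_pow, hk.2]; group⟩⟩
    have hC := hh.le_of_normal (Subgroup.centralizer (A4 : Set G))
      (Subgroup.mem_centralizer_iff.mpr fun k hk => by
        have hk4 : k ^ 4 = 1 := hk.2
        by_cases hk2 : k * k = 1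
        · exact (h2 k hk.1 hk2).comm hh b
        · have hks : IsSc ψ (k * k) := h2 _ (A.mul_mem hk.1 hk.1) (by
            rw [show k * k * (k * k) = k ^ 4 by simp [pow_succ, mul_assoc], hk4])
          have hkk : k * k = g * g := hks.eq hh hgg hk2 hne
          have hv : IsSc ψ (g⁻¹ * k) := h2 _ (A.mul_mem (A.inv_mem hg) hk.1) (by
            rw [mul_assoc, ← mul_assoc k g⁻¹, hc k hk.1 g⁻¹ (A.inv_mem hg), mul_assoc g⁻¹ k k, hkk]
            group)
          rw [show k = g * (g⁻¹ * k) by group, mul_assoc, hv.comm hh b, ← mul_assoc, ← hbg,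
            mul_assoc])
    have hcent : ∀ h : G, g * h = h * g := fun h =>
      Subgroup.mem_centralizer_iff.mp (hC ▸ Subgroup.mem_top h :
        h ∈ Subgroup.centralizer (A4 : Set G)) g ⟨hg, hg4⟩
    obtain ⟨y, hy0, hyx, hyx', hline, -, -⟩ := hh.lines
    obtain ⟨c, hc'⟩ := hline (ψ g y) (by rw [← app_mul, ← hcent, app_mul, hyx])
      (by rw [← app_mul, ← hcent, app_mul, hyx', map_neg])
    have hc2 : ψ (g * g) y = (c * c) • y := by
      rw [app_mul, hc', map_smul, hc', smul_smul]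
    rcases hgg with h | h
    · exact hne h
    · rw [h, LinearMap.neg_apply, Module.End.one_apply] at hc2
      have hcc : c * c = 0 ∨ c * c = 1 := (by decide : ∀ e : ZMod 3, e * e = 0 ∨ e * e = 1) c
      rcases hcc with e | e
      · rw [e, zero_smul, neg_eq_zero] at hc2; exact hy0 hc2
      · rw [e, one_smul] at hc2; exact hy0 (eq_neg_self hc2.symm)
  -- no odd order, exponent two
  have hodd := hh.no_odd A hAR (fun p hp q hq _ _ => hc p hp q hq)
  intro a ha
  refine h2 a ha ?_
  obtain ⟨k, m, hm, hkm⟩ := Nat.exists_eq_two_pow_mul_odd (orderOf_pos a).ne'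
  have ho : a ^ 2 ^ k = 1 := hodd _ (A.pow_mem ha _) (by
    refine hm.of_dvd_nat (orderOf_dvd_of_pow_eq_one ?_)
    rw [← pow_mul, ← hkm, pow_orderOf_eq_one])
  clear hkm hm
  induction k with
  | zero => rw [pow_zero, pow_one] at ho; rw [ho, mul_one]
  | succ k ih =>
    rcases Nat.eq_zero_or_pos k with rfl | hk
    · rw [pow_one] at ho; rwa [sq] at ho
    refine ih ?_
    obtain ⟨j, rfl⟩ := Nat.exists_eq_succ_of_ne_zero hk.ne'
    have := h4 (a ^ 2 ^ j) (A.pow_mem ha _) (by
      rw [← pow_mul, show 2 ^ j * 4 = 2 ^ (j + 1 + 1) by ring]; exact ho)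
    rw [← pow_add] at this
    rw [show 2 ^ (j + 1) = 2 ^ j + 2 ^ j by ring]; exact this

/-- The 2-core in the scalar case. -/
theorem Hyp.twoCore [Finite G] [Group.IsSolvable G] [FiniteDimensional (ZMod 3) M]
    (hh : Hyp ψ R b x) (hsc : ScalarCase ψ R) :
    ∃ U : Subgroup G, U.Normal ∧ U ≤ R ∧ IsPGroup 2 U ∧
      (∀ c ∈ R, (∀ u ∈ U, c * u = u * c) → c ∈ U) ∧
      (∀ u ∈ U, ∀ v ∈ U, IsSc ψ ⁅u, v⁆) ∧
      (∀ u ∈ U, (∀ v ∈ U, u * v = v * u) → IsSc ψ u) ∧
      (∀ u ∈ U, IsSc ψ (u * u)) ∧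
      (∀ N : Subgroup G, N.Normal → IsPGroup 2 N → N ≤ R → N ≤ U) ∧
      ∃ z ∈ U, ψ z = -1 := by
  classical
  haveI := hh.normal
  haveI : Fact (Nat.Prime 2) := ⟨Nat.prime_two⟩
  set U : Subgroup G := (Cfsg.pCore 2 R).map R.subtype with hU
  have hcoreN : (Cfsg.pCore 2 R).Characteristic := by
    refine Subgroup.characteristic_iff_map_le.mpr fun φ => ?_
    rw [Cfsg.pCore, sSup_eq_iSup, Subgroup.map_iSup]
    refine iSup_le fun N => ?_
    rw [Subgroup.map_iSup]
    refine iSup_le fun hN => le_iSup₂_of_le (N.map φ.toMonoidHom) ?_ le_rfl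
    exact ⟨hN.1.map _ φ.surjective, hN.2.map _⟩
  haveI hUn : U.Normal := ConjAct.normal_of_characteristic_of_normal
  have hUR : U ≤ R := Subgroup.map_subtype_le _
  have hmax : ∀ N : Subgroup G, N.Normal → IsPGroup 2 N → N ≤ R → N ≤ U := by
    intro N hN hN2 hNR g hg
    refine ⟨⟨g, hNR hg⟩, ?_, rfl⟩
    haveI := hN
    have hN2' : IsPGroup 2 (N.subgroupOf R) :=
      hN2.of_injective ((Subgroup.subgroupOfEquivOfLe hNR).toMonoidHom)
        (Subgroup.subgroupOfEquivOfLe hNR).injective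
    exact le_sSup (s := {K : Subgroup R | K.Normal ∧ IsPGroup 2 K}) ⟨inferInstance, hN2'⟩ hg
  have hU2 : IsPGroup 2 U := by
    refine IsPGroup.map ?_ _
    rw [Cfsg.pCore]
    have key : ∀ s : Finset (Subgroup R), (∀ K ∈ s, K.Normal ∧ IsPGroup 2 K) →
        (s.sup id).Normal ∧ IsPGroup 2 ↥(s.sup id) := by
      intro s
      induction s using Finset.induction with
      | empty => intro _; exact ⟨by rw [Finset.sup_empty]; exact Subgroup.normal_bot, by rw [Finset.sup_empty]; exact IsPGroup.of_bot⟩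
      | @insert K s hK ih =>
        intro h
        obtain ⟨n1, p1⟩ := h K (Finset.mem_insert_self K s)
        obtain ⟨n2, p2⟩ := ih fun L hL => h L (Finset.mem_insert_of_mem hL)
        rw [Finset.sup_insert, id_eq]
        exact ⟨inferInstance, p1.to_sup_of_normal_left p2⟩
    haveI := Fintype.ofFinite {K : Subgroup R | K.Normal ∧ IsPGroup 2 K}
    have h := (key {K : Subgroup R | K.Normal ∧ IsPGroup 2 K}.toFinset fun K hK => by simpa using hK).2
    rw [Finset.sup_id_eq_sSup, Set.coe_toFinset] at h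
    exact h
  -- centraliser
  have hCU : ∀ c ∈ R, (∀ u ∈ U, c * u = u * c) → c ∈ U := by
    set K : Subgroup G := R ⊓ Subgroup.centralizer (U : Set G) with hK
    haveI : K.Normal := Subgroup.normal_inf_normal _ _
    have hKsc : ∀ g ∈ K ⊓ U, IsSc ψ g := by
      haveI : (K ⊓ U).Normal := Subgroup.normal_inf_normal _ _
      exact hh.abelian_scalar hsc (K ⊓ U) (fun g hg => hg.1.1) fun p hp q hq =>
        (Subgroup.mem_centralizer_iff.mp hq.1.2 p hp.2)
    by_contra hno
    push Not at hno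
    obtain ⟨c, hcR, hcc, hcU⟩ := hno
    have hcK : c ∈ K := ⟨hcR, Subgroup.mem_centralizer_iff.mpr fun u hu => (hcc u hu).symm⟩
    obtain ⟨n, hn⟩ := (Group.isSolvable_def K).mp inferInstance
    have hex : ∃ k, (derivedSeries K k).map K.subtype ≤ U :=
      ⟨n, by rw [hn, Subgroup.map_bot]; exact bot_le⟩
    have hpos : Nat.find hex ≠ 0 := fun h0 => hcU (by
      have h := Nat.find_spec hex
      rw [h0, derivedSeries_zero] at h
      exact h ⟨⟨c, hcK⟩, Subgroup.mem_top _, rfl⟩)
    obtain ⟨j, hj⟩ := Nat.exists_eq_succ_of_ne_zero hpos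
    set D : Subgroup G := (derivedSeries K j).map K.subtype with hD
    haveI hDn : D.Normal := ConjAct.normal_of_characteristic_of_normal
    have hDK : D ≤ K := Subgroup.map_subtype_le _
    have hcsc : ∀ p ∈ D, ∀ q ∈ D, IsSc ψ ⁅p, q⁆ := by
      rintro _ ⟨p, hp, rfl⟩ _ ⟨q, hq, rfl⟩
      have hm : (⁅p, q⁆ : K) ∈ derivedSeries K (Nat.find hex) := by
        rw [hj, derivedSeries_succ]; exact Subgroup.commutator_mem_commutator hp hq
      have h := Nat.find_spec hex (Subgroup.mem_map_of_mem K.subtype hm)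
      rw [← map_commutatorElement]
      exact hKsc _ ⟨(⁅p, q⁆ : K).2, h⟩
    have hodd := hh.no_odd D (fun g hg => (hDK hg).1) (fun p hp q hq po qo => by
      have hs := hcsc p hp q hq
      rw [← commutatorElement_eq_one_iff_mul_comm]
      set w := ⁅p, q⁆ with hw
      have hconj : p * q * p⁻¹ = w * q := by rw [hw, commutatorElement_def]; group
      have h1 := congrArg (· ^ orderOf q) hconj
      simp only [conj_pow, pow_orderOf_eq_one, (show Commute w q from hs.comm hh q).mul_pow,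
        mul_one, mul_inv_cancel] at h1
      obtain ⟨e, he⟩ := qo
      rw [he, pow_succ, pow_mul, sq, hs.sq hh, one_pow, one_mul] at h1
      exact h1.symm)
    have hD2 : IsPGroup 2 D := by
      intro d
      obtain ⟨k, m, hm, hkm⟩ := Nat.exists_eq_two_pow_mul_odd (orderOf_pos (d : G)).ne'
      refine ⟨k, Subtype.ext ?_⟩
      rw [Subgroup.coe_pow]
      refine hodd _ (D.pow_mem d.2 _) (hm.of_dvd_nat (orderOf_dvd_of_pow_eq_one ?_))
      rw [← pow_mul, ← hkm, pow_orderOf_eq_one]
    exact Nat.find_min hex (show j < Nat.find hex by rw [hj]; exact Nat.lt_succ_self j)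
      (hmax D hDn hD2 fun g hg => (hDK hg).1)
  -- centre
  have hZ : ∀ u ∈ U, (∀ v ∈ U, u * v = v * u) → IsSc ψ u := by
    intro u hu hc
    haveI : (U ⊓ Subgroup.centralizer (U : Set G)).Normal := Subgroup.normal_inf_normal _ _
    exact hh.abelian_scalar hsc (U ⊓ Subgroup.centralizer (U : Set G)) (fun g hg => hUR hg.1)
      (fun p hp q hq => Subgroup.mem_centralizer_iff.mp hq.2 p hp.1) u
      ⟨hu, Subgroup.mem_centralizer_iff.mpr fun v hv => (hc v hv).symm⟩
  -- class two
  have hcl : ∀ u ∈ U, ∀ v ∈ U, IsSc ψ ⁅u, v⁆ := by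
    by_contra hno
    have hex : ∃ k, ∀ g ∈ U.lowerCentralSeries k, IsSc ψ g := by
      obtain ⟨n, hn⟩ := Subgroup.nilpotent_iff_lowerCentralSeries.mp hU2.isNilpotent
      refine ⟨n, fun g hg => ?_⟩
      have e : U.lowerCentralSeries n =
          ((⊤ : Subgroup U).lowerCentralSeries n).map U.subtype := by
        rw [Subgroup.map_lowerCentralSeries, ← MonoidHom.range_eq_map, Subgroup.range_subtype]
      rw [e, hn, Subgroup.map_bot, Subgroup.mem_bot] at hg
      exact Or.inl hg
    have h2 : 1 < Nat.find hex := by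
      by_contra h2
      apply hno
      intro u hu v hv
      have hm : ⁅u, v⁆ ∈ U.lowerCentralSeries 1 := Subgroup.commutator_mem_commutator hu hv
      rcases Nat.le_one_iff_eq_zero_or_eq_one.mp (not_lt.mp h2) with h | h
      · exact (h ▸ Nat.find_spec hex) _ (Subgroup.commutator_le_self U hm)
      · exact (h ▸ Nat.find_spec hex) _ hm
    obtain ⟨j, hj⟩ : ∃ j, Nat.find hex = j + 2 := ⟨Nat.find hex - 2, by omega⟩
    set L := U.lowerCentralSeries (j + 1) with hL
    haveI : L.Normal := Subgroup.lowerCentralSeries_normal U (j + 1)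
    have hL1 : L ≤ U.lowerCentralSeries 1 := Subgroup.lowerCentralSeries_antitone U (by omega)
    have hLU : L ≤ U := hL1.trans (Subgroup.commutator_le_self U)
    have hLc : ∀ g ∈ L, ∀ u ∈ U, IsSc ψ ⁅g, u⁆ := fun g hg u hu => by
      have := Nat.find_spec hex
      rw [hj] at this
      exact this _ (Subgroup.commutator_mem_commutator hg hu)
    have habel : ∀ g ∈ L, ∀ h ∈ L, g * h = h * g := by
      intro g hg h hh2
      -- `u ↦ ⁅g, u⁆` is multiplicative
      let C : Subgroup U :=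
        { carrier := {u | ∀ g ∈ L, g * (u : G) = u * g}
          one_mem' := fun g _ => by simp
          mul_mem' := fun {u v} hu hv g hg => by
            rw [Subgroup.coe_mul, ← mul_assoc, hu g hg, mul_assoc, hv g hg, mul_assoc]
          inv_mem' := fun {u} hu g hg => by
            rw [Subgroup.coe_inv, eq_inv_mul_iff_mul_eq, ← mul_assoc, ← hu g hg,
              mul_inv_cancel_right] }
      have hU' : U.lowerCentralSeries 1 ≤ C.map U.subtype := by
        change ⁅U, U⁆ ≤ _
        rw [Subgroup.commutator_le]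
        intro u hu v hv
        refine ⟨⁅(⟨u, hu⟩ : U), ⟨v, hv⟩⁆, ?_, map_commutatorElement _ _ _⟩
        intro g hg
        change g * ⁅u, v⁆ = ⁅u, v⁆ * g
        have eu := hLc g hg u hu
        have ev := hLc g hg v hv
        set p := ⁅g, u⁆ with hp
        set q := ⁅g, v⁆ with hq
        have cu : g * u * g⁻¹ = p * u := by rw [hp, commutatorElement_def]; group
        have cv : g * v * g⁻¹ = q * v := by rw [hq, commutatorElement_def]; group
        have h1 : g * ⁅u, v⁆ * g⁻¹ = ⁅u, v⁆ := by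
          calc g * ⁅u, v⁆ * g⁻¹ = ⁅g * u * g⁻¹, g * v * g⁻¹⁆ := by
                simp only [commutatorElement_def]; group
            _ = ⁅p * u, q * v⁆ := by rw [cu, cv]
            _ = ⁅u, v⁆ := by
              rw [comm_central_left (eu.comm hh), comm_central_right (ev.comm hh)]
        rw [mul_inv_eq_iff_eq_mul] at h1
        exact h1
      obtain ⟨c, hc', e⟩ := hU' (hL1 hh2)
      have := hc' g hg
      rw [show (c : G) = h from e] at this
      exact this
    have := hh.abelian_scalar hsc L (hLU.trans hUR) habel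
    exact absurd this (Nat.find_min hex (by omega))
  -- squares
  have hsq : ∀ u ∈ U, IsSc ψ (u * u) := by
    intro u hu
    refine hZ _ (U.mul_mem hu hu) fun v hv => ?_
    have hs := hcl u hu v hv
    set w := ⁅u, v⁆ with hw
    have h1 : u * v = w * v * u := by rw [hw, commutatorElement_def]; group
    calc u * u * v = u * (u * v) := mul_assoc _ _ _
      _ = u * w * v * u := by rw [h1]; group
      _ = w * (u * v) * u := by rw [← hs.comm hh u]; group
      _ = (w * w) * v * u * u := by rw [h1]; group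
      _ = v * (u * u) := by rw [hs.sq hh]; group
  refine ⟨U, hUn, hUR, hU2, hCU, hcl, hZ, hsq, hmax, ?_⟩
  by_contra hno
  push Not at hno
  have habel : ∀ u ∈ U, ∀ v ∈ U, u * v = v * u := fun u hu v hv => by
    rw [← commutatorElement_eq_one_iff_mul_comm]
    refine (hcl u hu v hv).resolve_right (hno _ ?_)
    exact Subgroup.commutator_le_self U (Subgroup.commutator_mem_commutator hu hv)
  have htriv : ∀ u ∈ U, u = 1 := fun u hu =>
    (hZ u hu (habel u hu)).resolve_right (hno u hu)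
  exact hh.x1 (htriv x (hCU x hh.xR fun u hu => by simp [htriv u hu]))

end Cfsg.Agent.CubicBlock
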