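import Mathlib

/-! Setting for a group `R⟨b⟩` acting on a GF(3)-space where `b - 1` has rank at most two and `R`
contains a four-group normalised, not centralised, by `b`. -/

namespace Cfsg.Agent.CubicBlock

open Subgroup Module

variable {G : Type*} [Group G] {M : Type*} [AddCommGroup M] [Module (ZMod 3) M]

/-- The hypotheses. -/
structure Hyp (ψ : G →* Module.End (ZMod 3) M) (R : Subgroup G) (b x : G) : Prop where
  inj : Function.Injective ψ
  gen : ∀ H : Subgroup G, R ≤ H → b ∈ H → H = ⊤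
  normal : R.Normal
  cop : ¬ 3 ∣ Nat.card R
  comm : ⁅R, Subgroup.zpowers b⁆ = R
  b3 : b ^ 3 = 1
  xR : x ∈ R
  x2 : x * x = 1
  x1 : x ≠ 1
  xne : b * x * b⁻¹ ≠ x
  xcomm : x * (b * x * b⁻¹) = (b * x * b⁻¹) * x
  xconj : b * (b * x * b⁻¹) * b⁻¹ = x * (b * x * b⁻¹)
  fix0 : ∀ v : M, (∀ r ∈ R, ψ r v = v) → v = 0
  rank : Module.finrank (ZMod 3) (LinearMap.range (ψ b - 1)) ≤ 2

variable {ψ : G →* Module.End (ZMod 3) M} {R : Subgroup G} {b x : G}

theorem app_mul (g h : G) (v : M) : ψ (g * h) v = ψ g (ψ h v) := by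
  rw [map_mul]; rfl

theorem app_one (v : M) : ψ 1 v = v := by rw [map_one]; rfl

theorem app_inv (g : G) (v : M) : ψ g⁻¹ (ψ g v) = v := by
  rw [← app_mul, inv_mul_cancel, app_one]

theorem app_inj (g : G) {u v : M} (h : ψ g u = ψ g v) : u = v := by
  have := congrArg (ψ g⁻¹) h; rwa [app_inv, app_inv] at this

theorem three_zero (v : M) : v + v + v = 0 := by
  have h : (3 : ZMod 3) • v = 0 := by rw [show (3 : ZMod 3) = 0 by decide, zero_smul]
  rw [← h, show (3 : ZMod 3) = 1 + 1 + 1 by decide, add_smul, add_smul, one_smul]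

theorem eq_neg_self {v : M} (h : v = -v) : v = 0 := by
  have h2 : v + v = 0 := by nth_rw 2 [h]; exact add_neg_cancel v
  have := three_zero v
  rwa [h2, zero_add] at this

/-- A homomorphism in which the image of `b` centralises that of `R` is trivial on `R`. -/
theorem Hyp.kills {H : Type*} [Group H] (hh : Hyp ψ R b x) (φ : G →* H)
    (hc : ∀ r ∈ R, φ r * φ b = φ b * φ r) : ∀ r ∈ R, φ r = 1 := by
  have : ⁅R, Subgroup.zpowers b⁆ ≤ φ.ker := by
    rw [Subgroup.commutator_le]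
    rintro r hr _ ⟨k, rfl⟩
    rw [MonoidHom.mem_ker, map_commutatorElement, commutatorElement_eq_one_iff_mul_comm, map_zpow]
    exact (Commute.zpow_right (hc r hr) k)
  rw [hh.comm] at this
  exact fun r hr => this hr

/-- If `b` is in a normal subgroup, so is `R`. -/
theorem Hyp.le_of_normal (hh : Hyp ψ R b x) (N : Subgroup G) [N.Normal] (hb : b ∈ N) :
    N = ⊤ := by
  refine hh.gen N (fun r hr => ?_) hb
  have hbN : (QuotientGroup.mk' N) b = 1 := (QuotientGroup.eq_one_iff b).mpr hb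
  have := hh.kills (QuotientGroup.mk' N) (fun r _ => by rw [hbN, mul_one, one_mul]) r hr
  exact (QuotientGroup.eq_one_iff r).mp this

theorem Hyp.bx_mem (hh : Hyp ψ R b x) : b * x * b⁻¹ ∈ R := hh.normal.conj_mem x hh.xR b

/-- The line negated by `x` and fixed by its conjugate, and what remains. -/
theorem Hyp.lines [Finite G] [FiniteDimensional (ZMod 3) M] (hh : Hyp ψ R b x) :
    ∃ y : M, y ≠ 0 ∧ ψ x y = y ∧ ψ (b * x * b⁻¹) y = -y ∧
      (∀ v : M, ψ x v = v → ψ (b * x * b⁻¹) v = -v → ∃ c : ZMod 3, v = c • y) ∧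
      (∀ v : M, ψ x v = v → ψ (b * x * b⁻¹) v = v → ψ b v = v) ∧
      (∀ v : M, ∃ w : M, ∃ c₁ c₂ c₃ : ZMod 3, ψ x w = w ∧ ψ (b * x * b⁻¹) w = w ∧
        v = w + c₁ • y + c₂ • ψ b y + c₃ • ψ b (ψ b y)) := by
  set x' := b * x * b⁻¹ with hx'
  have hxx : ∀ v, ψ x (ψ x v) = v := fun v => by rw [← app_mul, hh.x2, app_one]
  have hx'x' : ∀ v, ψ x' (ψ x' v) = v := fun v => by
    rw [← app_mul, hx', show b * x * b⁻¹ * (b * x * b⁻¹) = b * (x * x) * b⁻¹ by group, hh.x2,
      mul_one, mul_inv_cancel, app_one]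
  have hcm : ∀ v, ψ x (ψ x' v) = ψ x' (ψ x v) := fun v => by
    rw [← app_mul, ← app_mul, hh.xcomm]
  have hb1 : ∀ v, ψ x' (ψ b v) = ψ b (ψ x v) := fun v => by
    rw [← app_mul, ← app_mul, hx']; congr 2; group
  have hb2 : ∀ v, ψ x (ψ b v) = ψ b (ψ x (ψ x' v)) := fun v => by
    rw [← app_mul, ← app_mul, ← app_mul, mul_assoc]
    congr 2
    have e1 : x * x' * b = b * x' := by
      rw [hx', ← hh.xconj]; group
    have e2 : x * x' * x' = x := by
      rw [mul_assoc, show x' * x' = 1 by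
        rw [hx', show b * x * b⁻¹ * (b * x * b⁻¹) = b * (x * x) * b⁻¹ by group, hh.x2, mul_one,
          mul_inv_cancel], mul_one]
    have e3 : x' * b = b * x := by rw [hx']; group
    calc x * b = x * x' * x' * b := by rw [e2]
      _ = x * x' * b * x := by rw [mul_assoc, e3, ← mul_assoc]
      _ = b * x' * x := by rw [e1]
      _ = b * (x * x') := by rw [mul_assoc, hh.xcomm]
  -- projections
  have proj : ∀ (s t : ZMod 3) (v : M), s * s = 1 → t * t = 1 →
      ψ x (v + s • ψ x v + t • ψ x' v + (s * t) • ψ x (ψ x' v))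
        = s • (v + s • ψ x v + t • ψ x' v + (s * t) • ψ x (ψ x' v)) ∧
      ψ x' (v + s • ψ x v + t • ψ x' v + (s * t) • ψ x (ψ x' v))
        = t • (v + s • ψ x v + t • ψ x' v + (s * t) • ψ x (ψ x' v)) := by
    intro s t v hs ht
    constructor
    · simp only [map_add, map_smul, hxx, smul_add, smul_smul, ← mul_assoc, hs, one_smul, one_mul]
      module
    · simp only [map_add, map_smul, hx'x', ← hcm, smul_add, smul_smul]
      rw [show t * t = 1 from ht, show t * (s * t) = s by rw [mul_comm s t, ← mul_assoc, ht, one_mul],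
        show t * s = s * t from mul_comm t s, one_smul]
      module
  -- decomposition of an arbitrary vector
  have dec : ∀ v : M, ∃ w p₁ p₂ p₃ : M, (ψ x w = w ∧ ψ x' w = w) ∧
      (ψ x p₁ = p₁ ∧ ψ x' p₁ = -p₁) ∧ (ψ x p₂ = -p₂ ∧ ψ x' p₂ = p₂) ∧
      (ψ x p₃ = -p₃ ∧ ψ x' p₃ = -p₃) ∧ v = w + p₁ + p₂ + p₃ := by
    intro v
    obtain ⟨a0, b0⟩ := proj 1 1 v (by decide) (by decide)
    obtain ⟨a1, b1⟩ := proj 1 (-1) v (by decide) (by decide)
    obtain ⟨a2, b2⟩ := proj (-1) 1 v (by decide) (by decide)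
    obtain ⟨a3, b3⟩ := proj (-1) (-1) v (by decide) (by decide)
    simp only [one_smul, neg_smul] at a0 b0 a1 b1 a2 b2 a3 b3
    refine ⟨_, _, _, _, ⟨a0, b0⟩, ⟨a1, b1⟩, ⟨a2, b2⟩, ⟨a3, b3⟩, ?_⟩
    have h3 := three_zero v
    simp only [one_mul, mul_one, neg_mul, neg_neg, one_smul, neg_smul]
    have e : v = v + (v + v + v) := by rw [h3, add_zero]
    conv_lhs => rw [e]
    abel
  -- nontrivial eigenvectors exist
  have ex : ∃ y : M, y ≠ 0 ∧ ψ x y = y ∧ ψ x' y = -y := by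
    by_contra hno
    push Not at hno
    have h1 : ∀ p : M, ψ x p = p → ψ x' p = -p → p = 0 := fun p h h' => by
      by_contra hp; exact hno p hp h h'
    have h2 : ∀ p : M, ψ x p = -p → ψ x' p = -p → p = 0 := fun p h h' => by
      refine app_inj (ψ := ψ) b ?_
      rw [map_zero]
      refine h1 _ ?_ ?_
      · rw [hb2, h', map_neg, h, neg_neg]
      · rw [hb1, h, map_neg]
    have h3 : ∀ p : M, ψ x p = -p → ψ x' p = p → p = 0 := fun p h h' => by
      refine app_inj (ψ := ψ) b ?_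
      rw [map_zero]
      refine h2 _ ?_ ?_
      · rw [hb2, h', h, map_neg]
      · rw [hb1, h, map_neg]
    apply hh.x1
    apply hh.inj
    refine LinearMap.ext fun v => ?_
    obtain ⟨w, p₁, p₂, p₃, hw, hp₁, hp₂, hp₃, rfl⟩ := dec v
    rw [h1 p₁ hp₁.1 hp₁.2, h3 p₂ hp₂.1 hp₂.2, h2 p₃ hp₃.1 hp₃.2, map_one]
    simp [hw.1]
  obtain ⟨y, hy0, hyx, hyx'⟩ := ex
  have by1 : ψ x (ψ b y) = -(ψ b y) ∧ ψ x' (ψ b y) = ψ b y :=
    ⟨by rw [hb2, hyx', map_neg, hyx, map_neg], by rw [hb1, hyx]⟩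
  have by2 : ψ x (ψ b (ψ b y)) = -(ψ b (ψ b y)) ∧ ψ x' (ψ b (ψ b y)) = -(ψ b (ψ b y)) :=
    ⟨by rw [hb2, by1.2, by1.1, map_neg], by rw [hb1, by1.1, map_neg]⟩
  set D : M →ₗ[ZMod 3] M := ψ b - 1 with hD
  have hDv : ∀ v, D v = ψ b v - v := fun v => rfl
  -- separation
  have sep : ∀ w p₁ p₂ p₃ : M, ψ x w = w → ψ x' w = w → ψ x p₁ = p₁ → ψ x' p₁ = -p₁ →
      ψ x p₂ = -p₂ → ψ x' p₂ = p₂ → ψ x p₃ = -p₃ → ψ x' p₃ = -p₃ →
      w + p₁ + p₂ + p₃ = 0 → w = 0 ∧ p₁ = 0 ∧ p₂ = 0 ∧ p₃ = 0 := by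
    intro w p₁ p₂ p₃ a a' c c' d d' e e' hs
    have hx := congrArg (ψ x) hs
    have hx'' := congrArg (ψ x') hs
    have hxx'' := congrArg (fun v => ψ x (ψ x' v)) hs
    simp only [map_add, map_zero, map_neg, a, a', c, c', d, d', e, e', neg_neg] at hx hx'' hxx''
    refine ⟨?_, ?_, ?_, ?_⟩
    · have : w + (w + w + w) = 0 := by
        rw [← show (w + p₁ + p₂ + p₃) + (w + p₁ + -p₂ + -p₃) + (w + -p₁ + p₂ + -p₃)
          + (w + -p₁ + -p₂ + p₃) = w + (w + w + w) by abel, hs, hx, hx'', hxx'']; simp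
      rwa [three_zero, add_zero] at this
    · have : p₁ + (p₁ + p₁ + p₁) = 0 := by
        rw [← show (w + p₁ + p₂ + p₃) + (w + p₁ + -p₂ + -p₃) - (w + -p₁ + p₂ + -p₃)
          - (w + -p₁ + -p₂ + p₃) = p₁ + (p₁ + p₁ + p₁) by abel, hs, hx, hx'', hxx'']; simp
      rwa [three_zero, add_zero] at this
    · have : p₂ + (p₂ + p₂ + p₂) = 0 := by
        rw [← show (w + p₁ + p₂ + p₃) - (w + p₁ + -p₂ + -p₃) + (w + -p₁ + p₂ + -p₃)
          - (w + -p₁ + -p₂ + p₃) = p₂ + (p₂ + p₂ + p₂) by abel, hs, hx, hx'', hxx'']; simp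
      rwa [three_zero, add_zero] at this
    · have : p₃ + (p₃ + p₃ + p₃) = 0 := by
        rw [← show (w + p₁ + p₂ + p₃) - (w + p₁ + -p₂ + -p₃) - (w + -p₁ + p₂ + -p₃)
          + (w + -p₁ + -p₂ + p₃) = p₃ + (p₃ + p₃ + p₃) by abel, hs, hx, hx'', hxx'']; simp
      rwa [three_zero, add_zero] at this
  -- rank argument
  have hrank : ∀ f : Fin 3 → M, (∀ i, f i ∈ LinearMap.range D) →
      ¬ LinearIndependent (ZMod 3) f := by
    intro f hf hli
    have hli' : LinearIndependent (ZMod 3) (fun i => (⟨f i, hf i⟩ : LinearMap.range D)) :=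
      LinearIndependent.of_comp (LinearMap.range D).subtype hli
    have h1 := hli'.fintype_card_le_finrank
    simp only [Fintype.card_fin] at h1
    have := hh.rank
    rw [← hD] at this
    omega
  have hline : ∀ v : M, ψ x v = v → ψ x' v = -v → ∃ c : ZMod 3, v = c • y := by
    intro v hv hv'
    by_contra hno
    push Not at hno
    refine hrank ![D y, D (ψ b y), D v] ?_ ?_
    · intro i; fin_cases i <;> exact LinearMap.mem_range_self _ _
    rw [Fintype.linearIndependent_iff]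
    intro g hg
    simp only [Fin.sum_univ_three, Matrix.cons_val_zero, Matrix.cons_val_one, Matrix.cons_val,
      hDv] at hg
    have bv : ψ x (ψ b v) = -(ψ b v) ∧ ψ x' (ψ b v) = ψ b v :=
      ⟨by rw [hb2, hv', map_neg, hv, map_neg], by rw [hb1, hv]⟩
    obtain ⟨-, q1, q2, q3⟩ := sep 0 (-(g 0 • y) - g 2 • v)
      (g 0 • ψ b y - g 1 • ψ b y + g 2 • ψ b v) (g 1 • ψ b (ψ b y)) (map_zero _) (map_zero _)
      (by simp [hyx, hv]) (by simp [hyx', hv']; abel) (by simp [by1.1, bv.1]; abel)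
      (by simp [by1.2, bv.2]) (by simp [by2.1]) (by simp [by2.2])
      (by simp only [smul_sub] at hg; rw [zero_add]; refine Eq.trans ?_ hg; abel)
    have hby : ψ b (ψ b y) ≠ 0 := fun h => hy0 (app_inj (ψ := ψ) b (app_inj (ψ := ψ) b (by simpa using h)))
    have g1 : g 1 = 0 := by
      rcases smul_eq_zero.mp q3 with h | h
      · exact h
      · exact absurd h hby
    have g2 : g 2 = 0 := by
      by_contra h2
      refine hno (-(g 2)⁻¹ * g 0) ?_
      have : g 2 • v = -(g 0 • y) := by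
        rw [eq_neg_iff_add_eq_zero, ← neg_eq_zero, neg_add]; rw [← q1]; abel
      have h3 := congrArg ((g 2)⁻¹ • ·) this
      simp only [inv_smul_smul₀ h2, smul_neg, smul_smul] at h3
      rw [h3, neg_mul, neg_smul]
    have g0 : g 0 = 0 := by
      rw [g2, zero_smul, sub_zero, neg_eq_zero] at q1
      rcases smul_eq_zero.mp q1 with h | h
      · exact h
      · exact absurd h hy0
    intro i; fin_cases i <;> assumption
  have hfix : ∀ v : M, ψ x v = v → ψ x' v = v → ψ b v = v := by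
    intro v hv hv'
    have hDf : ψ x (D v) = D v ∧ ψ x' (D v) = D v := by
      rw [hDv]; constructor
      · rw [map_sub, hb2, hv', hv]
      · rw [map_sub, hb1, hv, hv']
    by_contra hne
    have hne' : D v ≠ 0 := by rw [hDv]; exact sub_ne_zero.mpr hne
    refine hrank ![D y, D (ψ b y), D v] ?_ ?_
    · intro i; fin_cases i <;> exact LinearMap.mem_range_self _ _
    rw [Fintype.linearIndependent_iff]
    intro g hg
    simp only [Fin.sum_univ_three, Matrix.cons_val_zero, Matrix.cons_val_one, Matrix.cons_val]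
      at hg
    obtain ⟨q0, q1, q2, q3⟩ := sep (g 2 • D v) (-(g 0 • y)) (g 0 • ψ b y - g 1 • ψ b y)
      (g 1 • ψ b (ψ b y)) (by simp [hDf.1]) (by simp [hDf.2])
      (by simp [hyx]) (by simp [hyx']) (by simp [by1.1]; abel) (by simp [by1.2])
      (by simp [by2.1]) (by simp [by2.2])
      (by rw [← hg]; simp only [hDv, smul_sub]; abel)
    have hby : ψ b (ψ b y) ≠ 0 := fun h => hy0 (app_inj (ψ := ψ) b (app_inj (ψ := ψ) b (by simpa using h)))
    rw [neg_eq_zero] at q1
    rw [smul_eq_zero] at q0 q1 q3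
    intro i; fin_cases i
    · exact q1.resolve_right hy0
    · exact q3.resolve_right hby
    · exact q0.resolve_right hne'
  refine ⟨y, hy0, hyx, hyx', hline, hfix, fun v => ?_⟩
  obtain ⟨w, p₁, p₂, p₃, hw, hp₁, hp₂, hp₃, rfl⟩ := dec v
  obtain ⟨c₁, rfl⟩ := hline p₁ hp₁.1 hp₁.2
  -- move the other components to the first line
  have hb3v : ∀ u, ψ b (ψ b (ψ b u)) = u := fun u => by
    rw [← app_mul, ← app_mul, ← pow_three' b, hh.b3, app_one]
  obtain ⟨c₃, hc₃⟩ := hline (ψ b p₃)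
    (by rw [hb2, hp₃.2, map_neg, hp₃.1, neg_neg]) (by rw [hb1, hp₃.1, map_neg])
  obtain ⟨c₂, hc₂⟩ := hline (ψ b (ψ b p₂))
    (by simp [hb1, hb2, hp₂.1, hp₂.2, map_neg])
    (by rw [hb1, hb2, hp₂.2, hp₂.1, map_neg, map_neg])
  refine ⟨w, c₁, c₂, c₃, hw.1, hw.2, ?_⟩
  have e3 : p₃ = c₃ • ψ b (ψ b y) := by
    rw [← hb3v p₃, hc₃, map_smul, map_smul]
  have e2 : p₂ = c₂ • ψ b y := by rw [← hb3v p₂, hc₂, map_smul]
  rw [e2, e3]

/-- Invariant subspaces are trivial. -/
theorem Hyp.irred [Finite G] [FiniteDimensional (ZMod 3) M] (hh : Hyp ψ R b x)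
    (N : Submodule (ZMod 3) M) (hN : ∀ g : G, ∀ v ∈ N, ψ g v ∈ N) : N = ⊥ ∨ N = ⊤ := by
  obtain ⟨y, hy0, hyx, hyx', hline, hfix, hdec⟩ := hh.lines
  by_cases hyN : y ∈ N
  · right
    have hb : ∀ v, ψ b v - v ∈ N := by
      intro v
      obtain ⟨w, c₁, c₂, c₃, hw, hw', rfl⟩ := hdec v
      have e := hfix w hw hw'
      have hy1 : ψ b y ∈ N := hN b y hyN
      have hy2 : ψ b (ψ b y) ∈ N := hN b _ hy1
      have hy3 : ψ b (ψ b (ψ b y)) ∈ N := hN b _ hy2
      simp only [map_add, map_smul, e]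
      rw [show w + c₁ • ψ b y + c₂ • ψ b (ψ b y) + c₃ • ψ b (ψ b (ψ b y))
          - (w + c₁ • y + c₂ • ψ b y + c₃ • ψ b (ψ b y))
          = c₁ • ψ b y + c₂ • ψ b (ψ b y) + c₃ • ψ b (ψ b (ψ b y))
            - (c₁ • y + c₂ • ψ b y + c₃ • ψ b (ψ b y)) by abel]
      exact N.sub_mem
        (N.add_mem (N.add_mem (N.smul_mem _ hy1) (N.smul_mem _ hy2)) (N.smul_mem _ hy3))
        (N.add_mem (N.add_mem (N.smul_mem _ hyN) (N.smul_mem _ hy1)) (N.smul_mem _ hy2))
    let K : Subgroup G :=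
      { carrier := {g | ∀ v, ψ g v - v ∈ N}
        one_mem' := fun v => by simp [app_one]
        mul_mem' := fun {g h} hg hh' v => by
          have := N.add_mem (hg (ψ h v)) (hh' v)
          rw [app_mul]; simpa using this
        inv_mem' := fun {g} hg v => by
          have := N.neg_mem (hg (ψ g⁻¹ v))
          rw [← app_mul, mul_inv_cancel, app_one, neg_sub] at this; exact this }
    have hKn : K.Normal := ⟨fun g hg c v => by
      have := hN c _ (hg (ψ c⁻¹ v))
      rw [map_sub, ← app_mul, ← app_mul, ← app_mul, mul_inv_cancel, app_one] at this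
      exact this⟩
    have hK := hh.le_of_normal K hb
    rw [eq_top_iff]
    intro v _
    have hfin : Fintype R := Fintype.ofFinite R
    have hc : (Fintype.card R : ZMod 3) ≠ 0 := by
      rw [Ne, ZMod.natCast_eq_zero_iff, ← Nat.card_eq_fintype_card]; exact hh.cop
    have h0 : ∑ r : R, ψ (r : G) v = 0 := by
      refine hh.fix0 _ fun r hr => ?_
      rw [map_sum]
      exact Fintype.sum_equiv (Equiv.mulLeft (⟨r, hr⟩ : R)) _ _ (fun i => by
        simp [app_mul])
    have h1 : ∑ r : R, (ψ (r : G) v - v) ∈ N :=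
      N.sum_mem fun r _ => (hK ▸ Subgroup.mem_top (r : G) : (r : G) ∈ K) v
    rw [Finset.sum_sub_distrib, h0, zero_sub, Finset.sum_const, Finset.card_univ,
      ← Nat.cast_smul_eq_nsmul (ZMod 3), neg_mem_iff] at h1
    have := N.smul_mem (Fintype.card R : ZMod 3)⁻¹ h1
    rwa [inv_smul_smul₀ hc] at this
  · left
    obtain ⟨hxx, hx'x'⟩ : (∀ v, ψ x (ψ x v) = v) ∧
        ∀ v, ψ (b * x * b⁻¹) (ψ (b * x * b⁻¹) v) = v :=
      ⟨fun v => by rw [← app_mul, hh.x2, app_one], fun v => by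
        rw [← app_mul, show b * x * b⁻¹ * (b * x * b⁻¹) = b * (x * x) * b⁻¹ by group, hh.x2,
          mul_one, mul_inv_cancel, app_one]⟩
    have hb3v : ∀ u, ψ b (ψ b (ψ b u)) = u := fun u => by
      rw [← app_mul, ← app_mul, ← pow_three' b, hh.b3, app_one]
    have hc1 : ∀ v ∈ N, ∀ w : M, ∀ c₁ c₂ c₃ : ZMod 3, ψ x w = w →
        ψ (b * x * b⁻¹) w = w → v = w + c₁ • y + c₂ • ψ b y + c₃ • ψ b (ψ b y) → c₁ = 0 := by
      intro v hv w c₁ c₂ c₃ hw hw' e
      have b1 : ψ x (ψ b y) = -(ψ b y) ∧ ψ (b * x * b⁻¹) (ψ b y) = ψ b y := by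
        constructor
        · have e' : ψ x (ψ b y) = ψ b (ψ x (ψ (b * x * b⁻¹) y)) := by
            rw [← app_mul, ← app_mul, ← app_mul, mul_assoc]
            congr 2
            calc x * b = (x * (b * x * b⁻¹)) * (b * x * b⁻¹) * b := by
                  rw [mul_assoc x, show b * x * b⁻¹ * (b * x * b⁻¹) = b * (x * x) * b⁻¹ by group,
                    hh.x2]; group
              _ = (b * (b * x * b⁻¹) * b⁻¹) * (b * x * b⁻¹) * b := by rw [hh.xconj]
              _ = b * ((b * x * b⁻¹) * x) := by group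
              _ = b * (x * (b * x * b⁻¹)) := by rw [hh.xcomm]
          rw [e', hyx', map_neg, hyx, map_neg]
        · rw [← app_mul, show b * x * b⁻¹ * b = b * x by group, app_mul, hyx]
      have b2 : ψ (b * x * b⁻¹) (ψ b (ψ b y)) = -(ψ b (ψ b y)) ∧
          ψ x (ψ b (ψ b y)) = -(ψ b (ψ b y)) := by
        have h1 : ψ (b * x * b⁻¹) (ψ b (ψ b y)) = -(ψ b (ψ b y)) := by
          rw [← app_mul, show b * x * b⁻¹ * b = b * x by group, app_mul, b1.1, map_neg]
        refine ⟨h1, ?_⟩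
        have e' : ψ x (ψ b (ψ b y)) = ψ b (ψ x (ψ (b * x * b⁻¹) (ψ b y))) := by
          rw [← app_mul x b (ψ b y), ← app_mul x _ (ψ b y), ← app_mul b _ (ψ b y)]
          congr 2
          calc x * b = (x * (b * x * b⁻¹)) * (b * x * b⁻¹) * b := by
                rw [mul_assoc x, show b * x * b⁻¹ * (b * x * b⁻¹) = b * (x * x) * b⁻¹ by group,
                  hh.x2]; group
            _ = (b * (b * x * b⁻¹) * b⁻¹) * (b * x * b⁻¹) * b := by rw [hh.xconj]
            _ = b * ((b * x * b⁻¹) * x) := by group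
            _ = b * (x * (b * x * b⁻¹)) := by rw [hh.xcomm]
        rw [e', b1.2, b1.1, map_neg]
      by_contra hc
      apply hyN
      have hm : v + ψ x v - ψ (b * x * b⁻¹) v - ψ x (ψ (b * x * b⁻¹) v) = c₁ • y := by
        rw [e]
        simp only [map_add, map_smul, map_neg, hw, hw', hyx, hyx', b1.1, b1.2, b2.1, b2.2,
          smul_neg, neg_neg]
        have := three_zero (c₁ • y)
        calc _ = c₁ • y + (c₁ • y + c₁ • y + c₁ • y) := by abel
          _ = c₁ • y := by rw [this, add_zero]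
      have : c₁ • y ∈ N := hm ▸ N.sub_mem
        (N.sub_mem (N.add_mem hv (hN x v hv)) (hN _ v hv)) (hN x _ (hN _ v hv))
      have := N.smul_mem c₁⁻¹ this
      rwa [inv_smul_smul₀ hc] at this
    have hfixN : ∀ v ∈ N, ψ b v = v := by
      intro v hv
      obtain ⟨w, c₁, c₂, c₃, hw, hw', e⟩ := hdec v
      have e1 := hc1 v hv w c₁ c₂ c₃ hw hw' e
      have hbw := hfix w hw hw'
      have hv1 : ψ b v = w + c₃ • y + c₁ • ψ b y + c₂ • ψ b (ψ b y) := by
        rw [e]; simp only [map_add, map_smul, hbw, hb3v]; abel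
      have e3 := hc1 _ (hN b v hv) w c₃ c₁ c₂ hw hw' hv1
      have hv2 : ψ b (ψ b v) = w + c₂ • y + c₃ • ψ b y + c₁ • ψ b (ψ b y) := by
        rw [hv1]; simp only [map_add, map_smul, hbw, hb3v]; abel
      have e2 := hc1 _ (hN b _ (hN b v hv)) w c₂ c₃ c₁ hw hw' hv2
      rw [e, e1, e2, e3]; simp [hbw]
    let K : Subgroup G :=
      { carrier := {g | ∀ v ∈ N, ψ g v = v}
        one_mem' := fun v _ => app_one v
        mul_mem' := fun {g h} hg hh' v hv => by rw [app_mul, hh' v hv, hg v hv]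
        inv_mem' := fun {g} hg v hv => by
          have := congrArg (ψ g⁻¹) (hg v hv); rwa [app_inv, eq_comm] at this }
    have hKn : K.Normal := ⟨fun g hg c v hv => by
      rw [app_mul, app_mul, hg _ (hN c⁻¹ v hv), ← app_mul, mul_inv_cancel, app_one]⟩
    have hK := hh.le_of_normal K hfixN
    rw [eq_bot_iff]
    intro v hv
    exact hh.fix0 v fun r _ => (hK ▸ Subgroup.mem_top r : r ∈ K) v hv

end Cfsg.Agent.CubicBlock
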