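import Cfsg.Agent.Lib.CubicBlock.Count
import Cfsg.Agent.Lib.CubicBlock.Monomial

/-! The structure of `R`. -/

namespace Cfsg.Agent.CubicBlock

open Subgroup Module
open scoped commutatorElement

variable {G : Type*} [Group G] {M : Type*} [AddCommGroup M] [Module (ZMod 3) M]
variable {ψ : G →* Module.End (ZMod 3) M} {R : Subgroup G} {b x : G}

theorem five_cube : ∀ i : ZMod 5, i * i * i = 1 → i = 1 := by decide

theorem small_q (i q : ℕ) (hi : i < 4) (hq : q.Prime) (h5 : 5 ≤ q) (h : q ∣ 16 - 2 ^ i) :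
    (q = 5 ∧ 2 ^ i = 1) ∨ (q = 7 ∧ 2 ^ i = 2) := by
  have : 2 ^ i ≤ 8 := le_trans (Nat.pow_le_pow_right (by norm_num) (Nat.lt_succ_iff.mp hi)) (by norm_num)
  have hle : q ≤ 16 := (Nat.le_of_dvd (by omega) h).trans (Nat.sub_le _ _)
  interval_cases i <;> interval_cases q
  all_goals (revert hq h; norm_num)

set_option maxHeartbeats 2000000 in
theorem Core.contra [Finite G] [Group.IsSolvable G] [FiniteDimensional (ZMod 3) M]
    {U : Subgroup G} {z : G}
    (hh : Hyp ψ R b x) (hsc : ScalarCase ψ R) (hc : Core ψ R U z) : False := by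
  classical
  haveI := hh.normal
  haveI := hc.normal
  haveI : Fact (Nat.Prime 2) := ⟨Nat.prime_two⟩
  have hzc : ∀ g, z * g = g * z := (hc.sc_iff hh |>.mpr (Or.inr rfl)).comm hh
  set Z := Subgroup.center U with hZdef
  set T := U ⧸ Z with hT
  haveI := Fintype.ofFinite T
  set π := QuotientGroup.mk' Z with hπ
  -- the action on `T`
  let cj : G → U → U := fun g u => ⟨g * u * g⁻¹, hc.normal.conj_mem u u.2 g⟩
  have cjmul : ∀ g u v, cj g (u * v) = cj g u * cj g v := fun g u v => Subtype.ext (by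
    simp only [cj, Subgroup.coe_mul]; group)
  have hπsc : ∀ u v : U, π u = π v ↔ IsSc ψ ((u : G)⁻¹ * v) := by
    intro u v
    rw [← inv_mul_eq_one, ← map_inv, ← map_mul]
    refine (QuotientGroup.eq_one_iff _).trans ?_
    rw [hc.sc_iff hh, hZdef, Subgroup.mem_center_iff]
    constructor
    · intro h
      exact (hc.sc_iff hh).mp (hc.centre _ (u⁻¹ * v).2 fun w hw =>
        (congrArg Subtype.val (h ⟨w, hw⟩)).symm)
    · intro h w
      refine Subtype.ext ?_
      have : IsSc ψ ((u : G)⁻¹ * v) := (hc.sc_iff hh).mpr h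
      exact (this.comm hh w).symm
  let act : G → T → T := fun g t => π (cj g (Quotient.out t))
  have actπ : ∀ g u, act g (π u) = π (cj g u) := by
    intro g u
    have h : π (Quotient.out (π u)) = π u := QuotientGroup.out_eq' _
    rw [hπsc] at h
    change π (cj g _) = _
    rw [hπsc]
    have e : ((cj g (Quotient.out (π u)) : U) : G)⁻¹ * (cj g u : U)
        = g * (((Quotient.out (π u) : U) : G)⁻¹ * u) * g⁻¹ := by simp only [cj]; group
    rw [e, ← h.comm hh g, mul_inv_cancel_right]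
    exact h
  have act1 : ∀ t, act 1 t = t := by
    intro t
    obtain ⟨u, rfl⟩ := QuotientGroup.mk'_surjective Z t
    rw [actπ]; congr 1; exact Subtype.ext (by simp [cj])
  have actm : ∀ g h t, act (g * h) t = act g (act h t) := by
    intro g h t
    obtain ⟨u, rfl⟩ := QuotientGroup.mk'_surjective Z t
    rw [actπ h, actπ g, actπ (g * h)]; congr 1; exact Subtype.ext (by simp only [cj]; group)
  let Θ : G →* Equiv.Perm T := MonoidHom.mk'
    (fun g => ⟨act g, act g⁻¹, fun t => by rw [← actm, inv_mul_cancel, act1],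
      fun t => by rw [← actm, mul_inv_cancel, act1]⟩)
    (fun g h => Equiv.ext fun t => actm g h t)
  have hΘmul : ∀ g (s t : T), Θ g (s * t) = Θ g s * Θ g t := by
    intro g s t
    obtain ⟨u, rfl⟩ := QuotientGroup.mk'_surjective Z s
    obtain ⟨v, rfl⟩ := QuotientGroup.mk'_surjective Z t
    change act g (π u * π v) = act g (π u) * act g (π v)
    rw [← map_mul, actπ, actπ, actπ, ← map_mul, cjmul]
  have hΘπ : ∀ g u, Θ g (π u) = π (cj g u) := actπ
  -- the kernel
  have hker : ∀ r ∈ R, Θ r = 1 → r * r ∈ U := by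
    intro r hr h1
    refine hc.cent _ (R.mul_mem hr hr) fun u hu => ?_
    have h := DFunLike.congr_fun h1 (π ⟨u, hu⟩)
    rw [hΘπ, Equiv.Perm.one_apply, eq_comm, hπsc] at h
    set w := u⁻¹ * (r * u * r⁻¹) with hw
    have hs : IsSc ψ w := h
    have h1' : r * u * r⁻¹ = u * w := by rw [hw]; group
    have h2 : r * (r * u * r⁻¹) * r⁻¹ = u := by
      rw [h1', show r * (u * w) * r⁻¹ = (r * u * r⁻¹) * (r * w * r⁻¹) by group, h1',
        ← hs.comm hh r, mul_inv_cancel_right, mul_assoc, hs.sq hh, mul_one]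
    nth_rw 2 [← h2]; group
  have hK2 : ∀ N : Subgroup G, N.Normal → N ≤ R → (∀ n ∈ N, ∃ k : ℕ, Θ (n ^ 2 ^ k) = 1) → N ≤ U := by
    intro N hN hNR hk
    refine hc.max N hN (fun n => ?_) hNR
    obtain ⟨k, hk⟩ := hk n n.2
    obtain ⟨j, hj⟩ := hc.two ⟨_, hker _ (hNR (N.pow_mem n.2 _)) hk⟩
    refine ⟨k + (1 + j), Subtype.ext ?_⟩
    have := congrArg Subtype.val hj
    rw [Subgroup.coe_pow, Subgroup.coe_one] at this
    rw [Subgroup.coe_pow, Subgroup.coe_one, pow_add, pow_mul, pow_add, pow_one, pow_mul, pow_two]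
    exact this
  have hbound := hc.bound hh
  rw [← hZdef, ← hT, Nat.card_eq_fintype_card] at hbound
  by_cases htriv : ∀ r ∈ R, Θ r = 1
  · -- `R = U` contains a bad abelian normal subgroup
    have hRU : R ≤ U := hK2 R hh.normal le_rfl fun n hn => ⟨0, by simpa using htriv n hn⟩
    set x' := b * x * b⁻¹ with hx'
    have hx'2 : x' * x' = 1 := by
      rw [hx', show b * x * b⁻¹ * (b * x * b⁻¹) = b * (x * x) * b⁻¹ by group, hh.x2, mul_one,
        mul_inv_cancel]
    set A := Subgroup.closure ({x, x', z} : Set G) with hA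
    have hgen : ∀ a ∈ ({x, x', z} : Set G), ∀ c ∈ ({x, x', z} : Set G), a * c = c * a := by
      intro a ha c hcm
      simp only [Set.mem_insert_iff, Set.mem_singleton_iff] at ha hcm
      rcases ha with rfl | rfl | rfl <;> rcases hcm with rfl | rfl | rfl <;>
        first
        | rfl
        | exact hh.xcomm
        | exact hh.xcomm.symm
        | exact hzc _
        | exact (hzc _).symm
    have hAc : ∀ a ∈ A, ∀ c ∈ A, a * c = c * a := by
      have h1 : A ≤ Subgroup.centralizer ({x, x', z} : Set G) := by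
        rw [hA, Subgroup.closure_le]
        exact fun a ha => Subgroup.mem_centralizer_iff.mpr fun c hc' => hgen c hc' a ha
      intro a ha c hc'
      have h2 : A ≤ Subgroup.centralizer ({a} : Set G) := by
        rw [hA, Subgroup.closure_le]
        intro g hg
        exact Subgroup.mem_centralizer_singleton_iff.mpr
          (Subgroup.mem_centralizer_iff.mp (h1 ha) g hg)
      exact (Subgroup.mem_centralizer_singleton_iff.mp (h2 hc')).symm
    have hA2 : ∀ a ∈ A, a * a = 1 := by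
      intro a ha
      rw [hA] at ha
      induction ha using Subgroup.closure_induction with
      | mem g hg =>
        simp only [Set.mem_insert_iff, Set.mem_singleton_iff] at hg
        rcases hg with rfl | rfl | rfl
        · exact hh.x2
        · exact hx'2
        · exact (hc.sc_iff hh |>.mpr (Or.inr rfl)).sq hh
      | one => exact one_mul 1
      | mul g h hg hh' ig ih =>
        rw [mul_assoc, ← mul_assoc h g, hAc h (hA ▸ hh') g (hA ▸ hg), mul_assoc g h h, ih, mul_one, ig]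
      | inv g hg ig => rw [← mul_inv_rev, ig, inv_one]
    have hxA : x ∈ A := Subgroup.subset_closure (by simp)
    have hx'A : x' ∈ A := Subgroup.subset_closure (by simp)
    have hzA : z ∈ A := Subgroup.subset_closure (by simp)
    have hAR : A ≤ R := by
      rw [hA, Subgroup.closure_le]
      intro g hg
      simp only [Set.mem_insert_iff, Set.mem_singleton_iff] at hg
      rcases hg with rfl | rfl | rfl
      exacts [hh.xR, hh.bx_mem, hc.le hc.zU]
    have hcl : ∀ g : G, (∀ a ∈ ({x, x', z} : Set G), g * a * g⁻¹ ∈ A) →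
        ∀ a ∈ A, g * a * g⁻¹ ∈ A := by
      intro g hg a ha
      have : A ≤ A.comap (MulAut.conj g).toMonoidHom := by
        conv_lhs => rw [hA]
        rw [Subgroup.closure_le]; exact hg
      exact this ha
    let N : Subgroup G :=
      { carrier := {g | (∀ a ∈ A, g * a * g⁻¹ ∈ A) ∧ ∀ a ∈ A, g⁻¹ * a * g ∈ A}
        one_mem' := ⟨fun a ha => by simpa using ha, fun a ha => by simpa using ha⟩
        mul_mem' := fun {g h} hg hh' => ⟨fun a ha => by
          rw [show g * h * a * (g * h)⁻¹ = g * (h * a * h⁻¹) * g⁻¹ by group]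
          exact hg.1 _ (hh'.1 a ha), fun a ha => by
          rw [show (g * h)⁻¹ * a * (g * h) = h⁻¹ * (g⁻¹ * a * g) * h by group]
          exact hh'.2 _ (hg.2 a ha)⟩
        inv_mem' := fun {g} hg => ⟨fun a ha => by simpa using hg.2 a ha,
          fun a ha => by simpa using hg.1 a ha⟩ }
    have hUN : ∀ u ∈ U, ∀ a ∈ A, u * a * u⁻¹ ∈ A := by
      intro u hu
      refine hcl u fun a ha => ?_
      have haA : a ∈ A := Subgroup.subset_closure ha
      have hs := hc.comm u hu a (hRU (hAR haA))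
      have e : u * a * u⁻¹ = ⁅u, a⁆ * a := by rw [commutatorElement_def]; group
      rw [e]
      rcases (hc.sc_iff hh).mp hs with h | h <;> rw [h]
      · rwa [one_mul]
      · exact A.mul_mem hzA haA
    have hNR : R ≤ N := fun r hr => ⟨hUN r (hRU hr), fun a ha => by
      simpa using hUN r⁻¹ (U.inv_mem (hRU hr)) a ha⟩
    have hbA : ∀ a ∈ A, b * a * b⁻¹ ∈ A := by
      refine hcl b fun a ha => ?_
      simp only [Set.mem_insert_iff, Set.mem_singleton_iff] at ha
      rcases ha with rfl | rfl | rfl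
      · exact hx'A
      · rw [hx', hh.xconj]; exact A.mul_mem hxA hx'A
      · rw [← hzc, mul_inv_cancel_right]; exact hzA
    have hbN : b ∈ N := ⟨hbA, fun a ha => by
      have h := hbA _ (hbA a ha)
      have e : b⁻¹ * a * b = b * (b * a * b⁻¹) * b⁻¹ := by
        have hb2 : b * b = b⁻¹ := eq_inv_of_mul_eq_one_left (by rw [← pow_three', hh.b3])
        calc b⁻¹ * a * b = (b * b) * a * (b * b)⁻¹ := by rw [hb2, inv_inv]
          _ = _ := by group
      rw [e]; exact h⟩
    have hNtop := hh.gen N hNR hbN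
    have hAn : A.Normal := ⟨fun a ha g => ((hNtop ▸ Subgroup.mem_top g : g ∈ N)).1 a ha⟩
    have hx := hsc A hAn hAR hAc hA2 x hxA
    exact hh.xne (by rw [← IsSc.comm hh hx b]; group)
  -- a nontrivial elementary abelian section
  push Not at htriv
  obtain ⟨r₀, hr₀, hr₀1⟩ := htriv
  obtain ⟨n, hn⟩ := (Group.isSolvable_def R).mp inferInstance
  have hex : ∃ k, ∀ g ∈ (derivedSeries R k).map R.subtype, Θ g = 1 :=
    ⟨n, by rw [hn, Subgroup.map_bot]; rintro g rfl; exact map_one Θ⟩
  have hpos : Nat.find hex ≠ 0 := fun h0 => hr₀1 (by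
    have h := Nat.find_spec hex r₀
    rw [h0, derivedSeries_zero] at h
    exact h ⟨⟨r₀, hr₀⟩, Subgroup.mem_top _, rfl⟩)
  obtain ⟨j, hj⟩ := Nat.exists_eq_succ_of_ne_zero hpos
  set D : Subgroup G := (derivedSeries R j).map R.subtype with hD
  haveI hDn : D.Normal := ConjAct.normal_of_characteristic_of_normal
  have hDR : D ≤ R := Subgroup.map_subtype_le _
  have hDc : ∀ p ∈ D, ∀ q ∈ D, Θ p * Θ q = Θ q * Θ p := by
    rintro _ ⟨p, hp, rfl⟩ _ ⟨q, hq, rfl⟩
    have hm : (⁅p, q⁆ : R) ∈ derivedSeries R (Nat.find hex) := by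
      rw [hj, derivedSeries_succ]; exact Subgroup.commutator_mem_commutator hp hq
    have h := Nat.find_spec hex _ (Subgroup.mem_map_of_mem R.subtype hm)
    rw [map_commutatorElement, map_commutatorElement, commutatorElement_eq_one_iff_mul_comm] at h
    exact h
  have hDne : ¬ ∀ d ∈ D, ∃ k : ℕ, Θ (d ^ 2 ^ k) = 1 := by
    intro hall
    have hDU := hK2 D hDn hDR hall
    refine Nat.find_min hex (show j < Nat.find hex by rw [hj]; exact Nat.lt_succ_self j) ?_
    intro d hd
    refine Equiv.ext fun t => ?_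
    obtain ⟨u, rfl⟩ := QuotientGroup.mk'_surjective Z t
    rw [hΘπ, Equiv.Perm.one_apply, eq_comm, hπsc]
    change IsSc ψ ((u : G)⁻¹ * (d * u * d⁻¹))
    have := hc.comm _ (U.inv_mem u.2) d (hDU hd)
    simpa [commutatorElement_def, mul_assoc] using this
  push Not at hDne
  obtain ⟨d, hd, hd2⟩ := hDne
  obtain ⟨k, m, hm, hkm⟩ := Nat.exists_eq_two_pow_mul_odd (orderOf_pos (Θ d)).ne'
  have hm1 : m ≠ 1 := fun h => hd2 k (by
    rw [map_pow, ← orderOf_dvd_iff_pow_eq_one, hkm, h, mul_one])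
  set q := m.minFac with hq
  have hqp : q.Prime := Nat.minFac_prime hm1
  haveI : Fact q.Prime := ⟨hqp⟩
  have hq2 : q ≠ 2 := fun h => by
    have := hm.of_dvd_nat (h ▸ Nat.minFac_dvd m : 2 ∣ m)
    exact absurd this (by decide)
  have hqm : q ∣ orderOf (Θ d) := hkm ▸ dvd_mul_of_dvd_right (Nat.minFac_dvd m) _
  have hq3 : q ≠ 3 := by
    intro h
    apply hh.cop
    refine h ▸ hqm.trans ((orderOf_map_dvd Θ d).trans ?_)
    have := orderOf_dvd_natCard (⟨d, hDR hd⟩ : R)
    rwa [Subgroup.orderOf_mk] at this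
  let E : Subgroup (Equiv.Perm T) :=
    { carrier := {e | (∃ d ∈ D, Θ d = e) ∧ e ^ q = 1}
      one_mem' := ⟨⟨1, D.one_mem, map_one Θ⟩, one_pow q⟩
      mul_mem' := fun {e f} he hf => by
        obtain ⟨⟨p, hp, rfl⟩, he2⟩ := he
        obtain ⟨⟨p', hp', rfl⟩, hf2⟩ := hf
        exact ⟨⟨p * p', D.mul_mem hp hp', map_mul Θ p p'⟩, by
          rw [(show Commute (Θ p) (Θ p') from hDc p hp p' hp').mul_pow, he2, hf2, one_mul]⟩
      inv_mem' := fun {e} he => by
        obtain ⟨⟨p, hp, rfl⟩, he2⟩ := he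
        exact ⟨⟨p⁻¹, D.inv_mem hp, map_inv Θ p⟩, by rw [inv_pow, he2, inv_one]⟩ }
  have hEc : ∀ e ∈ E, ∀ f ∈ E, e * f = f * e := by
    rintro e ⟨⟨p, hp, rfl⟩, -⟩ f ⟨⟨p', hp', rfl⟩, -⟩
    exact hDc p hp p' hp'
  have hEn : ∀ g : G, ∀ e ∈ E, Θ g * e * (Θ g)⁻¹ ∈ E := by
    rintro g e ⟨⟨p, hp, rfl⟩, he2⟩
    exact ⟨⟨g * p * g⁻¹, hDn.conj_mem p hp g, by simp⟩, by rw [conj_pow, he2]; group⟩
  have hEmul : ∀ e ∈ E, ∀ s t : T, e (s * t) = e s * e t := by
    rintro e ⟨⟨p, -, rfl⟩, -⟩; exact hΘmul p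
  have hEq : IsPGroup q E := fun e => ⟨1, Subtype.ext (by
    rw [Subgroup.coe_pow, pow_one]; exact e.2.2)⟩
  obtain ⟨e₀, he₀, he₀1⟩ : ∃ e ∈ E, e ≠ 1 := by
    refine ⟨(Θ d) ^ (orderOf (Θ d) / q), ⟨⟨d ^ (orderOf (Θ d) / q), D.pow_mem hd _, map_pow Θ _ _⟩,
      by rw [← pow_mul, Nat.div_mul_cancel hqm, pow_orderOf_eq_one]⟩, ?_⟩
    intro h
    have hpos := Nat.div_pos (Nat.le_of_dvd (orderOf_pos _) hqm) hqp.pos
    have := Nat.le_of_dvd hpos (orderOf_dvd_of_pow_eq_one h)
    exact absurd this (not_le.mpr (Nat.div_lt_self (orderOf_pos _) hqp.one_lt))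
  have hT2 : IsPGroup 2 T := hc.two.to_quotient Z
  -- fixed subgroups
  have hfix : ∀ (H : Subgroup E) (S : Subgroup T) (hS : ∀ e : E, e ∈ H → ∀ t ∈ S, (e : Equiv.Perm T) t ∈ S),
      Nat.card S ≡ Nat.card {t : S // ∀ e : E, e ∈ H → (e : Equiv.Perm T) (t : T) = t} [MOD q] := by
    intro H S hS
    letI : MulAction H S :=
      { smul := fun e t => ⟨((e : E) : Equiv.Perm T) t, hS e e.2 t t.2⟩
        one_smul := fun t => rfl
        mul_smul := fun e f t => rfl }
    have hH : IsPGroup q H := hEq.to_subgroup H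
    have h := hH.card_modEq_card_fixedPoints S
    refine h.trans ?_
    rw [Nat.card_congr (Equiv.subtypeEquivRight fun t : S => ?_)]
    rw [MulAction.mem_fixedPoints]
    exact ⟨fun h e he => congrArg Subtype.val (h ⟨e, he⟩), fun h e => Subtype.ext (h _ e.2)⟩
  -- the subgroup fixed by a set of elements of `E`
  let Fix : Subgroup E → Subgroup T := fun H =>
    { carrier := {t | ∀ e : E, e ∈ H → (e : Equiv.Perm T) t = t}
      one_mem' := fun e _ => by
        have := hEmul e e.2 1 1; rwa [mul_one, left_eq_mul] at this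
      mul_mem' := fun {s t} hs ht e he => by rw [hEmul e e.2, hs e he, ht e he]
      inv_mem' := fun {t} ht e he => by
        have h := hEmul e e.2 t t⁻¹
        have h1 : (e : Equiv.Perm T) 1 = 1 := by
          have := hEmul e e.2 1 1; rwa [mul_one, left_eq_mul] at this
        rw [mul_inv_cancel, h1, ht e he] at h
        exact eq_inv_of_mul_eq_one_right h.symm }
  have hFixcard : ∀ H : Subgroup E, Fintype.card T ≡ Nat.card (Fix H) [MOD q] := by
    intro H
    have := hfix H ⊤ (fun e _ t _ => Subgroup.mem_top _)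
    rw [Subgroup.card_top, Nat.card_eq_fintype_card] at this
    refine this.trans ?_
    rw [Nat.card_congr (show {t : (⊤ : Subgroup T) // ∀ e : E, e ∈ H →
        (e : Equiv.Perm T) (t : T) = t} ≃ Fix H from
      { toFun := fun t => (⟨((t : (⊤ : Subgroup T)) : T), t.2⟩ : Fix H)
        invFun := fun t => ⟨⟨t, Subgroup.mem_top _⟩, t.2⟩
        left_inv := fun t => rfl
        right_inv := fun t => rfl })]
  have hlow : ∀ H : Subgroup E, Fix H ≠ ⊤ → Fintype.card T = 16 ∧
      ((q = 5 ∧ Nat.card (Fix H) = 1) ∨ (q = 7 ∧ Nat.card (Fix H) = 2)) := by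
    intro H hne
    have hmod := hFixcard H
    obtain ⟨i, hi⟩ := IsPGroup.iff_card.mp (hT2.to_subgroup (Fix H))
    have hdvd := Subgroup.card_subgroup_dvd_card (Fix H)
    have hlt : Nat.card (Fix H) < Fintype.card T := by
      rw [← Nat.card_eq_fintype_card]
      exact (Subgroup.card_le_card_group _).lt_of_ne fun h => hne (Subgroup.eq_top_of_card_eq _ h)
    rw [hi] at hmod hlt ⊢
    have hi4 : i < 4 := by
      by_contra h
      have := Nat.pow_le_pow_right (show 2 > 0 by norm_num) (not_lt.mp h)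
      rcases hbound with h' | h' <;> rw [h'] at hlt <;> norm_num at this <;> omega
    have hdiff : q ∣ Fintype.card T - 2 ^ i := (Nat.modEq_iff_dvd' hlt.le).mp hmod.symm
    have hq5 : 5 ≤ q := by
      have := hqp.two_le
      by_contra h
      have : q = 4 := by omega
      rw [this] at hqp; norm_num at hqp
    have hqle := Nat.le_of_dvd (by omega) hdiff
    rcases hbound with h' | h' <;> rw [h'] at hlt hdiff hqle ⊢
    · omega
    refine ⟨rfl, ?_⟩
    exact small_q i q hi4 hqp hq5 hdiff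
  have hFtop : Fix ⊤ ≠ ⊤ := fun h => he₀1 (Equiv.ext fun t =>
    (h ▸ Subgroup.mem_top t : t ∈ Fix ⊤) ⟨e₀, he₀⟩ (Subgroup.mem_top _))
  obtain ⟨hT16, hcase⟩ := hlow ⊤ hFtop
  rcases hcase with ⟨hq5, hF1⟩ | ⟨-, hF2⟩
  swap
  · -- a fixed class of order two gives an abelian normal subgroup
    let N : Subgroup G :=
      { carrier := {g | ∃ h : g ∈ U, π ⟨g, h⟩ ∈ Fix ⊤}
        one_mem' := ⟨U.one_mem, by
          change π (1 : U) ∈ Fix ⊤; rw [map_one]; exact one_mem _⟩
        mul_mem' := fun {g h} ⟨g1, g2⟩ ⟨h1, h2⟩ => ⟨U.mul_mem g1 h1, by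
          change π (⟨g, g1⟩ * ⟨h, h1⟩) ∈ Fix ⊤; rw [map_mul]; exact mul_mem g2 h2⟩
        inv_mem' := fun {g} ⟨g1, g2⟩ => ⟨U.inv_mem g1, by
          change π (⟨g, g1⟩⁻¹) ∈ Fix ⊤; rw [map_inv]; exact inv_mem g2⟩ }
    have hNn : N.Normal := ⟨fun g hg c => by
      obtain ⟨g1, g2⟩ := hg
      refine ⟨hc.normal.conj_mem g g1 c, fun e _ => ?_⟩
      have e' : (Θ c)⁻¹ * (e : Equiv.Perm T) * Θ c ∈ E := by
        have h := hEn c⁻¹ e e.2; rw [map_inv, inv_inv] at h; exact h
      have h := g2 ⟨_, e'⟩ (Subgroup.mem_top _)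
      have h' := congrArg (Θ c) h
      simp only [← Equiv.Perm.mul_apply, ← mul_assoc, mul_inv_cancel, one_mul] at h'
      rw [← hΘπ c ⟨g, g1⟩]
      exact h'⟩
    obtain ⟨t₁, t₂, -, htt⟩ := Nat.card_eq_two_iff.mp hF2
    have hall : ∀ g ∈ N, IsSc ψ g := hh.abelian_scalar hsc N (fun g hg => hc.le hg.1) (by
      rintro a ⟨ha, ha'⟩ c ⟨hc', hc''⟩
      by_cases h1 : π ⟨a, ha⟩ = 1
      · rw [← map_one π, eq_comm, hπsc] at h1
        exact (show IsSc ψ a by simpa using h1).comm hh c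
      by_cases h2 : π ⟨c, hc'⟩ = 1
      · rw [← map_one π, eq_comm, hπsc] at h2
        exact ((show IsSc ψ c by simpa using h2).comm hh a).symm
      have key : π ⟨a, ha⟩ = π ⟨c, hc'⟩ := by
        have m1 : (⟨_, ha'⟩ : Fix ⊤) ∈ ({t₁, t₂} : Set (Fix ⊤)) := htt ▸ Set.mem_univ _
        have m2 : (⟨_, hc''⟩ : Fix ⊤) ∈ ({t₁, t₂} : Set (Fix ⊤)) := htt ▸ Set.mem_univ _
        have m0 : (1 : Fix ⊤) ∈ ({t₁, t₂} : Set (Fix ⊤)) := htt ▸ Set.mem_univ _
        simp only [Set.mem_insert_iff, Set.mem_singleton_iff] at m0 m1 m2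
        rcases m1 with m1 | m1 <;> rcases m2 with m2 | m2
        · exact congrArg Subtype.val (m1.trans m2.symm)
        · rcases m0 with m0 | m0
          · exact absurd (congrArg Subtype.val (m1.trans m0.symm)) h1
          · exact absurd (congrArg Subtype.val (m2.trans m0.symm)) h2
        · rcases m0 with m0 | m0
          · exact absurd (congrArg Subtype.val (m2.trans m0.symm)) h2
          · exact absurd (congrArg Subtype.val (m1.trans m0.symm)) h1
        · exact congrArg Subtype.val (m1.trans m2.symm)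
      rw [hπsc] at key
      rw [show c = a * (a⁻¹ * c) by group, mul_assoc a (a⁻¹ * c) a, key.comm hh a])
    have hbot : Fix ⊤ = ⊥ := by
      rw [eq_bot_iff]
      intro t ht
      obtain ⟨⟨u, hu⟩, rfl⟩ := QuotientGroup.mk'_surjective Z t
      rw [Subgroup.mem_bot, ← map_one π, eq_comm, hπsc]
      simpa using hall u ⟨hu, ht⟩
    rw [hbot, Subgroup.card_bot] at hF2
    omega
  -- every nontrivial element of `E` fixes only the trivial class
  have hone : ∀ e ∈ E, e ≠ 1 → ∀ t, e t = t → t = 1 := by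
    intro e he hne t ht
    set H := Subgroup.zpowers (⟨e, he⟩ : E) with hH
    have hmemH : t ∈ Fix H := by
      intro f hf
      obtain ⟨i, rfl⟩ := Subgroup.mem_zpowers_iff.mp hf
      rw [Subgroup.coe_zpow]
      exact Equiv.Perm.zpow_apply_eq_self_of_apply_eq_self ht i
    have hHtop : Fix H ≠ ⊤ := fun h => hne (Equiv.ext fun s =>
      (h ▸ Subgroup.mem_top s : s ∈ Fix H) ⟨e, he⟩ (Subgroup.mem_zpowers _))
    rcases (hlow H hHtop).2 with ⟨-, h⟩ | ⟨h, -⟩
    · rw [Subgroup.card_eq_one] at h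
      rw [h] at hmemH
      exact Subgroup.mem_bot.mp hmemH
    · omega
  obtain ⟨t₀, ht₀⟩ : ∃ t : T, t ≠ 1 := by
    by_contra h; push Not at h
    have : Fintype.card T ≤ 1 := Fintype.card_le_one_iff.mpr fun a c => (h a).trans (h c).symm
    omega
  -- `E` has order five
  have hE5 : Nat.card E = 5 := by
    have hinj : Function.Injective (fun e : E => (e : Equiv.Perm T) t₀) := by
      intro e f h
      by_contra hne
      refine ht₀ (hone ((f : Equiv.Perm T)⁻¹ * e) (E.mul_mem (E.inv_mem f.2) e.2) ?_ t₀ ?_)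
      · exact fun h1 => hne (Subtype.ext (inv_mul_eq_one.mp h1).symm)
      · simp only at h; rw [Equiv.Perm.mul_apply, h, Equiv.Perm.inv_def, Equiv.symm_apply_apply]
    have hle := Nat.card_le_card_of_injective _ hinj
    rw [Nat.card_eq_fintype_card (α := T), hT16] at hle
    obtain ⟨i, hi⟩ := IsPGroup.iff_card.mp hEq
    rw [hq5] at hi
    have h1 : 1 < Nat.card E := by
      haveI : Nontrivial E := ⟨⟨⟨e₀, he₀⟩, 1, fun h => he₀1 (congrArg Subtype.val h)⟩⟩
      exact Finite.one_lt_card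
    rw [hi] at hle h1 ⊢
    rcases i with _ | _ | i
    · simp at h1
    · rfl
    · exfalso
      have : 5 ^ 2 ≤ 5 ^ (i + 1 + 1) := Nat.pow_le_pow_right (by norm_num) (by omega)
      omega
  have hzp : ∀ f ∈ E, ∃ i : ℕ, e₀ ^ i = f := by
    intro f hf
    haveI : Fact (Nat.Prime 5) := ⟨by norm_num⟩
    have htop : Subgroup.zpowers (⟨e₀, he₀⟩ : E) = ⊤ :=
      zpowers_eq_top_of_prime_card hE5 fun h => he₀1 (congrArg Subtype.val h)
    obtain ⟨i, hi⟩ := (mem_powers_iff_mem_zpowers.mpr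
      (htop ▸ Subgroup.mem_top (⟨f, hf⟩ : E)) : (⟨f, hf⟩ : E) ∈ Submonoid.powers ⟨e₀, he₀⟩)
    exact ⟨i, congrArg Subtype.val hi⟩
  have hcomm_b : ∀ f ∈ E, Θ b * f = f * Θ b := by
    obtain ⟨i, hi⟩ := hzp _ (hEn b e₀ he₀)
    have hconj : ∀ j : ℕ, Θ b * e₀ ^ j * (Θ b)⁻¹ = e₀ ^ (i * j) := fun j => by
      rw [pow_mul, hi, conj_pow]
    have h3 : e₀ ^ (i * i * i) = e₀ := by
      rw [mul_assoc, ← hconj, ← hconj, hi,
        show Θ b * (Θ b * (Θ b * e₀ * (Θ b)⁻¹) * (Θ b)⁻¹) * (Θ b)⁻¹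
          = (Θ b) ^ 3 * e₀ * ((Θ b) ^ 3)⁻¹ by simp [pow_succ, mul_assoc], ← map_pow, hh.b3,
        map_one, one_mul, inv_one, mul_one]
    haveI : Fact (Nat.Prime 5) := ⟨by norm_num⟩
    have ho : orderOf e₀ = 5 := orderOf_eq_prime (hq5 ▸ he₀.2) he₀1
    have h3' : i * i * i ≡ 1 [MOD 5] := by
      rw [← ho, ← pow_eq_pow_iff_modEq, pow_one]; exact h3
    have hi1 : e₀ ^ i = e₀ := by
      nth_rw 2 [← pow_one e₀]
      rw [pow_eq_pow_iff_modEq, ho, ← ZMod.natCast_eq_natCast_iff, Nat.cast_one]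
      apply five_cube
      rw [← ZMod.natCast_eq_natCast_iff] at h3'
      simpa using h3'
    intro f hf
    obtain ⟨j, rfl⟩ := hzp f hf
    have := hconj j
    rw [pow_mul, hi1] at this
    exact mul_inv_eq_iff_eq_mul.mp this
  -- all of `G` centralises `E`
  let Cn : Subgroup G :=
    { carrier := {g | ∀ f ∈ E, Θ g * f = f * Θ g}
      one_mem' := fun f _ => by simp
      mul_mem' := fun {g h} hg hh' f hf => by
        rw [map_mul, mul_assoc, hh' f hf, ← mul_assoc, hg f hf, mul_assoc]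
      inv_mem' := fun {g} hg f hf => by
        rw [map_inv, eq_mul_inv_iff_mul_eq, mul_assoc, ← hg f hf, inv_mul_cancel_left] }
  have hCn : Cn.Normal := ⟨fun g hg c f hf => by
    have hf' : (Θ c)⁻¹ * f * Θ c ∈ E := by
      have h := hEn c⁻¹ f hf; rw [map_inv, inv_inv] at h; exact h
    have h := hg _ hf'
    rw [map_mul, map_mul, map_inv]
    calc Θ c * Θ g * (Θ c)⁻¹ * f = Θ c * (Θ g * ((Θ c)⁻¹ * f * Θ c)) * (Θ c)⁻¹ := by group
      _ = Θ c * (((Θ c)⁻¹ * f * Θ c) * Θ g) * (Θ c)⁻¹ := by rw [h]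
      _ = f * (Θ c * Θ g * (Θ c)⁻¹) := by group⟩
  have hCtop := hh.le_of_normal Cn hcomm_b
  -- the image is abelian
  set C := Θ.range with hC
  have hcardC : Nat.card C ≤ 15 := by
    have hne : ∀ c : C, (c : Equiv.Perm T) t₀ ≠ 1 := by
      rintro ⟨_, g, rfl⟩ h
      have h1 : Θ g 1 = 1 := by have := hΘmul g 1 1; rwa [mul_one, left_eq_mul] at this
      exact ht₀ ((Θ g).injective (h.trans h1.symm))
    have hinj : Function.Injective (fun c : C => (⟨(c : Equiv.Perm T) t₀, hne c⟩ : {t : T // t ≠ 1})) := by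
      rintro ⟨_, g, rfl⟩ ⟨_, g', rfl⟩ h
      have h0 : Θ g t₀ = Θ g' t₀ := congrArg Subtype.val h
      let S : Subgroup T :=
        { carrier := {t | Θ g t = Θ g' t}
          one_mem' := by
            have h1 := hΘmul g 1 1; have h2 := hΘmul g' 1 1
            rw [mul_one, left_eq_mul] at h1 h2
            exact h1.trans h2.symm
          mul_mem' := fun {s t} hs ht => by
            change Θ g (s * t) = Θ g' (s * t); rw [hΘmul, hΘmul, hs, ht]
          inv_mem' := fun {t} ht => by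
            change Θ g t⁻¹ = Θ g' t⁻¹
            have a1 := hΘmul g t t⁻¹; have a2 := hΘmul g' t t⁻¹
            rw [mul_inv_cancel] at a1 a2
            have h1 := hΘmul g 1 1; have h2 := hΘmul g' 1 1
            rw [mul_one, left_eq_mul] at h1 h2
            rw [h1] at a1; rw [h2, ← ht] at a2
            exact mul_left_cancel (a1.symm.trans a2) }
      have hSinv : ∀ e : E, e ∈ (⊤ : Subgroup E) → ∀ t ∈ S, (e : Equiv.Perm T) t ∈ S := by
        intro e _ t ht
        have c1 := (hCtop ▸ Subgroup.mem_top g : g ∈ Cn) e e.2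
        have c2 := (hCtop ▸ Subgroup.mem_top g' : g' ∈ Cn) e e.2
        change Θ g ((e : Equiv.Perm T) t) = Θ g' ((e : Equiv.Perm T) t)
        rw [← Equiv.Perm.mul_apply, ← Equiv.Perm.mul_apply, c1, c2, Equiv.Perm.mul_apply,
          Equiv.Perm.mul_apply, ht]
      have hmod := hfix ⊤ S hSinv
      have hfix1 : Nat.card {t : S // ∀ e : E, e ∈ (⊤ : Subgroup E) → (e : Equiv.Perm T) (t : T) = t} = 1 := by
        rw [Nat.card_eq_one_iff_unique]
        refine ⟨⟨fun a c => ?_⟩, ⟨⟨1, fun e _ => (Fix ⊤).one_mem e (Subgroup.mem_top _)⟩⟩⟩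
        refine Subtype.ext (Subtype.ext ?_)
        rw [hone e₀ he₀ he₀1 _ (a.2 ⟨e₀, he₀⟩ (Subgroup.mem_top _)),
          hone e₀ he₀ he₀1 _ (c.2 ⟨e₀, he₀⟩ (Subgroup.mem_top _))]
      rw [hfix1, hq5] at hmod
      obtain ⟨i, hi⟩ := IsPGroup.iff_card.mp (hT2.to_subgroup S)
      have hle : Nat.card S ≤ 16 := by
        have := Subgroup.card_le_card_group S
        rwa [Nat.card_eq_fintype_card (α := T), hT16] at this
      have hgt : 1 < Nat.card S := by
        haveI : Nontrivial S := ⟨⟨⟨t₀, h0⟩, 1, fun h => ht₀ (congrArg Subtype.val h)⟩⟩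
        exact Finite.one_lt_card
      have hS16 : Nat.card S = 16 := by
        rw [hi] at hmod hle hgt ⊢
        have hi5 : i < 5 := by
          by_contra h
          have : 2 ^ 5 ≤ 2 ^ i := Nat.pow_le_pow_right (by norm_num) (not_lt.mp h)
          omega
        interval_cases i <;> first | rfl | (exfalso; revert hmod; decide) | omega
      have hStop : S = ⊤ := Subgroup.eq_top_of_card_eq _ (by
        rw [hS16, Nat.card_eq_fintype_card, hT16])
      exact Subtype.ext (Equiv.ext fun t => (hStop ▸ Subgroup.mem_top t : t ∈ S))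
    have := Nat.card_le_card_of_injective _ hinj
    rw [Nat.card_eq_fintype_card (α := {t : T // t ≠ 1}), Fintype.card_subtype_compl,
      Fintype.card_subtype_eq, hT16] at this
    exact this
  have hEC : E ≤ C := fun e he => by
    obtain ⟨p, -, hp⟩ := he.1; exact ⟨p, hp⟩
  have hEZ : E.subgroupOf C ≤ Subgroup.center C := by
    intro e he
    rw [Subgroup.mem_center_iff]
    rintro ⟨_, g, rfl⟩
    exact Subtype.ext ((hCtop ▸ Subgroup.mem_top g : g ∈ Cn) e he)
  have h5Z : 5 ∣ Nat.card (Subgroup.center C) := by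
    have h := Subgroup.card_dvd_of_le hEZ
    rwa [Nat.card_congr (Subgroup.subgroupOfEquivOfLe hEC).toEquiv, hE5] at h
  have hquot : IsCyclic (C ⧸ Subgroup.center C) := by
    have hmul := Subgroup.card_eq_card_quotient_mul_card_subgroup (Subgroup.center C)
    have hZpos : 0 < Nat.card (Subgroup.center C) := Nat.card_pos
    have h5 : 5 ≤ Nat.card (Subgroup.center C) := Nat.le_of_dvd hZpos h5Z
    have hQ : Nat.card (C ⧸ Subgroup.center C) ≤ 3 := by
      by_contra h
      have : 4 * 5 ≤ Nat.card (C ⧸ Subgroup.center C) * Nat.card (Subgroup.center C) :=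
        Nat.mul_le_mul (by omega) h5
      omega
    have hQpos : 0 < Nat.card (C ⧸ Subgroup.center C) := Nat.card_pos
    rcases (by omega : Nat.card (C ⧸ Subgroup.center C) = 1 ∨
      Nat.card (C ⧸ Subgroup.center C) = 2 ∨ Nat.card (C ⧸ Subgroup.center C) = 3) with h | h | h
    · haveI := (Nat.card_eq_one_iff_unique.mp h).1
      exact isCyclic_of_subsingleton
    · haveI : Fact (Nat.Prime 2) := ⟨Nat.prime_two⟩
      exact isCyclic_of_prime_card h
    · haveI : Fact (Nat.Prime 3) := ⟨Nat.prime_three⟩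
      exact isCyclic_of_prime_card h
  have hab : ∀ g h : G, Θ g * Θ h = Θ h * Θ g := fun g h => by
    have := commutative_of_cyclic_center_quotient (QuotientGroup.mk' (Subgroup.center C))
      (by rw [QuotientGroup.ker_mk']) (⟨Θ g, g, rfl⟩ : C) ⟨Θ h, h, rfl⟩
    exact congrArg Subtype.val this
  exact hr₀1 (hh.kills Θ (fun r _ => hab r b) r₀ hr₀)

/-- The structure of `R`. -/
theorem Hyp.good [Finite G] [Group.IsSolvable G] [FiniteDimensional (ZMod 3) M]
    (hh : Hyp ψ R b x) : Good R := by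
  by_cases hsc : ScalarCase ψ R
  · obtain ⟨U, h1, h2, h3, h4, h5, h6, h7, h8, z, hz, hzn⟩ := hh.twoCore hsc
    exact (Core.contra hh hsc ⟨h1, h2, h3, h4, h5, h6, h7, h8, hz, hzn⟩).elim
  · simp only [ScalarCase] at hsc
    push Not at hsc
    obtain ⟨A, hA, hAR, hc, hsq, a, ha, ha1, han⟩ := hsc
    exact mono_case hh A hAR hc hsq ⟨a, ha, ha1, han⟩

end Cfsg.Agent.CubicBlock
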